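import Cfsg.Agent.Lib.Helper32.BG10Defs

/-!
# B&G Section 10: basic consequences of the Uniqueness Theorem
-/

set_option autoImplicit false

open Cfsg

namespace Cfsg.Agent.Lib.Helper32.BG10

open Cfsg.Agent.Lib.Helper32

universe u

variable {G : Type u} [Group G] [Finite G]

omit [Finite G] in
/-- rank at least 3 at the prime `p` gives rank at least 2 and 3 -/
theorem not_rankLE_of_not_prankLE {p : ℕ} (hp : p.Prime) {K : Subgroup G}
    (h3 : ¬ PRankLE p 2 ↥K) : ¬ RankLE 1 ↥K ∧ ¬ RankLE 2 ↥K := by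
  constructor
  · intro h
    apply h3
    intro A hA hAe
    exact (h p hp A hA hAe).trans (Nat.pow_le_pow_right hp.pos (by norm_num))
  · intro h
    exact h3 (h p hp)

omit [Finite G] in
/-- a subgroup of `M` of `p`-rank at least 3 lies in no other maximal subgroup -/
theorem uniqIn_of_rank3 (hUT : UT G) {M : Subgroup G} (hM : IsCoatom M) {K : Subgroup G}
    (hKM : K ≤ M) {p : ℕ} (hp : p.Prime) (h3 : ¬ PRankLE p 2 ↥K) : UniqIn M K := by
  have hK : K ≠ ⊤ := fun h => hM.1 (top_le_iff.mp (h ▸ hKM))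
  obtain ⟨h1, h2⟩ := not_rankLE_of_not_prankLE hp h3
  obtain ⟨M', hM', hKM', hU⟩ := uniqIn_of_inUniqueMaximal (hUT K hK h1 (Or.inl h2))
  have hMM' : M = M' := hU M hM hKM
  rw [hMM']
  exact hU

/-- a proper subgroup containing a uniqueness subgroup lies in its maximal subgroup -/
theorem le_of_uniqIn {M K H : Subgroup G} (hK : UniqIn M K) (hKH : K ≤ H) (hH : H ≠ ⊤) :
    H ≤ M := by
  obtain ⟨L, hL, hHL⟩ := exists_coatom_ge hH
  rw [← hK L hL (hKH.trans hHL)]
  exact hHL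

omit [Finite G] in
theorem mem_normalizer_cj {g x : G} {H : Subgroup G} :
    x ∈ Subgroup.normalizer ((cj g H : Subgroup G) : Set G) ↔
      g⁻¹ * x * g ∈ Subgroup.normalizer (H : Set G) := by
  rw [← cj_eq_self_iff, ← cj_eq_self_iff]
  constructor
  · intro h
    have h1 : cj (g⁻¹ * x * g) H = cj g⁻¹ (cj x (cj g H)) := by
      rw [← cj_mul, ← cj_mul]
    rw [h1, h, cj_inv_cj]
  · intro h
    have h1 : cj x (cj g H) = cj g (cj (g⁻¹ * x * g) H) := by
      rw [← cj_mul, ← cj_mul]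
      congr 1
      group
    rw [h1, h]

/-- all Sylow `p`-subgroups of `M` have their normalizer in `M` when `p ∈ σ(M)`, and they are
Sylow `p`-subgroups of `G` -/
theorem sigma_sylSet {M : Subgroup G} {p : ℕ} [Fact p.Prime] (hp : p ∈ sigma M)
    {Q : Subgroup G} (hQ : Q ∈ sylSet p M) :
    Subgroup.normalizer (Q : Set G) ≤ M ∧ Q ∈ sylSet p ⊤ := by
  obtain ⟨-, -, P', hP'⟩ := hp
  have hQ' := mem_sylSet_of_sylow P'
  obtain ⟨n, hn, hnQ⟩ := sylSet_conj hQ' hQ
  have hN : Subgroup.normalizer (Q : Set G) ≤ M := by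
    intro x hx
    rw [← hnQ, mem_normalizer_cj] at hx
    have h1 := hP' hx
    have h2 : x = n * (n⁻¹ * x * n) * n⁻¹ := by group
    rw [h2]
    exact M.mul_mem (M.mul_mem hn h1) (M.inv_mem hn)
  exact ⟨hN, mem_sylSet_of_normalizer_le hQ hN le_top⟩

theorem sigma_sylow {M : Subgroup G} {p : ℕ} [Fact p.Prime] (hp : p ∈ sigma M)
    (P : Sylow p ↥M) :
    Subgroup.normalizer (((P : Subgroup ↥M).map M.subtype : Subgroup G) : Set G) ≤ M ∧
      (P : Subgroup ↥M).map M.subtype ∈ sylSet p ⊤ :=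
  sigma_sylSet hp (mem_sylSet_of_sylow P)

/-- `p ∈ σ(M)` from one Sylow `p`-subgroup of `M` with normalizer in `M` -/
theorem mem_sigma_of_normalizer_le {M : Subgroup G} {p : ℕ} [Fact p.Prime] {Q : Subgroup G}
    (hQ : Q ∈ sylSet p M) (hQ1 : Q ≠ ⊥) (hN : Subgroup.normalizer (Q : Set G) ≤ M) :
    p ∈ sigma M := by
  have hp := (Fact.out : p.Prime)
  obtain ⟨S, hS⟩ := exists_sylow_of_mem_sylSet hQ
  refine ⟨hp, ?_, S, ?_⟩
  · have h1 : Nat.card Q ∣ Nat.card M := Subgroup.card_dvd_of_le hQ.1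
    obtain ⟨k, hk⟩ := IsPGroup.iff_card.mp (isPGroup_of_mem_sylSet hQ)
    have hk0 : k ≠ 0 := by
      rintro rfl
      rw [pow_zero] at hk
      exact hQ1 ((Subgroup.card_eq_one).mp hk)
    rw [hk] at h1
    exact (dvd_pow_self p hk0).trans h1
  · rw [hS]
    exact hN

/-- `α(M) ⊆ σ(M)` -/
theorem alpha_sub_sigma (hG : IsMinSimpleOddOrder G) (hUT : UT G) {M : Subgroup G}
    (hM : IsCoatom M) : alpha M ⊆ sigma M := by
  rintro p ⟨hp, h3⟩
  have : Fact p.Prime := ⟨hp⟩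
  obtain ⟨Q, hQ⟩ := sylSet_nonempty p M
  have hQ3 : ¬ PRankLE p 2 ↥Q := fun h => h3 (prankLE_of_sylSet hQ 2 h)
  have hQp := isPGroup_of_mem_sylSet hQ
  have hQ1 : Q ≠ ⊥ := by
    rintro rfl
    apply hQ3
    intro A _ _
    have h1 : Nat.card A = 1 := by
      have : Subsingleton ↥(⊥ : Subgroup G) := inferInstance
      have : Subsingleton ↥A := inferInstance
      exact Nat.card_unique
    rw [h1]
    exact Nat.one_le_pow _ _ hp.pos
  have hU := uniqIn_of_rank3 hUT hM hQ.1 hp hQ3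
  have hN : Subgroup.normalizer (Q : Set G) ≤ M :=
    le_of_uniqIn hU Subgroup.le_normalizer
      (minSimple_normalizer_ne_top hG hQ1 (minSimple_pgroup_ne_top hG hQp))
  exact mem_sigma_of_normalizer_le hQ hQ1 hN

end Cfsg.Agent.Lib.Helper32.BG10
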