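import Cfsg.Agent.Lib.Helper32.BG10Basic

/-!
# B&G Theorem 10.1 (S1404), modulo the Uniqueness Theorem
-/

set_option autoImplicit false

open Cfsg

namespace Cfsg.Agent.Lib.Helper32.BG10

open Cfsg.Agent.Lib.Helper32

universe u

variable {G : Type u} [Group G] [Finite G]

omit [Finite G] in
/-- elementwise form of a join `H ⊔ K` when `H` normalizes `K` -/
theorem mem_sup_of_le_normalizer {H K : Subgroup G} (h : H ≤ Subgroup.normalizer (K : Set G))
    {x : G} (hx : x ∈ H ⊔ K) : ∃ a ∈ H, ∃ b ∈ K, x = a * b := by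
  rw [← Subgroup.closure_eq H, ← Subgroup.closure_eq K, ← Subgroup.closure_union] at hx
  induction hx using Subgroup.closure_induction with
  | mem y hy =>
    rcases hy with hy | hy
    · exact ⟨y, hy, 1, K.one_mem, (mul_one y).symm⟩
    · exact ⟨1, H.one_mem, y, hy, (one_mul y).symm⟩
  | one => exact ⟨1, H.one_mem, 1, K.one_mem, (mul_one 1).symm⟩
  | mul y z _ _ ihy ihz =>
    obtain ⟨a, ha, b, hb, rfl⟩ := ihy
    obtain ⟨a', ha', b', hb', rfl⟩ := ihz
    refine ⟨a * a', H.mul_mem ha ha', a'⁻¹ * b * a' * b', K.mul_mem ?_ hb', by group⟩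
    exact (Subgroup.mem_normalizer_iff''.mp (h ha') b).mp hb
  | inv y _ ih =>
    obtain ⟨a, ha, b, hb, rfl⟩ := ih
    refine ⟨a⁻¹, H.inv_mem ha, a * b⁻¹ * a⁻¹, ?_, by group⟩
    exact (Subgroup.mem_normalizer_iff.mp (h ha) b⁻¹).mp (K.inv_mem hb)

omit [Finite G] in
theorem prankLE_mono {p k : ℕ} {A B : Subgroup G} (h : A ≤ B) (hr : PRankLE p k ↥B) :
    PRankLE p k ↥A := by
  by_contra hcon
  obtain ⟨E, hEA, hEc, hEe, hEcard⟩ := exists_of_not_prankLE hcon
  exact not_prankLE_of_le (hEA.trans h) hEc hEe hEcard hr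

/-- `σ` is invariant under conjugation -/
theorem sigma_cj {M : Subgroup G} {p : ℕ} [Fact p.Prime] (hp : p ∈ sigma M) (g : G) :
    p ∈ sigma (cj g M) := by
  have hp' := (Fact.out : p.Prime)
  obtain ⟨Q, hQ⟩ := sylSet_nonempty p M
  obtain ⟨hN, -⟩ := sigma_sylSet hp hQ
  have hQ1 : Q ≠ ⊥ := by
    rintro rfl
    have h1 := hQ.2
    rw [Subgroup.card_bot] at h1
    have hpos : 0 < (Nat.card M).factorization p :=
      hp'.factorization_pos_of_dvd Nat.card_pos.ne' hp.2.1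
    have h2 : 1 < p ^ (Nat.card M).factorization p := Nat.one_lt_pow hpos.ne' hp'.one_lt
    omega
  have hcQ : cj g Q ∈ sylSet p (cj g M) :=
    ⟨cj_mono g hQ.1, by rw [card_cj, card_cj]; exact hQ.2⟩
  refine mem_sigma_of_normalizer_le hcQ ?_ ?_
  · intro h
    apply hQ1
    apply Subgroup.card_eq_one.mp
    rw [← card_cj g Q, h, Subgroup.card_bot]
  · intro x hx
    rw [mem_normalizer_cj] at hx
    rw [mem_cj]
    exact hN hx

/-- every `p`-subgroup lies in a conjugate of `M` when `p ∈ σ(M)` -/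
theorem exists_cj_ge {M : Subgroup G} {p : ℕ} [Fact p.Prime] (hp : p ∈ sigma M)
    {S : Subgroup G} (hS : IsPGroup p S) : ∃ n : G, S ≤ cj n M := by
  obtain ⟨Q, hQ⟩ := sylSet_nonempty p M
  obtain ⟨-, hQG⟩ := sigma_sylSet hp hQ
  obtain ⟨S', hS', hSS'⟩ := exists_sylSet_ge hS (le_top : S ≤ ⊤)
  obtain ⟨n, -, hn⟩ := sylSet_conj hQG hS'
  exact ⟨n, hSS'.trans (hn ▸ cj_mono n hQ.1)⟩

omit [Finite G] in
theorem mem_of_cj_eq (hG : IsMinSimpleOddOrder G) {M : Subgroup G} (hM : IsCoatom M)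
    (hM1 : M ≠ ⊥) {a : G} (h : cj a M = M) : a ∈ M := by
  have h1 := normalizer_eq_of_coatom hG hM hM1 le_rfl Subgroup.le_normalizer
  rw [← h1]
  exact cj_eq_self_iff.mp h

/-- `O_{p'}(N_G(X))` centralizes the `p`-group `X` -/
theorem core_le_centralizer {p : ℕ} [Fact p.Prime] {X : Subgroup G} (hXp : IsPGroup p X) :
    pPrimeCoreOf p (Subgroup.normalizer (X : Set G)) ≤ Subgroup.centralizer (X : Set G) := by
  intro k hk
  rw [Subgroup.mem_centralizer_iff]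
  intro x hx
  have hkN : k ∈ Subgroup.normalizer (X : Set G) := pPrimeCoreOf_le _ hk
  have hxN : x ∈ Subgroup.normalizer (X : Set G) := Subgroup.le_normalizer hx
  have h1 : x * k * x⁻¹ * k⁻¹ ∈ X := by
    have h0 : k * x⁻¹ * k⁻¹ ∈ X := (Subgroup.mem_normalizer_iff.mp hkN x⁻¹).mp (X.inv_mem hx)
    have h2 : x * k * x⁻¹ * k⁻¹ = x * (k * x⁻¹ * k⁻¹) := by group
    rw [h2]
    exact X.mul_mem hx h0
  have h2 : x * k * x⁻¹ * k⁻¹ ∈ pPrimeCoreOf p (Subgroup.normalizer (X : Set G)) := by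
    have h0 : x * k * x⁻¹ ∈ pPrimeCoreOf p (Subgroup.normalizer (X : Set G)) :=
      (Subgroup.mem_normalizer_iff.mp (le_normalizer_pPrimeCoreOf _ hxN) k).mp hk
    exact Subgroup.mul_mem _ h0 (Subgroup.inv_mem _ hk)
  have h3 : x * k * x⁻¹ * k⁻¹ = 1 := by
    have ho1 : orderOf (x * k * x⁻¹ * k⁻¹) ∣ Nat.card X := Subgroup.orderOf_dvd_natCard _ h1
    have ho2 := Subgroup.orderOf_dvd_natCard _ h2
    obtain ⟨m, hm⟩ := IsPGroup.iff_card.mp hXp
    rw [hm] at ho1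
    have hcop : (Nat.card (pPrimeCoreOf p (Subgroup.normalizer (X : Set G)))).Coprime (p ^ m) :=
      Nat.Coprime.pow_right m (pPrimeCoreOf_coprime _)
    exact orderOf_eq_one_iff.mp (Nat.eq_one_of_dvd_coprimes hcop ho2 ho1)
  have h4 : x * k * x⁻¹ = k := mul_inv_eq_one.mp h3
  exact mul_inv_eq_iff_eq_mul.mp h4

/-- transitivity of `C_G(X)` on the conjugates of `M` containing the `p`-group `X` -/
theorem trans_aux (hG : IsMinSimpleOddOrder G) (hUT : UT G) {p : ℕ} [Fact p.Prime] :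
    ∀ (d : ℕ) (X : Subgroup G), Nat.card G - Nat.card X = d → IsPGroup p X → X ≠ ⊥ →
      ∀ (M : Subgroup G), IsCoatom M → p ∈ sigma M → X ≤ M → ∀ g : G, X ≤ cj g M →
        ∃ c ∈ Subgroup.centralizer (X : Set G), cj g M = cj c M := by
  have hp := (Fact.out : p.Prime)
  intro d
  induction d using Nat.strong_induction_on with
  | _ d ih =>
  intro X hd hXp hX1 M hM hpM hXM g hXg
  have hXtop : X ≠ ⊤ := minSimple_pgroup_ne_top hG hXp
  have hp2 : p ≠ 2 := by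
    rintro rfl
    obtain ⟨m, hm⟩ := IsPGroup.iff_card.mp hXp
    have hodd := minSimple_odd_sub hG X
    rw [hm] at hodd
    rcases Nat.eq_zero_or_pos m with h0 | h0
    · rw [h0, pow_zero] at hm
      exact hX1 (Subgroup.card_eq_one.mp hm)
    · exact (Nat.not_even_iff_odd.mpr hodd) (even_iff_two_dvd.mpr (dvd_pow_self 2 h0.ne'))
  obtain ⟨Q, hQ, hXQ⟩ := exists_sylSet_ge hXp hXM
  obtain ⟨hNQ, hQG⟩ := sigma_sylSet hpM hQ
  have hM₂ : IsCoatom (cj g M) := isCoatom_cj g hM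
  have hpM₂ : p ∈ sigma (cj g M) := sigma_cj hpM g
  obtain ⟨Q₂, hQ₂, hXQ₂⟩ := exists_sylSet_ge hXp hXg
  obtain ⟨hNQ₂, hQ₂G⟩ := sigma_sylSet hpM₂ hQ₂
  by_cases hXQeq : X = Q
  · refine ⟨1, Subgroup.one_mem _, ?_⟩
    rw [cj_one]
    have hQg : Q ∈ sylSet p (cj g M) := ⟨hXQeq ▸ hXg, by rw [card_cj]; exact hQ.2⟩
    have hcQ : cj g Q ∈ sylSet p (cj g M) :=
      ⟨cj_mono g hQ.1, by rw [card_cj, card_cj]; exact hQ.2⟩
    obtain ⟨n, hn, hnQ⟩ := sylSet_conj hcQ hQg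
    have h1 : cj (n * g) Q = Q := by rw [cj_mul]; exact hnQ
    have h2 : n * g ∈ M := hNQ (cj_eq_self_iff.mp h1)
    have h3 : cj (n * g) M = M := cj_eq_self_iff.mpr (Subgroup.le_normalizer h2)
    have h4 : cj n (cj g M) = cj g M := cj_eq_self_iff.mpr (Subgroup.le_normalizer hn)
    rw [← h4, ← cj_mul, h3]
  · have hNtop : Subgroup.normalizer (X : Set G) ≠ ⊤ := minSimple_normalizer_ne_top hG hX1 hXtop
    have hXN : X ≤ Subgroup.normalizer (X : Set G) := Subgroup.le_normalizer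
    have hQp := isPGroup_of_mem_sylSet hQ
    have hQ₂p := isPGroup_of_mem_sylSet hQ₂
    have hcardG : ∀ Y : Subgroup G, Nat.card Y ≤ Nat.card G := fun Y => Subgroup.card_le_card_group Y
    -- the subgroups `N_Q(X)` and `N_{Q₂}(X)`
    obtain ⟨y₁, hy₁Q, hy₁X, hy₁N⟩ := exists_normalizing_not_mem hQp hXQ hXQeq
    have hXY₁ : X ≤ Q ⊓ Subgroup.normalizer (X : Set G) := le_inf hXQ hXN
    have hY₁p : IsPGroup p (Q ⊓ Subgroup.normalizer (X : Set G) : Subgroup G) :=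
      hQp.to_le inf_le_left
    have hY₁card : Nat.card X < Nat.card (Q ⊓ Subgroup.normalizer (X : Set G) : Subgroup G) :=
      card_lt_of_le_of_not_mem hXY₁ (Subgroup.mem_inf.mpr ⟨hy₁Q, hy₁N⟩) hy₁X
    have hY₁1 : (Q ⊓ Subgroup.normalizer (X : Set G) : Subgroup G) ≠ ⊥ :=
      fun h => hX1 (le_bot_iff.mp (h ▸ hXY₁))
    have hXQ₂ne : X ≠ Q₂ := by
      intro h
      apply hXQeq
      have hc : Nat.card Q ≤ Nat.card X := by rw [h, hQ₂G.2, hQG.2]
      exact Subgroup.eq_of_le_of_card_ge hXQ hc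
    obtain ⟨y₂, hy₂Q, hy₂X, hy₂N⟩ := exists_normalizing_not_mem hQ₂p hXQ₂ hXQ₂ne
    have hXY₂ : X ≤ Q₂ ⊓ Subgroup.normalizer (X : Set G) := le_inf hXQ₂ hXN
    have hY₂p : IsPGroup p (Q₂ ⊓ Subgroup.normalizer (X : Set G) : Subgroup G) :=
      hQ₂p.to_le inf_le_left
    have hY₂card : Nat.card X < Nat.card (Q₂ ⊓ Subgroup.normalizer (X : Set G) : Subgroup G) :=
      card_lt_of_le_of_not_mem hXY₂ (Subgroup.mem_inf.mpr ⟨hy₂Q, hy₂N⟩) hy₂X
    have hY₂1 : (Q₂ ⊓ Subgroup.normalizer (X : Set G) : Subgroup G) ≠ ⊥ :=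
      fun h => hX1 (le_bot_iff.mp (h ▸ hXY₂))
    -- a Sylow subgroup of `N_G(X)` over `N_Q(X)`
    obtain ⟨S, hS, hY₁S⟩ := exists_sylSet_ge hY₁p
      (inf_le_right : Q ⊓ Subgroup.normalizer (X : Set G) ≤ Subgroup.normalizer (X : Set G))
    have hSp := isPGroup_of_mem_sylSet hS
    have hXS : X ≤ S := hXY₁.trans hY₁S
    have hSX : Nat.card X < Nat.card S := lt_of_lt_of_le hY₁card (Subgroup.card_le_of_le hY₁S)
    have hS1 : S ≠ ⊥ := fun h => hX1 (le_bot_iff.mp (h ▸ hXS))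
    -- step A: `S` lies in `M' = M ^ c₁` with `c₁ ∈ C(X)`
    obtain ⟨n₁, hSn₁⟩ := exists_cj_ge hpM hSp
    obtain ⟨c₁, hc₁, hc₁M⟩ := ih (Nat.card G - Nat.card (Q ⊓ Subgroup.normalizer (X : Set G) :
      Subgroup G)) (by have := hcardG (Q ⊓ Subgroup.normalizer (X : Set G)); omega) _ rfl hY₁p hY₁1 M hM hpM
      (inf_le_left.trans hQ.1) n₁ (hY₁S.trans hSn₁)
    have hc₁X : c₁ ∈ Subgroup.centralizer (X : Set G) := Subgroup.centralizer_le hXY₁ hc₁
    rw [hc₁M] at hSn₁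
    have hM'c : IsCoatom (cj c₁ M) := isCoatom_cj c₁ hM
    have hpM' : p ∈ sigma (cj c₁ M) := sigma_cj hpM c₁
    have hM'1 : cj c₁ M ≠ ⊥ := fun h => hX1 (le_bot_iff.mp (h ▸ hXS.trans hSn₁))
    -- step B: `N_G(X) = C(X) (N_G(X) ∩ M')`
    have hF : ∀ n ∈ Subgroup.normalizer (X : Set G), ∃ c ∈ Subgroup.centralizer (X : Set G),
        ∃ m ∈ cj c₁ M, n = c * m := by
      by_cases hr : PRankLE p 2 ↥(Subgroup.normalizer (X : Set G))
      · have hrS : PRankLE p 2 ↥S := prankLE_mono hS.1 hr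
        have hSle := sylow_le_pPrimePCoreOf_of_rank2 hp2 (minSimple_solvable hG hNtop)
          (minSimple_odd_sub hG _) hS hrS
        have hfr := core_sup_normalizer_inf_rel hS
        rw [inf_eq_left.mpr hSle] at hfr
        intro n hn
        have hn' := hfr hn
        rw [sup_comm] at hn'
        have hnorm : (Subgroup.normalizer (X : Set G) ⊓ Subgroup.normalizer (S : Set G) :
            Subgroup G) ≤ Subgroup.normalizer
              ((pPrimeCoreOf p (Subgroup.normalizer (X : Set G)) : Subgroup G) : Set G) :=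
          inf_le_left.trans (le_normalizer_pPrimeCoreOf _)
        obtain ⟨a, ha, b, hb, rfl⟩ := mem_sup_of_le_normalizer hnorm hn'
        -- `a` normalizes `S`
        have haS : S ≤ cj a (cj c₁ M) := by
          have h1 : cj a S = S := cj_eq_self_iff.mpr ha.2
          rw [← h1]
          exact cj_mono a hSn₁
        obtain ⟨c, hc, hcM⟩ := ih (Nat.card G - Nat.card S)
          (by have := hcardG S; omega) S rfl hSp hS1 (cj c₁ M) hM'c hpM' hSn₁ a haS
        have h2 : cj (c⁻¹ * a) (cj c₁ M) = cj c₁ M := by rw [cj_mul, hcM, cj_inv_cj]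
        have h3 : c⁻¹ * a ∈ cj c₁ M := mem_of_cj_eq hG hM'c hM'1 h2
        have hcX : c ∈ Subgroup.centralizer (X : Set G) := Subgroup.centralizer_le hXS hc
        have hb' : a * b * a⁻¹ ∈ Subgroup.centralizer (X : Set G) := by
          apply core_le_centralizer hXp
          exact (Subgroup.mem_normalizer_iff.mp (le_normalizer_pPrimeCoreOf _ ha.1) b).mp hb
        exact ⟨a * b * a⁻¹ * c, Subgroup.mul_mem _ hb' hcX, c⁻¹ * a, h3, by group⟩
      · have h3 : ¬ PRankLE p 2 ↥S := fun h => hr (prankLE_of_sylSet hS 2 h)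
        have hU := uniqIn_of_rank3 hUT hM'c hSn₁ hp h3
        have hle := le_of_uniqIn hU hS.1 hNtop
        intro n hn
        exact ⟨1, Subgroup.one_mem _, n, hle hn, (one_mul n).symm⟩
    -- step C
    obtain ⟨S₂, hS₂, hY₂S₂⟩ := exists_sylSet_ge hY₂p
      (inf_le_right : Q₂ ⊓ Subgroup.normalizer (X : Set G) ≤ Subgroup.normalizer (X : Set G))
    obtain ⟨n, hnN, hnS⟩ := sylSet_conj hS hS₂
    obtain ⟨c', hc', m, hm, hnm⟩ := hF n hnN
    have h1 : (Q₂ ⊓ Subgroup.normalizer (X : Set G) : Subgroup G) ≤ cj c' (cj c₁ M) := by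
      have h0 : cj n (cj c₁ M) = cj c' (cj c₁ M) := by
        rw [hnm, cj_mul, cj_eq_self_iff.mpr (Subgroup.le_normalizer hm)]
      rw [← h0]
      exact hY₂S₂.trans (hnS ▸ cj_mono n hSn₁)
    have h2 : (Q₂ ⊓ Subgroup.normalizer (X : Set G) : Subgroup G) ≤
        cj (c' * c₁ * g⁻¹) (cj g M) := by
      rw [← cj_mul]
      have h0 : c' * c₁ * g⁻¹ * g = c' * c₁ := by group
      rw [h0, cj_mul]
      exact h1
    obtain ⟨c₂, hc₂, hc₂M⟩ := ih (Nat.card G - Nat.card (Q₂ ⊓ Subgroup.normalizer (X : Set G) :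
      Subgroup G)) (by have := hcardG (Q₂ ⊓ Subgroup.normalizer (X : Set G)); omega) _ rfl hY₂p hY₂1 (cj g M) hM₂ hpM₂
      (inf_le_left.trans hQ₂.1) (c' * c₁ * g⁻¹) h2
    have hc₂X : c₂ ∈ Subgroup.centralizer (X : Set G) := Subgroup.centralizer_le hXY₂ hc₂
    refine ⟨c₂⁻¹ * c' * c₁, Subgroup.mul_mem _ (Subgroup.mul_mem _ (Subgroup.inv_mem _ hc₂X) hc')
      hc₁X, ?_⟩
    have h3 : cj (c' * c₁) M = cj (c₂ * g) M := by
      rw [cj_mul c₂ g, ← hc₂M, ← cj_mul]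
      congr 1
      group
    have h4 : cj g M = cj c₂⁻¹ (cj (c₂ * g) M) := by
      rw [← cj_mul]
      congr 1
      group
    rw [h4, ← h3, ← cj_mul]
    congr 1
    group

/-- **B&G Theorem 10.1** (the statement of S1404), from the Uniqueness Theorem -/
theorem bg10_1 (hG : IsMinSimpleOddOrder G) (hUT : UT G) : H1 G := by
  intro M hM p _ hp X hXp hX1 hXM
  have hM1 : M ≠ ⊥ := fun h => hX1 (le_bot_iff.mp (h ▸ hXM))
  have key : ∀ g : G, X.map (MulAut.conj g).toMonoidHom ≤ M →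
      ∃ m ∈ M, ∃ c ∈ Subgroup.centralizer (X : Set G), g = m * c := by
    intro g hg
    have h1 : X ≤ cj g⁻¹ M := by
      have h0 := cj_mono g⁻¹ (show cj g X ≤ M from hg)
      rwa [cj_inv_cj] at h0
    obtain ⟨c, hc, hcM⟩ := trans_aux hG hUT _ X rfl hXp hX1 M hM hp hXM g⁻¹ h1
    have h2 : cj (g * c) M = M := by rw [cj_mul, ← hcM, cj_cj_inv]
    have h3 : g * c ∈ M := mem_of_cj_eq hG hM hM1 h2
    exact ⟨g * c, h3, c⁻¹, Subgroup.inv_mem _ hc, by group⟩
  refine ⟨key, le_antisymm ?_ ?_⟩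
  · intro n hn
    have h1 : X.map (MulAut.conj n).toMonoidHom ≤ M := by
      have h0 : cj n X = X := cj_eq_self_iff.mpr hn
      show cj n X ≤ M
      rw [h0]
      exact hXM
    obtain ⟨m, hm, c, hc, rfl⟩ := key n h1
    have hcN : c ∈ Subgroup.normalizer (X : Set G) := Subgroup.centralizer_le_normalizer _ hc
    have hmN : m ∈ Subgroup.normalizer (X : Set G) := by
      have h0 := Subgroup.mul_mem _ hn (Subgroup.inv_mem _ hcN)
      simpa using h0
    exact Subgroup.mul_mem_sup (Subgroup.mem_inf.mpr ⟨hm, hmN⟩) hc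
  · exact sup_le inf_le_right (Subgroup.centralizer_le_normalizer _)

end Cfsg.Agent.Lib.Helper32.BG10
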