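import Cfsg.Agent.Lib.Helper32.Uniq7

set_option autoImplicit false

namespace Cfsg.Agent.Lib.Helper32

open Cfsg Cfsg.Agent.Lib.Helper34

universe u

section Uniq8

variable {G : Type u} [Group G] [Finite G]

theorem not_isCyclic_of_not_prankLE {p : ℕ} [Fact p.Prime] {A : Subgroup G}
    (hA3 : ¬ PRankLE p 2 ↥A) : ¬ IsCyclic ↥A := by
  obtain ⟨E', hE'A, -, hE'e, hE'card⟩ := exists_of_not_prankLE hA3
  intro hc
  have h1 : IsCyclic ↥(E'.subgroupOf A) := Subgroup.isCyclic _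
  have h2 : IsCyclic ↥E' := (Subgroup.subgroupOfEquivOfLe hE'A).isCyclic.mp h1
  exact not_isCyclic_of_elemAb hE'e hE'card.le h2

/-- **B&G Theorem 9.4.** -/
theorem uniq_of_fitting_rank3 (hG : IsMinSimpleOddOrder G) {M : Subgroup G} (hM : IsCoatom M)
    {p : ℕ} [Fact p.Prime] (hF : ¬ PRankLE p 2 ↥(fittingOf M)) {A : Subgroup G}
    (hAp : IsPGroup p A) (hAc : ∀ a ∈ A, ∀ b ∈ A, a * b = b * a) (hA3 : ¬ PRankLE p 2 ↥A) :
    InUniqueMaximal A := by
  classical
  have hp := (Fact.out : p.Prime)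
  obtain ⟨E, hEF, hEc, hEe, hEcard⟩ := exists_of_not_prankLE hF
  have hEp : IsPGroup p E := fun g => ⟨1, by rw [pow_one]; exact Subtype.ext (hEe g.1 g.2)⟩
  obtain ⟨m, hm⟩ := IsPGroup.iff_card.mp hEp
  have hE3 : p ^ 3 ≤ Nat.card E := by
    rw [hm] at hEcard ⊢
    have := (Nat.pow_lt_pow_iff_right hp.one_lt).mp hEcard
    exact Nat.pow_le_pow_right hp.pos (by omega)
  have hE1 : E ≠ ⊥ := by
    rintro rfl
    rw [Subgroup.card_bot] at hE3
    have := Nat.one_lt_pow (n := 3) (by norm_num) hp.one_lt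
    omega
  have hF1 : fittingOf M ≠ ⊥ := fun h => hE1 (le_bot_iff.mp (h ▸ hEF))
  have hp2 : p ≠ 2 := by
    rintro rfl
    have hodd := minSimple_odd_sub hG E
    rw [hm] at hodd
    have hm0 : m ≠ 0 := by
      rintro rfl
      rw [pow_zero] at hm
      exact hE1 (Subgroup.card_eq_one.mp hm)
    exact (Nat.not_even_iff_odd.mpr hodd) ((Nat.even_pow' hm0).mpr even_two)
  -- an abelian `p`-subgroup of rank at least 3 in `𝒰`
  have key : ∃ A₁ : Subgroup G, IsPGroup p A₁ ∧ (∀ a ∈ A₁, ∀ b ∈ A₁, a * b = b * a) ∧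
      ¬ PRankLE p 2 ↥A₁ ∧ InUniqueMaximal A₁ := by
    by_cases hFp : IsPGroup p ↥(fittingOf M)
    · obtain ⟨P, hP⟩ := sylSet_nonempty p M
      have hPp := isPGroup_of_mem_sylSet hP
      have hFP : fittingOf M ≤ P :=
        normal_pgroup_le_sylSet hP (fittingOf_le M) hFp (le_normalizer_fittingOf M)
      have hP3 : ¬ PRankLE p 2 ↥P := not_prankLE_of_le (hEF.trans hFP) hEc hEe hEcard
      obtain ⟨A₁, hA₁, hA₁3⟩ := exists_scn3 hp2 hPp hP3
      obtain ⟨-, hall⟩ := scn3_of_fitting_pgroup hG hM hFp hF1 hP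
      obtain ⟨hA₁F, hU⟩ := hall A₁ hA₁ hA₁3
      exact ⟨A₁, hPp.to_le hA₁.1, scn_comm hA₁, hA₁3,
        inUniqueMaximal_of_uniqIn hM (hA₁F.trans (fittingOf_le M)) hU⟩
    · have hL := uniq_centralizer_of_fitting hG hM hEF hEc hEe hE3 hFp
      have hEL : E ≤ Subgroup.centralizer
          ((fittingOf M ⊓ Subgroup.centralizer (E : Set G) : Subgroup G) : Set G) := by
        intro e he
        rw [Subgroup.mem_centralizer_iff]
        intro x hx
        exact (Subgroup.mem_centralizer_iff.mp (Subgroup.mem_inf.mp hx).2 e he).symm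
      have h2 := uniq_of_centralizing_rank2 hG hM hL hEL hEc hEe hEcard.le
      exact ⟨E, hEp, hEc, not_prankLE_of_le le_rfl hEc hEe hEcard,
        inUniqueMaximal_of_uniqIn hM h2.1 h2.2⟩
  obtain ⟨A₁, hA₁p, hA₁c, hA₁3, hA₁U⟩ := key
  obtain ⟨E', hE'A, hE'c, hE'e, hE'card⟩ := exists_of_not_prankLE hA3
  have hAnc : ¬ IsCyclic ↥A := not_isCyclic_of_not_prankLE hA3
  have hAC : A ≤ Subgroup.centralizer (A : Set G) := by
    intro a ha
    rw [Subgroup.mem_centralizer_iff]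
    intro b hb
    exact hAc b hb a ha
  have hCA : ¬ PRankLE p 2 ↥(Subgroup.centralizer (A : Set G)) :=
    not_prankLE_of_le (hE'A.trans hAC) hE'c hE'e hE'card
  exact uniq_of_rank3_abelian hG hA₁p hA₁c hA₁3 hA₁U hAp hAnc hCA

end Uniq8

end Cfsg.Agent.Lib.Helper32
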