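import Cfsg.Agent.Lib.Helper32.Uniq8

/-!
# The Uniqueness Theorem (B&G 9.6) from B&G 9.5

`uniqueness_of_scn3`: the statement of S1403 from the statement of S1402 (taken as a hypothesis).
-/

set_option autoImplicit false

open Cfsg

namespace Cfsg.Agent.Lib.Helper32

universe u

section Uniq9

variable {G : Type u} [Group G] [Finite G]

/-- an elementary abelian subgroup of order `q ^ 3` lies in a unique maximal subgroup, given
B&G Theorem 9.5 -/
theorem elemAb3_uniq (hG : IsMinSimpleOddOrder G)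
    (h95 : ∀ (p : ℕ) [Fact p.Prime] (P : Sylow p G) (A : Subgroup G),
      IsSCN (P : Subgroup G) A → ¬ PRankLE p 2 ↥A → InUniqueMaximal A)
    {q : ℕ} [Fact q.Prime] {E : Subgroup G} (hEc : ∀ a ∈ E, ∀ b ∈ E, a * b = b * a)
    (hEe : ∀ a ∈ E, a ^ q = 1) (hEcard : Nat.card E = q ^ 3) : InUniqueMaximal E := by
  have hq := (Fact.out : q.Prime)
  have hq2 : q ≠ 2 := by
    rintro rfl
    have hodd := minSimple_odd_sub hG E
    rw [hEcard] at hodd
    exact (Nat.not_even_iff_odd.mpr hodd) (by decide)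
  have hEp : IsPGroup q E := fun g => ⟨1, by rw [pow_one]; exact Subtype.ext (hEe g.1 g.2)⟩
  obtain ⟨S, hES⟩ := hEp.exists_le_sylow
  have hlt : q ^ 2 < Nat.card E := by
    rw [hEcard]
    exact Nat.pow_lt_pow_right hq.one_lt (by norm_num)
  have hSr : ¬ PRankLE q 2 ↥(S : Subgroup G) := not_prankLE_of_le hES hEc hEe hlt
  obtain ⟨A, hA, hA3⟩ := exists_scn3 hq2 S.isPGroup' hSr
  have hAU := h95 q S A hA hA3
  have hAp : IsPGroup q A := S.isPGroup'.to_le hA.1
  have hEC : E ≤ Subgroup.centralizer (E : Set G) := by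
    intro x hx
    rw [Subgroup.mem_centralizer_iff]
    intro y hy
    exact hEc y hy x hx
  exact uniq_of_rank3_abelian hG hAp (scn_comm hA) hA3 hAU hEp
    (not_isCyclic_of_elemAb hEe hlt.le) (not_prankLE_of_le hEC hEc hEe hlt)

/-- **B&G Theorem 9.6 (the Uniqueness Theorem)**, given B&G Theorem 9.5. -/
theorem uniqueness_of_scn3 (hG : IsMinSimpleOddOrder G)
    (h95 : ∀ (p : ℕ) [Fact p.Prime] (P : Sylow p G) (A : Subgroup G),
      IsSCN (P : Subgroup G) A → ¬ PRankLE p 2 ↥A → InUniqueMaximal A)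
    (K : Subgroup G) (hK : K ≠ ⊤) (hK2 : ¬ RankLE 1 K)
    (hK3 : ¬ RankLE 2 K ∨ ¬ RankLE 2 (Subgroup.centralizer (K : Set G))) :
    InUniqueMaximal K := by
  rcases hK3 with h3 | h3
  · obtain ⟨q, E, hq, hEK, hEc, hEe, hEcard⟩ := exists_elemAb_of_not_rankLE K 2 h3
    have : Fact q.Prime := ⟨hq⟩
    obtain ⟨M, hM, hEM, hEU⟩ := uniqIn_of_inUniqueMaximal (elemAb3_uniq hG h95 hEc hEe hEcard)
    obtain ⟨H, hH, hKH⟩ := exists_coatom_ge hK
    have hHM : H = M := hEU H hH (hEK.trans hKH)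
    exact inUniqueMaximal_of_uniqIn hM (hHM ▸ hKH) (hEU.mono hEK)
  · obtain ⟨q, E, hq, hEC, hEc, hEe, hEcard⟩ := exists_elemAb_of_not_rankLE _ 2 h3
    have : Fact q.Prime := ⟨hq⟩
    obtain ⟨M, hM, hEM, hEU⟩ := uniqIn_of_inUniqueMaximal (elemAb3_uniq hG h95 hEc hEe hEcard)
    have hKE : K ≤ Subgroup.centralizer (E : Set G) := by
      intro k hk
      rw [Subgroup.mem_centralizer_iff]
      intro e he
      exact (Subgroup.mem_centralizer_iff.mp (hEC he) k hk).symm
    obtain ⟨hKM, hKU⟩ := uniq_of_centralizing hG hM hEU hKE hK2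
    exact inUniqueMaximal_of_uniqIn hM hKM hKU

end Uniq9

end Cfsg.Agent.Lib.Helper32
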