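import Cfsg.Agent.S1403
import Cfsg.Agent.S1405
import Cfsg.Agent.S1444
import Cfsg.Agent.Lib.Helper32.BG10P1
import Cfsg.Agent.Lib.Helper30.BG10P2A
import Cfsg.Agent.Lib.Helper20.BG10P3
import Cfsg.Agent.Lib.Helper62.BG10P4
import Cfsg.Agent.Lib.Helper30.BG10P7B
import Cfsg.Agent.Lib.Helper92.BG10P8

/-!
# B&G Section 10: assembly of the pieces (S1405 - S1411)
-/

set_option autoImplicit false

open Cfsg Cfsg.Agent.Lib.Helper32

namespace Cfsg.Agent.Lib.Helper32.BG10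

universe u

variable {G : Type u} [Group G] [Finite G]

theorem ut_of (hG : IsMinSimpleOddOrder G) : UT G :=
  fun K hK h1 h2 => Cfsg.Agent.S1403.result hG K hK h1 h2

theorem h1444_of : H1444.{u} :=
  fun _ _ _ _ hodd H R R₀ _ hHall hR hR₀ hR₀p hZ p _ =>
    Cfsg.Agent.S1444.result hodd H R R₀ hHall hR hR₀ hR₀p hZ p

theorem h1_of (hG : IsMinSimpleOddOrder G) : H1 G := bg10_1 hG (ut_of hG)

theorem sigDer_of (hG : IsMinSimpleOddOrder G) : SigDer G :=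
  Cfsg.Agent.Lib.Helper30.BG10.sigma_der hG (h1_of hG)

theorem h2_of (hG : IsMinSimpleOddOrder G) : H2 G :=
  fun M hM => Cfsg.Agent.S1405.result hG M hM

theorem h3_of (hG : IsMinSimpleOddOrder G) : H3 G :=
  Cfsg.Agent.Lib.Helper20.BG10.bg10_3 hG (ut_of hG) (h2_of hG)

theorem h4_of (hG : IsMinSimpleOddOrder G) : H4 G :=
  Cfsg.Agent.Lib.Helper62.BG10.bg10_4 hG (ut_of hG) (h3_of hG)

theorem h7_of (hG : IsMinSimpleOddOrder G) : H7 G :=
  Cfsg.Agent.Lib.Helper30.BG10.bg10_7 hG (ut_of hG) (sigDer_of hG) (h2_of hG) (h4_of hG)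
    h1444_of

theorem h8_of (hG : IsMinSimpleOddOrder G) : H8 G :=
  Cfsg.Agent.Lib.Helper92.BG10.bg10_8 hG (sigDer_of hG) (h7_of hG)

end Cfsg.Agent.Lib.Helper32.BG10
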