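import Cfsg.Agent.Lib.Helper3.BG12Defs
import Cfsg.Agent.Lib.Helper32.BG10Main

/-!
# B&G Section 12, piece KITB (helper32 for helper3): Sylow subgroups and `M_σ`
-/

set_option autoImplicit false

open Cfsg Cfsg.Agent.Lib.Helper32 Cfsg.Agent.Lib.Helper32.BG10 Cfsg.Agent.Lib.Helper3.BG12

namespace Cfsg.Agent.Lib.Helper32.BG12

universe u

variable {G : Type u} [Group G] [Finite G]

/-- for `p ∈ σ(M)` every Sylow `p`-subgroup of `M` lies in `M_σ` -/
theorem kitb_sylSet_le (hG : IsMinSimpleOddOrder G) {M : Subgroup G} (hM : IsCoatom M)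
    {p : ℕ} [Fact p.Prime] (hp : p ∈ sigma M) {Q : Subgroup G} (hQ : Q ∈ sylSet p M) :
    Q ≤ sigmaCore M := by
  obtain ⟨S, rfl⟩ := exists_sylow_of_mem_sylSet hQ
  exact Subgroup.map_mono
    (sylow_le_sigmaCore hG (ut_of hG) (h2_of hG) (sigDer_of hG) hM p hp S)

theorem pgroup_le_sigmaCore (hG : IsMinSimpleOddOrder G) {M : Subgroup G} (hM : IsCoatom M)
    {p : ℕ} [Fact p.Prime] (hp : p ∈ sigma M) {X : Subgroup G} (hX : IsPGroup p X) (hXM : X ≤ M) :
    X ≤ sigmaCore M := by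
  obtain ⟨R, hR, hXR⟩ := exists_sylSet_ge hX hXM
  exact hXR.trans (kitb_sylSet_le hG hM hp hR)

/-- the `p`-parts of `|M_σ|` and `|M|` agree for `p ∈ σ(M)` -/
theorem kitb_factorization (hG : IsMinSimpleOddOrder G) {M : Subgroup G} (hM : IsCoatom M)
    {p : ℕ} [Fact p.Prime] (hp : p ∈ sigma M) :
    (Nat.card (sigmaCore M)).factorization p = (Nat.card M).factorization p := by
  have hpp : p.Prime := Fact.out
  have hσM : sigmaCore M ≤ M := Subgroup.map_subtype_le _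
  obtain ⟨Q, hQ⟩ := sylSet_nonempty p M
  have hQσ := kitb_sylSet_le hG hM hp hQ
  have h1 : p ^ (Nat.card M).factorization p ∣ Nat.card (sigmaCore M) := by
    rw [← hQ.2]
    exact Subgroup.card_dvd_of_le hQσ
  have h2 : (Nat.card M).factorization p ≤ (Nat.card (sigmaCore M)).factorization p :=
    (hpp.pow_dvd_iff_le_factorization Nat.card_pos.ne').mp h1
  have h3 : (Nat.card (sigmaCore M)).factorization p ≤ (Nat.card M).factorization p :=
    (Nat.factorization_le_iff_dvd Nat.card_pos.ne' Nat.card_pos.ne').mpr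
      (Subgroup.card_dvd_of_le hσM) p
  exact le_antisymm h3 h2

theorem sylSet_sigmaCore_iff (hG : IsMinSimpleOddOrder G) {M : Subgroup G} (hM : IsCoatom M)
    {p : ℕ} [Fact p.Prime] (hp : p ∈ sigma M) {Q : Subgroup G} :
    Q ∈ sylSet p (sigmaCore M) ↔ Q ∈ sylSet p M := by
  have hσM : sigmaCore M ≤ M := Subgroup.map_subtype_le _
  have hf := kitb_factorization hG hM hp
  constructor
  · rintro ⟨hQ1, hQ2⟩
    exact ⟨hQ1.trans hσM, by rw [hQ2, hf]⟩
  · intro hQ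
    exact ⟨kitb_sylSet_le hG hM hp hQ, by rw [hQ.2, hf]⟩

theorem exists_cj_le_sigmaCore (hG : IsMinSimpleOddOrder G) {M : Subgroup G} (hM : IsCoatom M)
    {p : ℕ} [Fact p.Prime] (hp : p ∈ sigma M) {X : Subgroup G} (hX : IsPGroup p X) :
    ∃ g : G, cj g X ≤ sigmaCore M := by
  obtain ⟨Q, hQ⟩ := sylSet_nonempty p M
  have hQtop := (sigma_sylSet hp hQ).2
  obtain ⟨R, hR, hXR⟩ := exists_sylSet_ge hX (le_top : X ≤ ⊤)
  obtain ⟨n, -, hn⟩ := sylSet_conj hR hQtop
  refine ⟨n, ?_⟩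
  calc cj n X ≤ cj n R := cj_mono n hXR
    _ = Q := hn
    _ ≤ sigmaCore M := kitb_sylSet_le hG hM hp hQ

end Cfsg.Agent.Lib.Helper32.BG12
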