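import Cfsg.Agent.Lib.Helper3.BG12Defs
import Cfsg.Agent.Lib.Helper32.BG10Main
import Cfsg.Agent.Lib.Helper32.BG12KITB
import Cfsg.Agent.Lib.Helper30.BG10Q11S
import Cfsg.Agent.Lib.Helper8.BG10Q12C

/-!
# B&G Section 12, piece KITA (helper32 for helper3): basic facts on `M_σ` and its complements
-/

set_option autoImplicit false

open Cfsg Cfsg.Agent.Lib.Helper32 Cfsg.Agent.Lib.Helper32.BG10 Cfsg.Agent.Lib.Helper3.BG12

namespace Cfsg.Agent.Lib.Helper32.BG12

universe u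

variable {G : Type u} [Group G] [Finite G]

theorem mem_sigma_of_dvd_sigmaCore {M : Subgroup G} {p : ℕ} (hp : p.Prime)
    (h : p ∣ Nat.card (sigmaCore M)) : p ∈ sigma M := by
  have h1 : Nat.card (sigmaCore M) = Nat.card (piCore (sigma M) ↥M) :=
    Cfsg.Agent.Lib.Helper30.card_map_subtype _
  rw [h1] at h
  exact Cfsg.Agent.Lib.Helper66.isPi_piCore (sigma M) p hp h

/-- `|M_σ|` is coprime to its index in `M` -/
theorem kita_coprime_index (hG : IsMinSimpleOddOrder G) {M : Subgroup G} (hM : IsCoatom M) :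
    (Nat.card (piCore (sigma M) ↥M)).Coprime (piCore (sigma M) ↥M).index := by
  have hall := sigma_hall hG (ut_of hG) (h2_of hG) (sigDer_of hG) hM
  have hrel : (sigmaCore M).relIndex M = (piCore (sigma M) ↥M).index := by
    have h1 : (sigmaCore M).subgroupOf M = piCore (sigma M) ↥M :=
      Subgroup.comap_map_eq_self_of_injective M.subtype_injective _
    rw [Subgroup.relIndex, h1]
  by_contra h
  obtain ⟨p, hp, h1, h2⟩ := Nat.Prime.not_coprime_iff_dvd.mp h
  have hpσ := Cfsg.Agent.Lib.Helper66.isPi_piCore (sigma M) p hp h1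
  apply hall.1.2.2 p hp hpσ
  rw [hrel]
  exact h2

theorem exCompl_of (hG : IsMinSimpleOddOrder G) : ExCompl G := by
  intro M hM
  obtain ⟨K0, hK0⟩ := Subgroup.exists_left_complement'_of_coprime (kita_coprime_index hG hM)
  refine ⟨K0.map M.subtype, Subgroup.map_subtype_le _, Subgroup.map_subtype_le _, ?_, ?_⟩
  · rw [eq_bot_iff]
    rintro x ⟨⟨k, hk, rfl⟩, ⟨s, hs, hsx⟩⟩
    have hks : s = k := Subtype.ext hsx
    have h1 : k ∈ K0 ⊓ piCore (sigma M) ↥M := ⟨hk, hks ▸ hs⟩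
    rw [hK0.disjoint.eq_bot, Subgroup.mem_bot] at h1
    rw [Subgroup.mem_bot, h1]
    rfl
  · intro m hm
    obtain ⟨⟨k, s⟩, hks⟩ := hK0.2 (⟨m, hm⟩ : ↥M)
    refine ⟨k.1.1, ⟨k.1, k.2, rfl⟩, s.1.1, ⟨s.1, s.2, rfl⟩, ?_⟩
    have := congrArg Subtype.val hks
    simpa using this.symm

theorem sigmaCore_coprime (hG : IsMinSimpleOddOrder G) {M : Subgroup G} (hM : IsCoatom M)
    {E : Subgroup G} (hE : IsComplIn E (sigmaCore M) M) :
    (Nat.card (sigmaCore M)).Coprime (Nat.card E) := by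
  have hall := sigma_hall hG (ut_of hG) (h2_of hG) (sigDer_of hG) hM
  have hσM : sigmaCore M ≤ M := Subgroup.map_subtype_le _
  have hcard : Nat.card M = Nat.card E * Nat.card (sigmaCore M) :=
    Cfsg.Agent.Lib.Helper8.BG10.q12c_card_of_complIn hE
  have hrel : Nat.card (sigmaCore M) * (sigmaCore M).relIndex M = Nat.card M :=
    (Cfsg.Agent.Lib.Helper30.card_eq_card_mul_relIndex hσM).symm
  have hE' : (sigmaCore M).relIndex M = Nat.card E := by
    have h1 : Nat.card (sigmaCore M) * (sigmaCore M).relIndex M =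
        Nat.card (sigmaCore M) * Nat.card E := by rw [hrel, hcard, mul_comm]
    exact Nat.eq_of_mul_eq_mul_left Nat.card_pos h1
  by_contra h
  obtain ⟨p, hp, h1, h2⟩ := Nat.Prime.not_coprime_iff_dvd.mp h
  apply hall.1.2.2 p hp (mem_sigma_of_dvd_sigmaCore hp h1)
  rw [hE']
  exact h2

theorem le_sigmaCore_of_sigma (hG : IsMinSimpleOddOrder G) {M : Subgroup G} (hM : IsCoatom M)
    {Y : Subgroup G} (hYM : Y ≤ M) (hY : ∀ p : ℕ, p.Prime → p ∣ Nat.card Y → p ∈ sigma M) :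
    Y ≤ sigmaCore M := by
  apply Cfsg.Agent.Lib.Helper8.BG10.q12c_le_of_sylSet_le
  intro p hp R hR
  have : Fact p.Prime := ⟨hp⟩
  by_cases hpY : p ∣ Nat.card Y
  · exact pgroup_le_sigmaCore hG hM (hY p hp hpY) (isPGroup_of_mem_sylSet hR) (hR.1.trans hYM)
  · have h1 : Nat.card R = 1 := by
      rw [hR.2, Nat.factorization_eq_zero_of_not_dvd hpY, pow_zero]
    rw [Subgroup.card_eq_one.mp h1]
    exact bot_le

theorem sigmaCore_le_comm (hG : IsMinSimpleOddOrder G) {M : Subgroup G} (hM : IsCoatom M) :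
    sigmaCore M ≤ ⁅M, M⁆ :=
  Cfsg.Agent.Lib.Helper30.BG10.sigmaCore_le_commutator hG (sigDer_of hG) hM

end Cfsg.Agent.Lib.Helper32.BG12
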