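import Mathlib
import Cfsg.Agent.Lib.Helper13.FumDefs

/-!
# S4330, piece EXTD: cyclic decomposition
-/

set_option autoImplicit false

namespace Cfsg.Agent.Lib.Helper32.Fum

open Cfsg.Agent.Lib.Helper13.Fum
open scoped Pointwise

/-- a geometric sum over a full period is invariant under multiplying the exponents by `m`
prime to `p` -/
theorem sum_pow_mul {R : Type*} [Ring R] (Z : R) (p : ℕ) [Fact p.Prime] (hZ : Z ^ p = 1) (m : ℕ)
    (hm : ¬ p ∣ m) : ∑ k ∈ Finset.range p, Z ^ (m * k) = ∑ k ∈ Finset.range p, Z ^ k := by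
  have hp : p.Prime := Fact.out
  have hcop : Nat.Coprime p m := (Nat.Prime.coprime_iff_not_dvd hp).mpr hm
  have h1 : ∀ k, Z ^ (m * k) = Z ^ ((m * k) % p) := fun k => pow_eq_pow_mod _ hZ
  rw [Finset.sum_congr rfl (fun k _ => h1 k)]
  have hinj : Set.InjOn (fun k => (m * k) % p) (Finset.range p : Set ℕ) := by
    intro a ha b hb hab
    have ha' : a < p := Finset.mem_range.mp ha
    have hb' : b < p := Finset.mem_range.mp hb
    have h3 : m * a ≡ m * b [MOD p] := hab
    have h2 := Nat.ModEq.cancel_left_of_coprime hcop h3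
    exact Nat.ModEq.eq_of_lt_of_lt h2 ha' hb'
  have himg : (Finset.range p).image (fun k => (m * k) % p) = Finset.range p := by
    apply Finset.eq_of_subset_of_card_le
    · intro x hx
      obtain ⟨k, _, rfl⟩ := Finset.mem_image.mp hx
      exact Finset.mem_range.mpr (Nat.mod_lt _ hp.pos)
    · rw [Finset.card_image_of_injOn hinj]
  conv_rhs => rw [← himg]
  rw [Finset.sum_image hinj]

/-- multiplying a full geometric sum by the base does not change it -/
theorem geom_fix {R : Type*} [Ring R] (g : R) (p : ℕ) (hg : g ^ p = 1) :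
    g * ∑ k ∈ Finset.range p, g ^ k = ∑ k ∈ Finset.range p, g ^ k := by
  rw [Finset.mul_sum]
  have h1 := Finset.sum_range_succ (fun k => g ^ k) p
  have h2 := Finset.sum_range_succ' (fun k => g ^ k) p
  rw [h1] at h2
  simp only [hg, pow_zero] at h2
  have h3 := add_right_cancel h2
  rw [h3]
  exact Finset.sum_congr rfl (fun k _ => (pow_succ' _ _).symm)

theorem end_sum_apply {V : Type*} [AddCommGroup V] {ι : Type*} (s : Finset ι)
    (f : ι → AddMonoid.End V) (v : V) : (∑ k ∈ s, f k) v = ∑ k ∈ s, f k v := by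
  classical
  induction s using Finset.induction_on with
  | empty => simp
  | insert a s ha ih =>
    rw [Finset.sum_insert ha, Finset.sum_insert ha, ← ih]
    rfl

theorem end_pow_fix {V : Type*} [AddCommGroup V] (g : AddMonoid.End V) (v : V) (h : g v = v)
    (k : ℕ) : (g ^ k) v = v := by
  induction k with
  | zero => rfl
  | succ n ih =>
    rw [pow_succ]
    show (g ^ n) (g v) = v
    rw [h, ih]

/-- **cyclic decomposition** -/
theorem cyclic_decomp (p : ℕ) [Fact p.Prime] {V : Type*} [AddCommGroup V] [Finite V]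
    (hV : (Nat.card V).Coprime p) (d z : AAut V) (hd : d ^ p = 1) (hz : z ^ p = 1)
    (hdz : d * z = z * d) (hfpf : ∀ v : V, z • v = v → v = 0) :
    ∃ π : ℕ → (V →+ V), (∀ i v, (d * z ^ i) • π i v = π i v) ∧
      (∀ i v, (d * z ^ i) • v = v → π i v = v) ∧
      (∀ i j, i < p → j < p → i ≠ j → ∀ v, (d * z ^ j) • v = v → π i v = 0) ∧
      (∀ v, ∑ i ∈ Finset.range p, π i v = v) := by
  have hp : p.Prime := Fact.out
  obtain ⟨D, hD⟩ : ∃ D : AddMonoid.End V, D = (d : AddMonoid.End V) := ⟨_, rfl⟩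
  obtain ⟨Z, hZ⟩ : ∃ Z : AddMonoid.End V, Z = (z : AddMonoid.End V) := ⟨_, rfl⟩
  have hDp : D ^ p = 1 := by rw [hD, ← Units.val_pow_eq_pow_val, hd, Units.val_one]
  have hZp : Z ^ p = 1 := by rw [hZ, ← Units.val_pow_eq_pow_val, hz, Units.val_one]
  have hDZ : Commute D Z := by
    show D * Z = Z * D
    rw [hD, hZ, ← Units.val_mul, hdz, Units.val_mul]
  have hsm : ∀ (i : ℕ) (v : V), (d * z ^ i) • v = (D * Z ^ i) v := by
    intro i v
    rw [hD, hZ, ← Units.val_pow_eq_pow_val, ← Units.val_mul]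
    rfl
  have hgp : ∀ i, (D * Z ^ i) ^ p = 1 := by
    intro i
    rw [(hDZ.pow_right i).mul_pow, hDp, one_mul, ← pow_mul, mul_comm, pow_mul, hZp, one_pow]
  have hge : ∀ i, (D * Z ^ i) * ∑ k ∈ Finset.range p, (D * Z ^ i) ^ k =
      ∑ k ∈ Finset.range p, (D * Z ^ i) ^ k := fun i => geom_fix _ p (hgp i)
  -- the norm of `z` vanishes
  have hN : ∑ k ∈ Finset.range p, Z ^ k = 0 := by
    have h1 := geom_fix Z p hZp
    ext v
    apply hfpf
    have h2 := hsm 0 ((∑ k ∈ Finset.range p, Z ^ k) v)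
    have h3 : ∀ w : V, z • w = Z w := fun w => by rw [hZ]; rfl
    rw [h3]
    have h4 := congrArg (fun f : AddMonoid.End V => f v) h1
    exact h4
  have hcp : ∀ v : V, (cinv V p * p) • v = v := fun v => cinv_smul hV.symm v
  refine ⟨fun i => ((cinv V p • ∑ k ∈ Finset.range p, (D * Z ^ i) ^ k : AddMonoid.End V) :
    V →+ V), ?_, ?_, ?_, ?_⟩
  · intro i v
    rw [hsm]
    show (D * Z ^ i) (cinv V p • (∑ k ∈ Finset.range p, (D * Z ^ i) ^ k) v) = _
    rw [map_nsmul]
    have h4 := congrArg (fun f : AddMonoid.End V => f v) (hge i)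
    have h5 : (D * Z ^ i) ((∑ k ∈ Finset.range p, (D * Z ^ i) ^ k) v) =
      (∑ k ∈ Finset.range p, (D * Z ^ i) ^ k) v := h4
    rw [h5]
    rfl
  · intro i v hv
    rw [hsm] at hv
    show cinv V p • (∑ k ∈ Finset.range p, (D * Z ^ i) ^ k) v = v
    rw [end_sum_apply, Finset.sum_congr rfl (fun k _ => end_pow_fix _ v hv k), Finset.sum_const,
      Finset.card_range, ← mul_nsmul', hcp]
  · intro i j hi hj hij v hv
    rw [hsm] at hv
    show cinv V p • (∑ k ∈ Finset.range p, (D * Z ^ i) ^ k) v = 0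
    have hm : ¬ p ∣ (i + (p - j)) := by
      rintro ⟨t, ht⟩
      rcases Nat.lt_or_ge t 1 with h0 | h1
      · have : t = 0 := by omega
        subst this
        omega
      rcases Nat.lt_or_ge t 2 with h2 | h2
      · have : t = 1 := by omega
        subst this
        omega
      · have := Nat.mul_le_mul_left p h2
        omega
    have hZi : Z ^ i = Z ^ j * Z ^ (i + (p - j)) := by
      rw [← pow_add]
      have : j + (i + (p - j)) = i + p := by omega
      rw [this, pow_add, hZp, mul_one]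
    have hcomm : Commute (Z ^ (i + (p - j))) (D * Z ^ j) :=
      ((hDZ.pow_right _).symm.mul_right (Commute.pow_pow (Commute.refl Z) _ _))
    have hpow : ∀ k, ((D * Z ^ i) ^ k) v = (Z ^ ((i + (p - j)) * k)) v := by
      intro k
      have h1 : D * Z ^ i = Z ^ (i + (p - j)) * (D * Z ^ j) := by
        rw [hcomm.eq, mul_assoc, ← hZi]
      rw [h1, hcomm.mul_pow, ← pow_mul]
      show (Z ^ ((i + (p - j)) * k)) (((D * Z ^ j) ^ k) v) = _
      rw [end_pow_fix _ v hv k]
    rw [end_sum_apply, Finset.sum_congr rfl (fun k _ => hpow k), ← end_sum_apply,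
      sum_pow_mul Z p hZp _ hm, hN]
    simp
  · intro v
    show ∑ i ∈ Finset.range p, cinv V p • (∑ k ∈ Finset.range p, (D * Z ^ i) ^ k) v = v
    rw [← Finset.smul_sum, ← end_sum_apply]
    have htot : ∑ i ∈ Finset.range p, ∑ k ∈ Finset.range p, (D * Z ^ i) ^ k =
        ((p : ℕ) : AddMonoid.End V) := by
      have h1 : ∀ i k, (D * Z ^ i) ^ k = D ^ k * Z ^ (k * i) := by
        intro i k
        rw [(hDZ.pow_right i).mul_pow, ← pow_mul, mul_comm i k]
      rw [Finset.sum_congr rfl (fun i _ => Finset.sum_congr rfl (fun k _ => h1 i k)),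
        Finset.sum_comm]
      rw [Finset.sum_congr rfl (fun k _ => (Finset.mul_sum _ _ _).symm)]
      rw [Finset.sum_eq_single 0]
      · simp
      · intro k hk hk0
        have hkp : ¬ p ∣ k :=
          Nat.not_dvd_of_pos_of_lt (Nat.pos_of_ne_zero hk0) (Finset.mem_range.mp hk)
        rw [sum_pow_mul Z p hZp k hkp, hN, mul_zero]
      · intro h0
        exact absurd (Finset.mem_range.mpr hp.pos) h0
    rw [htot, AddMonoid.End.natCast_apply, ← mul_nsmul', hcp]

end Cfsg.Agent.Lib.Helper32.Fum
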