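import Cfsg.Prelude.Def_OddOrderLocal
import Mathlib

set_option autoImplicit false
open Cfsg

namespace Cfsg.Agent.Lib.Helper32

/-- Elementwise commuting subgroups: every element of the join is a product. -/
theorem sup_decomp {G : Type*} [Group G] (A B : Subgroup G)
    (hc : ∀ a ∈ A, ∀ b ∈ B, a * b = b * a) :
    ∀ x ∈ A ⊔ B, ∃ a ∈ A, ∃ b ∈ B, x = a * b := by
  intro x hx
  rw [Subgroup.sup_eq_closure_mul] at hx
  induction hx using Subgroup.closure_induction with
  | mem y hy =>
    obtain ⟨a, ha, b, hb, rfl⟩ := Set.mem_mul.mp hy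
    exact ⟨a, ha, b, hb, rfl⟩
  | one => exact ⟨1, A.one_mem, 1, B.one_mem, by simp⟩
  | mul y z _ _ hy hz =>
    obtain ⟨a, ha, b, hb, rfl⟩ := hy
    obtain ⟨a', ha', b', hb', rfl⟩ := hz
    refine ⟨a * a', A.mul_mem ha ha', b * b', B.mul_mem hb hb', ?_⟩
    have h := hc a' ha' b hb
    calc a * b * (a' * b') = a * (b * a') * b' := by group
      _ = a * (a' * b) * b' := by rw [h]
      _ = a * a' * (b * b') := by group
  | inv y _ hy =>
    obtain ⟨a, ha, b, hb, rfl⟩ := hy
    refine ⟨a⁻¹, A.inv_mem ha, b⁻¹, B.inv_mem hb, ?_⟩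
    have h := hc a ha b hb
    rw [h, mul_inv_rev]

theorem pow_card_eq_one_of_mem {G : Type*} [Group G] (A : Subgroup G) {x : G} (hx : x ∈ A) :
    x ^ Nat.card A = 1 := by
  have h : orderOf (⟨x, hx⟩ : A) ∣ Nat.card A := orderOf_dvd_natCard _
  rw [← Subgroup.orderOf_coe] at h
  exact orderOf_dvd_iff_pow_eq_one.mp h

theorem orderOf_dvd_card_of_mem {G : Type*} [Group G] (A : Subgroup G) {x : G} (hx : x ∈ A) :
    orderOf x ∣ Nat.card A :=
  orderOf_dvd_of_pow_eq_one (pow_card_eq_one_of_mem A hx)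

/-- A prime dividing the order of a join of normal subgroups divides the order of one of them. -/
theorem prime_dvd_card_sSup {M : Type*} [Group M] [Finite M] (S : Set (Subgroup M))
    (hS : ∀ N ∈ S, N.Normal) (p : ℕ) (hp : p.Prime) (h : p ∣ Nat.card ↥(sSup S)) :
    ∃ N ∈ S, p ∣ Nat.card N := by
  classical
  have hfin : S.Finite := Set.toFinite S
  have key : (hfin.toFinset.sup id).Normal ∧
      (p ∣ Nat.card ↥(hfin.toFinset.sup id) → ∃ N ∈ S, p ∣ Nat.card N) := by
    refine Finset.sup_induction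
      (p := fun K : Subgroup M => K.Normal ∧ (p ∣ Nat.card K → ∃ N ∈ S, p ∣ Nat.card N)) ?_ ?_ ?_
    · refine ⟨inferInstance, ?_⟩
      intro h
      rw [Subgroup.card_bot] at h
      exact absurd (Nat.dvd_one.mp h) hp.one_lt.ne'
    · rintro A ⟨hA, hA'⟩ B ⟨hB, hB'⟩
      refine ⟨inferInstance, ?_⟩
      intro h
      have h1 : Nat.card A * A.relIndex (A ⊔ B) = Nat.card ↥(A ⊔ B) := by
        have := Subgroup.relIndex_mul_relIndex ⊥ A (A ⊔ B) bot_le le_sup_left
        rwa [Subgroup.relIndex_bot_left, Subgroup.relIndex_bot_left] at this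
      rw [← h1, Subgroup.relIndex_sup_left] at h
      rcases (Nat.Prime.dvd_mul hp).mp h with h | h
      · exact hA' h
      · exact hB' (h.trans (Subgroup.relIndex_dvd_card A B))
    · intro N hN
      rw [Set.Finite.mem_toFinset] at hN
      exact ⟨hS N hN, fun h => ⟨N, hN, h⟩⟩
  rw [Finset.sup_id_eq_sSup, Set.Finite.coe_toFinset] at key
  exact key.2 h

/-- `M_F` is a Hall subgroup of the finite group `M`. -/
theorem fittingHall_coprime (M : Type*) [Group M] [Finite M] :
    (Nat.card (fittingHall M)).Coprime (fittingHall M).index := by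
  rw [Nat.coprime_iff_gcd_eq_one]
  by_contra hne
  obtain ⟨p, hp, hpd⟩ := Nat.exists_prime_and_dvd hne
  have hp1 : p ∣ Nat.card (fittingHall M) := hpd.trans (Nat.gcd_dvd_left _ _)
  have hp2 : p ∣ (fittingHall M).index := hpd.trans (Nat.gcd_dvd_right _ _)
  obtain ⟨N, hN, hpN⟩ := prime_dvd_card_sSup _ (fun N hN => hN.1) p hp hp1
  have hle : N ≤ fittingHall M := le_sSup hN
  have hp3 : p ∣ N.index := hp2.trans (Subgroup.index_dvd_of_le hle)
  have hcop : (Nat.card N).Coprime N.index := hN.2.2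
  exact hp.one_lt.ne' (Nat.dvd_one.mp (hcop ▸ Nat.dvd_gcd hpN hp3))

theorem card_fittingHallOf {G : Type*} [Group G] (M : Subgroup G) :
    Nat.card (fittingHallOf M) = Nat.card (fittingHall M) :=
  (Nat.card_congr ((fittingHall M).equivMapOfInjective M.subtype M.subtype_injective).toEquiv).symm

theorem fittingHallOf_le {G : Type*} [Group G] (M : Subgroup G) : fittingHallOf M ≤ M := by
  rintro x ⟨y, -, rfl⟩
  exact y.2

theorem card_of_isComplIn {G : Type*} [Group G] [Finite G] {A B K : Subgroup G}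
    (h : IsComplIn A B K) : Nat.card K = Nat.card A * Nat.card B := by
  obtain ⟨hA, hB, hd, hdec⟩ := h
  rw [← Nat.card_prod]
  symm
  refine Nat.card_congr (Equiv.ofBijective
    (fun x : A × B => (⟨(x.1 : G) * (x.2 : G), K.mul_mem (hA x.1.2) (hB x.2.2)⟩ : K)) ⟨?_, ?_⟩)
  · rintro ⟨⟨a, ha⟩, ⟨b, hb⟩⟩ ⟨⟨a', ha'⟩, ⟨b', hb'⟩⟩ hab
    simp only [Subtype.mk.injEq] at hab
    have h1 : a'⁻¹ * a = b' * b⁻¹ := by
      have : a'⁻¹ * (a * b) * b⁻¹ = a'⁻¹ * (a' * b') * b⁻¹ := by rw [hab]
      calc a'⁻¹ * a = a'⁻¹ * (a * b) * b⁻¹ := by group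
        _ = a'⁻¹ * (a' * b') * b⁻¹ := this
        _ = b' * b⁻¹ := by group
    have h2 : a'⁻¹ * a ∈ A ⊓ B :=
      ⟨A.mul_mem (A.inv_mem ha') ha, h1 ▸ B.mul_mem hb' (B.inv_mem hb)⟩
    rw [hd, Subgroup.mem_bot] at h2
    have h3 : a = a' := by
      have := inv_mul_eq_one.mp h2
      exact this.symm
    have h4 : b = b' := by
      rw [h2] at h1
      have := mul_inv_eq_one.mp h1.symm
      exact this.symm
    simp [h3, h4]
  · rintro ⟨m, hm⟩
    obtain ⟨a, ha, b, hb, rfl⟩ := hdec m hm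
    exact ⟨(⟨a, ha⟩, ⟨b, hb⟩), rfl⟩

theorem card_mul_relIndex_of_le {G : Type*} [Group G] {U M : Subgroup G} (h : U ≤ M) :
    Nat.card U * U.relIndex M = Nat.card M := by
  have := Subgroup.relIndex_mul_relIndex ⊥ U M bot_le h
  rwa [Subgroup.relIndex_bot_left, Subgroup.relIndex_bot_left] at this

/-- A subgroup of `M` meeting `M_F` trivially has order coprime to that of `M_F`. -/
theorem coprime_card_of_disjoint_fittingHallOf {G : Type*} [Group G] [Finite G] (M U : Subgroup G)
    (hUM : U ≤ M) (hd : fittingHallOf M ⊓ U = ⊥) :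
    (Nat.card U).Coprime (Nat.card (fittingHallOf M)) := by
  rw [card_fittingHallOf]
  have hdvd : Nat.card U ∣ (fittingHall M).index := by
    rw [Subgroup.index_eq_card]
    apply Subgroup.card_dvd_of_injective
      ((QuotientGroup.mk' (fittingHall M)).comp (Subgroup.inclusion hUM))
    rw [injective_iff_map_eq_one]
    intro u hu
    rw [MonoidHom.comp_apply, QuotientGroup.mk'_apply, QuotientGroup.eq_one_iff] at hu
    have h1 : (u : G) ∈ fittingHallOf M ⊓ U := by
      refine ⟨⟨Subgroup.inclusion hUM u, hu, rfl⟩, u.2⟩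
    rw [hd, Subgroup.mem_bot] at h1
    exact Subtype.ext h1
  exact Nat.Coprime.symm (Nat.Coprime.coprime_dvd_right hdvd (fittingHall_coprime M))

/-- For type-P data, `F(M) = M_F · C_U(M_F)`. -/
theorem typeP_fitting_eq {G : Type*} [Group G] [Finite G] (M W₁ U W₂ : Subgroup G)
    (hP : IsTypePWith M W₁ U W₂) :
    fittingOf M = fittingHallOf M ⊔ (U ⊓ Subgroup.centralizer (fittingHallOf M : Set G)) := by
  obtain ⟨hHM', hUM', hHU, hdec⟩ := hP.U_compl
  have hM'M : ⁅M, M⁆ ≤ M := by
    rw [Subgroup.commutator_le]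
    intro a ha b hb
    exact M.mul_mem (M.mul_mem (M.mul_mem ha hb) (M.inv_mem ha)) (M.inv_mem hb)
  have hUM : U ≤ M := hUM'.trans hM'M
  have hcop := coprime_card_of_disjoint_fittingHallOf M U hUM hHU
  rw [← hP.fitting_eq]
  apply le_antisymm
  · apply sup_le le_sup_left
    intro c hc
    have hcF : c ∈ fittingOf M := by
      rw [← hP.fitting_eq]; exact Subgroup.mem_sup_right hc
    obtain ⟨h, hh, u, hu, rfl⟩ := hdec c (hP.fitting_le hcF)
    have hcent : h * u ∈ Subgroup.centralizer (fittingHallOf M : Set G) := hc.2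
    have hcomm : h * (h * u) = h * u * h := (Subgroup.mem_centralizer_iff.mp hcent) h hh
    have hhu : Commute h u := by
      show h * u = u * h
      have := mul_left_cancel (a := h) (b := h * u) (c := u * h) (by rw [hcomm]; group)
      exact this
    have hpow : (h * u) ^ orderOf h = u ^ orderOf h := by
      rw [hhu.mul_pow, pow_orderOf_eq_one, one_mul]
    have hupow : u ^ orderOf h ∈ Subgroup.centralizer (fittingHallOf M : Set G) := by
      rw [← hpow]; exact Subgroup.pow_mem _ hcent _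
    have hco : (orderOf h).Coprime (orderOf u) :=
      Nat.Coprime.coprime_dvd_left (orderOf_dvd_card_of_mem _ hh)
        (Nat.Coprime.coprime_dvd_right (orderOf_dvd_card_of_mem _ hu) hcop.symm)
    obtain ⟨m, hm⟩ := exists_pow_eq_self_of_coprime hco
    have hucent : u ∈ Subgroup.centralizer (fittingHallOf M : Set G) := by
      rw [← hm]; exact Subgroup.pow_mem _ hupow _
    exact Subgroup.mul_mem _ (Subgroup.mem_sup_left hh) (Subgroup.mem_sup_right ⟨hu, hucent⟩)
  · exact sup_le_sup_left (inf_le_inf_right _ hUM) _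

end Cfsg.Agent.Lib.Helper32
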