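import Cfsg.Prelude.Def_OddOrderLocal
import Cfsg.Agent.Lib.Helper32.TypeP
import Cfsg.Agent.Lib.Helper32.Coprime

set_option autoImplicit false
open Cfsg

namespace Cfsg.Agent.Lib.Helper32

/-! ### The `π`-core of a subgroup -/

theorem piCoreOf_le {G : Type*} [Group G] (π : Set ℕ) (X : Subgroup G) : piCoreOf π X ≤ X := by
  rintro x ⟨y, -, rfl⟩
  exact y.2

theorem piCoreOf_primes {G : Type*} [Group G] [Finite G] (π : Set ℕ) (X : Subgroup G) :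
    ∀ p : ℕ, p.Prime → p ∣ Nat.card (piCoreOf π X) → p ∈ π := by
  intro p hp hdvd
  have h1 : Nat.card (piCoreOf π X) = Nat.card (piCore π X) :=
    (Nat.card_congr ((piCore π X).equivMapOfInjective X.subtype X.subtype_injective).toEquiv).symm
  rw [h1] at hdvd
  obtain ⟨N, hN, hpN⟩ := prime_dvd_card_sSup _ (fun N hN => hN.1) p hp hdvd
  exact hN.2 p hp hpN

theorem le_normalizer_piCoreOf {G : Type*} [Group G] (π : Set ℕ) (X : Subgroup G) :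
    X ≤ Subgroup.normalizer (piCoreOf π X : Set G) := by
  rw [Subgroup.le_normalizer_iff]
  rintro x hx _ ⟨y, hy, rfl⟩
  have hn : (piCore π X).Normal := piCore_normal π X
  exact ⟨⟨x, hx⟩ * y * ⟨x, hx⟩⁻¹, hn.conj_mem y hy ⟨x, hx⟩, rfl⟩

theorem le_piCoreOf {G : Type*} [Group G] (π : Set ℕ) {X Y : Subgroup G} (hYX : Y ≤ X)
    (hnorm : X ≤ Subgroup.normalizer (Y : Set G))
    (hπ : ∀ p : ℕ, p.Prime → p ∣ Nat.card Y → p ∈ π) : Y ≤ piCoreOf π X := by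
  have hn : (Y.subgroupOf X).Normal := (Subgroup.normal_subgroupOf_iff_le_normalizer hYX).mpr hnorm
  have hle : Y.subgroupOf X ≤ piCore π X := by
    apply le_sSup
    refine ⟨hn, ?_⟩
    rw [Nat.card_congr (Subgroup.subgroupOfEquivOfLe hYX).toEquiv]
    exact hπ
  intro y hy
  exact ⟨⟨y, hYX hy⟩, hle (Subgroup.mem_subgroupOf.mpr hy), rfl⟩

theorem coprime_of_primesNotDvd {G : Type*} [Group G] {A Y : Subgroup G}
    (h : ∀ p : ℕ, p.Prime → p ∣ Nat.card Y → p ∈ primesNotDvd (Nat.card A)) :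
    (Nat.card A).Coprime (Nat.card Y) :=
  (Nat.coprime_of_dvd (fun k hk hkY => (h k hk hkY).2)).symm

/-! ### `q`-groups and `{q}`-groups -/

theorem isPGroup_of_primes {G : Type*} [Group G] [Finite G] {q : ℕ} {Q : Subgroup G}
    (h : ∀ p : ℕ, p.Prime → p ∣ Nat.card Q → p ∈ ({q} : Set ℕ)) : IsPGroup q Q :=
  IsPGroup.of_card (Nat.eq_prime_pow_of_unique_prime_dvd Nat.card_pos.ne'
    (fun {d} hd hdvd => h d hd hdvd))

theorem primes_of_isPGroup {G : Type*} [Group G] [Finite G] {q : ℕ} [hq : Fact q.Prime]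
    {Q : Subgroup G} (h : IsPGroup q Q) :
    ∀ p : ℕ, p.Prime → p ∣ Nat.card Q → p ∈ ({q} : Set ℕ) := by
  intro p hp hdvd
  obtain ⟨n, hn⟩ := IsPGroup.iff_card.mp h
  rw [hn] at hdvd
  exact (Nat.prime_dvd_prime_iff_eq hp hq.out).mp (hp.dvd_of_dvd_pow hdvd)

/-! ### Minimal simple groups of odd order -/

theorem minSimple_normalizer_ne_top {G : Type*} [Group G] (hG : IsMinSimpleOddOrder G)
    {D : Subgroup G} (h1 : D ≠ ⊥) (h2 : D ≠ ⊤) : Subgroup.normalizer (D : Set G) ≠ ⊤ := by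
  intro h
  have hs : IsSimpleGroup G := hG.2.1
  have hn : D.Normal := Subgroup.normalizer_eq_top_iff.mp h
  rcases hn.eq_bot_or_eq_top with h | h
  · exact h1 h
  · exact h2 h

/-! ### Invariant subgroups -/

theorem exists_maxInv_ge {G : Type*} [Group G] [Finite G] {A S : Subgroup G} {π : Set ℕ}
    (hS : S ∈ invSubgroups ⊤ A π) : ∃ Q ∈ maxInvSubgroups ⊤ A π, S ≤ Q := by
  obtain ⟨Q, hSQ, hQ, hmax⟩ := exists_maximal_above (fun R : Subgroup G => R ∈ invSubgroups ⊤ A π) hS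
  exact ⟨Q, ⟨hQ, hmax⟩, hSQ⟩

theorem cj_mem_invSubgroups {G : Type*} [Group G] {A Q : Subgroup G} {π : Set ℕ} {c : G}
    (hc : ∀ a ∈ A, a * c = c * a) (hQ : Q ∈ invSubgroups ⊤ A π) : cj c Q ∈ invSubgroups ⊤ A π := by
  refine ⟨le_top, ?_, le_normalizer_cj_of_commute hc hQ.2.2⟩
  rw [card_cj]
  exact hQ.2.1

theorem cj_mem_maxInv {G : Type*} [Group G] {A Q : Subgroup G} {π : Set ℕ} {c : G}
    (hc : ∀ a ∈ A, a * c = c * a) (hQ : Q ∈ maxInvSubgroups ⊤ A π) :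
    cj c Q ∈ maxInvSubgroups ⊤ A π := by
  refine ⟨cj_mem_invSubgroups hc hQ.1, ?_⟩
  intro R hR hle
  have hc' : ∀ a ∈ A, a * c⁻¹ = c⁻¹ * a := by
    intro a ha
    have := hc a ha
    calc a * c⁻¹ = c⁻¹ * (c * a) * c⁻¹ := by group
      _ = c⁻¹ * (a * c) * c⁻¹ := by rw [this]
      _ = c⁻¹ * a := by group
  have h1 : Q ≤ cj c⁻¹ R := by
    have := cj_mono c⁻¹ hle
    rwa [cj_inv_cj] at this
  have h2 := hQ.2 _ (cj_mem_invSubgroups hc' hR) h1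
  rw [← h2, cj_cj_inv]

theorem card_lt_of_le_of_not_mem {G : Type*} [Group G] [Finite G] {D E : Subgroup G} (h : D ≤ E)
    {x : G} (hxE : x ∈ E) (hxD : x ∉ D) : Nat.card D < Nat.card E := by
  refine lt_of_le_of_ne (Subgroup.card_le_of_le h) (fun heq => hxD ?_)
  rw [Subgroup.eq_of_le_of_card_ge h heq.ge]
  exact hxE

/-- Invariant `π'`-subgroups centralizing `A` lie in `O_{π'}(C_G(A))`. -/
theorem centralizer_inf_le_core {G : Type*} [Group G] [Finite G] (hG : IsMinSimpleOddOrder G)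
    (A : Subgroup G) (hA : TransitivityHypothesis A) (Y : Subgroup G)
    (hYπ : ∀ p : ℕ, p.Prime → p ∣ Nat.card Y → p ∈ primesNotDvd (Nat.card A)) :
    Y ⊓ Subgroup.centralizer (A : Set G) ≤
      piCoreOf (primesNotDvd (Nat.card A)) (Subgroup.centralizer (A : Set G)) := by
  set X : Subgroup G := A ⊔ Subgroup.centralizer (A : Set G) with hX
  have hXN : X ≤ Subgroup.normalizer (A : Set G) :=
    sup_le Subgroup.le_normalizer (Subgroup.centralizer_le_normalizer _)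
  have hXtop : X ≠ ⊤ := by
    intro h
    exact minSimple_normalizer_ne_top hG hA.1 hA.2.1 (top_le_iff.mp (h ▸ hXN))
  have hAX : A ≤ X := le_sup_left
  have hCX : Subgroup.centralizer (A : Set G) ≤ X := le_sup_right
  set O : Subgroup G := piCoreOf (primesNotDvd (Nat.card A)) X with hO
  have hT : Y ⊓ Subgroup.centralizer (A : Set G) ≤ O := by
    rw [hO, ← hA.2.2 X hXtop hAX]
    apply le_sSup
    refine ⟨inf_le_right.trans hCX, ?_, ?_⟩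
    · intro p hp hdvd
      exact hYπ p hp (hdvd.trans (Subgroup.card_dvd_of_le inf_le_left))
    · rw [Subgroup.le_normalizer_iff]
      intro a ha t ht
      have h1 : a * t = t * a := (Subgroup.mem_centralizer_iff.mp ht.2) a ha
      have h2 : a * t * a⁻¹ = t := by rw [h1]; group
      rw [h2]; exact ht
  have hOprimes := piCoreOf_primes (primesNotDvd (Nat.card A)) X
  have hcop : (Nat.card A).Coprime (Nat.card O) := coprime_of_primesNotDvd hOprimes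
  have hAO : A ⊓ O = ⊥ := (Subgroup.disjoint_of_coprime_natCard hcop).eq_bot
  have hOX : O ≤ X := piCoreOf_le _ X
  have hXO : X ≤ Subgroup.normalizer (O : Set G) := le_normalizer_piCoreOf _ X
  have hOC : O ≤ Subgroup.centralizer (A : Set G) := by
    intro o ho
    refine Subgroup.mem_centralizer_iff.mpr ?_
    intro a ha
    have h1 : a * o * a⁻¹ ∈ O := (Subgroup.le_normalizer_iff.mp hXO) a (hAX ha) o ho
    have h2 : o * a⁻¹ * o⁻¹ ∈ A :=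
      (Subgroup.le_normalizer_iff.mp hXN) o (hOX ho) a⁻¹ (A.inv_mem ha)
    have h3 : a * o * a⁻¹ * o⁻¹ ∈ A ⊓ O := by
      refine ⟨?_, O.mul_mem h1 (O.inv_mem ho)⟩
      have := A.mul_mem ha h2
      have h4 : a * (o * a⁻¹ * o⁻¹) = a * o * a⁻¹ * o⁻¹ := by group
      rwa [h4] at this
    rw [hAO, Subgroup.mem_bot] at h3
    calc a * o = (a * o * a⁻¹ * o⁻¹) * o * a := by group
      _ = o * a := by rw [h3, one_mul]
  exact hT.trans (le_piCoreOf _ hOC (hCX.trans hXO) hOprimes)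

/-- B&G Theorem 7.2, by induction on the size of the intersection. -/
theorem trans72_aux {G : Type*} [Group G] [Finite G] (hG : IsMinSimpleOddOrder G)
    (A : Subgroup G) (hA : TransitivityHypothesis A) (q : ℕ) (hq : q.Prime)
    (hqA : ¬ q ∣ Nat.card A) :
    ∀ (n : ℕ) (Q₁ Q₂ : Subgroup G), Q₁ ∈ maxInvSubgroups ⊤ A {q} → Q₂ ∈ maxInvSubgroups ⊤ A {q} →
      Nat.card G - Nat.card ↥(Q₁ ⊓ Q₂) ≤ n →
      (∃ H : Subgroup G, H ≠ ⊤ ∧ A ≤ H ∧ H ⊓ Q₁ ≠ ⊥ ∧ H ⊓ Q₂ ≠ ⊥) →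
      ∃ k ∈ piCoreOf (primesNotDvd (Nat.card A)) (Subgroup.centralizer (A : Set G)),
        Q₂ = cj k Q₁ := by
  have hfq : Fact q.Prime := ⟨hq⟩
  have hqπ : q ∈ primesNotDvd (Nat.card A) := ⟨hq, hqA⟩
  have hsol : Group.IsSolvable A := hG.2.2.2 A hA.2.1
  intro n
  induction n with
  | zero =>
    intro Q₁ Q₂ h₁ h₂ hn _
    have h1 : Nat.card G ≤ Nat.card ↥(Q₁ ⊓ Q₂) := by omega
    have h2 : Q₁ ⊓ Q₂ = ⊤ := Subgroup.eq_top_of_le_card _ h1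
    have h3 : Q₁ = ⊤ := top_le_iff.mp (h2 ▸ inf_le_left)
    have h4 : Q₂ = ⊤ := top_le_iff.mp (h2 ▸ inf_le_right)
    exact ⟨1, Subgroup.one_mem _, by rw [cj_one, h3, h4]⟩
  | succ n ih =>
    intro Q₁ Q₂ h₁ h₂ hn hH
    by_cases heq : Q₁ = Q₂
    · exact ⟨1, Subgroup.one_mem _, by rw [cj_one, heq]⟩
    obtain ⟨H, hH, hAH, hH₁, hH₂⟩ := hH
    set D : Subgroup G := Q₁ ⊓ Q₂ with hD
    have hD₁ : D ≠ Q₁ := by
      intro h
      exact heq (h₁.2 Q₂ h₂.1 (inf_eq_left.mp h)).symm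
    have hD₂ : D ≠ Q₂ := by
      intro h
      exact heq (h₂.2 Q₁ h₁.1 (inf_eq_right.mp h))
    have hQ₁q : IsPGroup q Q₁ := isPGroup_of_primes h₁.1.2.1
    have hQ₂q : IsPGroup q Q₂ := isPGroup_of_primes h₂.1.2.1
    -- a proper subgroup N ≥ A with N ∩ Q_i > D
    obtain ⟨N, hN, hAN, hDN, ⟨x₁, hx₁, hx₁D⟩, ⟨x₂, hx₂, hx₂D⟩⟩ :
        ∃ N : Subgroup G, N ≠ ⊤ ∧ A ≤ N ∧ D ≤ N ∧ (∃ x ∈ N ⊓ Q₁, x ∉ D) ∧
          (∃ x ∈ N ⊓ Q₂, x ∉ D) := by
      by_cases hDb : D = ⊥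
      · refine ⟨H, hH, hAH, hDb ▸ bot_le, ?_, ?_⟩
        · obtain ⟨⟨x, hx⟩, hx1⟩ := (Subgroup.ne_bot_iff_exists_ne_one).mp hH₁
          refine ⟨x, hx, fun h => hx1 ?_⟩
          rw [hDb, Subgroup.mem_bot] at h
          exact Subtype.ext h
        · obtain ⟨⟨x, hx⟩, hx1⟩ := (Subgroup.ne_bot_iff_exists_ne_one).mp hH₂
          refine ⟨x, hx, fun h => hx1 ?_⟩
          rw [hDb, Subgroup.mem_bot] at h
          exact Subtype.ext h
      · have hDtop : D ≠ ⊤ := by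
          intro h
          exact hD₁ (h.trans (top_le_iff.mp (h ▸ inf_le_left)).symm)
        refine ⟨Subgroup.normalizer (D : Set G), minSimple_normalizer_ne_top hG hDb hDtop, ?_,
          Subgroup.le_normalizer, ?_, ?_⟩
        · exact le_trans (le_inf h₁.1.2.2 h₂.1.2.2) Subgroup.inf_normalizer_le_normalizer_inf
        · obtain ⟨x, hxQ, hxD, hxN⟩ := exists_normalizing_not_mem hQ₁q inf_le_left hD₁
          exact ⟨x, ⟨hxN, hxQ⟩, hxD⟩
        · obtain ⟨x, hxQ, hxD, hxN⟩ := exists_normalizing_not_mem hQ₂q inf_le_right hD₂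
          exact ⟨x, ⟨hxN, hxQ⟩, hxD⟩
    set Y : Subgroup G := piCoreOf (primesNotDvd (Nat.card A)) N with hY
    have hinv : ∀ Q ∈ maxInvSubgroups ⊤ A {q}, N ⊓ Q ≤ Y := by
      intro Q hQ
      rw [hY, ← hA.2.2 N hN hAN]
      apply le_sSup
      refine ⟨inf_le_left, ?_, ?_⟩
      · intro p hp hdvd
        have := hQ.1.2.1 p hp (hdvd.trans (Subgroup.card_dvd_of_le inf_le_right))
        rw [Set.mem_singleton_iff] at this
        exact this ▸ hqπ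
      · exact le_trans (le_inf (hAN.trans Subgroup.le_normalizer) hQ.1.2.2)
          Subgroup.inf_normalizer_le_normalizer_inf
    have hAY : A ≤ Subgroup.normalizer (Y : Set G) := hAN.trans (le_normalizer_piCoreOf _ N)
    have hYprimes := piCoreOf_primes (primesNotDvd (Nat.card A)) N
    have hcop : (Nat.card A).Coprime (Nat.card Y) := coprime_of_primesNotDvd hYprimes
    have hYN : Y ≤ N := piCoreOf_le _ N
    obtain ⟨S₁, hS₁, hAS₁, hNS₁⟩ := exists_invariant_sylow_ge A Y hAY hcop hsol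
      (hQ₁q.to_le inf_le_right) (hinv Q₁ h₁)
      (le_trans (le_inf (hAN.trans Subgroup.le_normalizer) h₁.1.2.2)
        Subgroup.inf_normalizer_le_normalizer_inf)
    obtain ⟨S₂, hS₂, hAS₂, hNS₂⟩ := exists_invariant_sylow_ge A Y hAY hcop hsol
      (hQ₂q.to_le inf_le_right) (hinv Q₂ h₂)
      (le_trans (le_inf (hAN.trans Subgroup.le_normalizer) h₂.1.2.2)
        Subgroup.inf_normalizer_le_normalizer_inf)
    obtain ⟨c, hcY, hcA, hcS⟩ := invariant_sylow_conj A Y hAY hcop hsol hS₁ hS₂ hAS₁ hAS₂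
    have hcK : c ∈ piCoreOf (primesNotDvd (Nat.card A)) (Subgroup.centralizer (A : Set G)) :=
      centralizer_inf_le_core hG A hA Y hYprimes
        ⟨hcY, Subgroup.mem_centralizer_iff.mpr (fun a ha => hcA a ha)⟩
    obtain ⟨Q₁', hQ₁', hS₁Q₁'⟩ := exists_maxInv_ge (A := A) (π := {q})
      ⟨le_top, primes_of_isPGroup (isPGroup_of_mem_sylSet hS₁), hAS₁⟩
    obtain ⟨Q₂', hQ₂', hS₂Q₂'⟩ := exists_maxInv_ge (A := A) (π := {q})
      ⟨le_top, primes_of_isPGroup (isPGroup_of_mem_sylSet hS₂), hAS₂⟩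
    have hx₁1 : x₁ ≠ 1 := fun h => hx₁D (h ▸ D.one_mem)
    have hx₂1 : x₂ ≠ 1 := fun h => hx₂D (h ▸ D.one_mem)
    have hne_bot : ∀ {E : Subgroup G} {x : G}, x ∈ E → x ≠ 1 → E ≠ ⊥ := by
      intro E x hx hx1 h
      rw [h, Subgroup.mem_bot] at hx
      exact hx1 hx
    have hcardG : ∀ E : Subgroup G, Nat.card E ≤ Nat.card G := fun E => Subgroup.card_le_card_group E
    -- first pair
    obtain ⟨k₁, hk₁, hk₁Q⟩ := ih Q₁ Q₁' h₁ hQ₁'
      (by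
        have h1 : Nat.card D < Nat.card ↥(Q₁ ⊓ Q₁') :=
          card_lt_of_le_of_not_mem (le_inf inf_le_left ((le_inf hDN inf_le_left).trans (hNS₁.trans hS₁Q₁')))
            (⟨hx₁.2, hS₁Q₁' (hNS₁ hx₁)⟩ : x₁ ∈ Q₁ ⊓ Q₁') hx₁D
        have h2 := hcardG (Q₁ ⊓ Q₁')
        omega)
      ⟨N, hN, hAN, hne_bot hx₁ hx₁1, hne_bot (⟨hx₁.1, hS₁Q₁' (hNS₁ hx₁)⟩ : x₁ ∈ N ⊓ Q₁') hx₁1⟩
    -- second pair
    obtain ⟨k₂, hk₂, hk₂Q⟩ := ih Q₂ Q₂' h₂ hQ₂'
      (by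
        have h1 : Nat.card D < Nat.card ↥(Q₂ ⊓ Q₂') :=
          card_lt_of_le_of_not_mem (le_inf inf_le_right ((le_inf hDN inf_le_right).trans (hNS₂.trans hS₂Q₂')))
            (⟨hx₂.2, hS₂Q₂' (hNS₂ hx₂)⟩ : x₂ ∈ Q₂ ⊓ Q₂') hx₂D
        have h2 := hcardG (Q₂ ⊓ Q₂')
        omega)
      ⟨N, hN, hAN, hne_bot hx₂ hx₂1, hne_bot (⟨hx₂.1, hS₂Q₂' (hNS₂ hx₂)⟩ : x₂ ∈ N ⊓ Q₂') hx₂1⟩
    -- third pair
    have hS₂cj : S₂ ≤ cj c Q₁' := hcS ▸ cj_mono c hS₁Q₁'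
    obtain ⟨k₃, hk₃, hk₃Q⟩ := ih (cj c Q₁') Q₂' (cj_mem_maxInv hcA hQ₁') hQ₂'
      (by
        have h1 : Nat.card D < Nat.card ↥(cj c Q₁' ⊓ Q₂') :=
          card_lt_of_le_of_not_mem
            (le_inf ((le_inf hDN inf_le_right).trans (hNS₂.trans hS₂cj))
              ((le_inf hDN inf_le_right).trans (hNS₂.trans hS₂Q₂')))
            (⟨hS₂cj (hNS₂ hx₂), hS₂Q₂' (hNS₂ hx₂)⟩ : x₂ ∈ cj c Q₁' ⊓ Q₂') hx₂D
        have h2 := hcardG (cj c Q₁' ⊓ Q₂')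
        omega)
      ⟨N, hN, hAN, hne_bot (⟨hx₂.1, hS₂cj (hNS₂ hx₂)⟩ : x₂ ∈ N ⊓ cj c Q₁') hx₂1,
        hne_bot (⟨hx₂.1, hS₂Q₂' (hNS₂ hx₂)⟩ : x₂ ∈ N ⊓ Q₂') hx₂1⟩
    refine ⟨k₂⁻¹ * k₃ * c * k₁, ?_, ?_⟩
    · exact Subgroup.mul_mem _ (Subgroup.mul_mem _ (Subgroup.mul_mem _ (Subgroup.inv_mem _ hk₂) hk₃) hcK) hk₁
    · rw [cj_mul, cj_mul, cj_mul, ← hk₁Q, ← hk₃Q, hk₂Q, cj_inv_cj]

end Cfsg.Agent.Lib.Helper32
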