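import Cfsg.Agent.Lib.Helper32.Uniq9
import Mathlib.GroupTheory.SpecificGroups.ZGroup

/-!
# B&G Section 10 (statements S1404 - S1411): interface

Each statement of the block, with `G` fixed, as a `Prop`, so that the pieces can be proved
independently from one another and from the Uniqueness Theorem (`UT`, = S1403).
-/

set_option autoImplicit false

open Cfsg

namespace Cfsg.Agent.Lib.Helper32.BG10

universe u

variable (G : Type u) [Group G]

/-- the Uniqueness Theorem (B&G 9.6, S1403) -/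
def UT : Prop :=
  ∀ K : Subgroup G, K ≠ ⊤ → ¬ RankLE 1 K →
    (¬ RankLE 2 K ∨ ¬ RankLE 2 (Subgroup.centralizer (K : Set G))) → InUniqueMaximal K

/-- B&G 10.1 (S1404) -/
def H1 : Prop :=
  ∀ (M : Subgroup G), IsCoatom M → ∀ (p : ℕ) [Fact p.Prime], p ∈ sigma M →
    ∀ (X : Subgroup G), IsPGroup p X → X ≠ ⊥ → X ≤ M →
    (∀ g : G, X.map (MulAut.conj g).toMonoidHom ≤ M →
        ∃ m ∈ M, ∃ c ∈ Subgroup.centralizer (X : Set G), g = m * c) ∧
      Subgroup.normalizer (X : Set G) =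
        (M ⊓ Subgroup.normalizer (X : Set G)) ⊔ Subgroup.centralizer (X : Set G)

/-- for `p ∈ σ(M)` the Sylow `p`-subgroups of `M` lie in `M'` -/
def SigDer : Prop :=
  ∀ (M : Subgroup G), IsCoatom M → ∀ (p : ℕ) [Fact p.Prime], p ∈ sigma M →
    ∀ P : Sylow p ↥M, (P : Subgroup ↥M) ≤ commutator ↥M

/-- B&G 10.2 (S1405) -/
def H2 : Prop :=
  ∀ (M : Subgroup G), IsCoatom M →
    IsPiHallOf (alpha M) (alphaCore M) M ∧ IsPiHall (alpha M) (alphaCore M) ∧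
      alphaCore M ≤ sigmaCore M ∧ RankLE 2 (↥M ⧸ piCore (alpha M) ↥M) ∧
      Group.IsNilpotent ↥((commutator ↥M).map (QuotientGroup.mk' (piCore (alpha M) ↥M)))

/-- B&G 10.3 (S1406) -/
def H3 : Prop :=
  ∀ (M : Subgroup G), IsCoatom M → ∀ (X : Subgroup G), X ≤ M →
    (∀ p : ℕ, p.Prime → p ∣ Nat.card X → p ∉ alpha M) →
    ¬ RankLE 1 ↥(alphaCore M ⊓ Subgroup.centralizer (X : Set G)) →
    InUniqueMaximal (M ⊓ Subgroup.centralizer (X : Set G))

/-- B&G 10.4 (S1407) -/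
def H4 : Prop :=
  ∀ (M : Subgroup G), IsCoatom M → alphaCore M ≠ ⊥ → ∀ (p : ℕ) [Fact p.Prime],
    p ∣ Nat.card M → p ∉ sigma M → ∀ (P : Sylow p M),
    ∃ x : G, x ∈ ((Subgroup.center ↥(P : Subgroup M)).map (P : Subgroup M).subtype).map
          M.subtype ∧ orderOf x = p ∧
        IsZGroup ↥(alphaCore M ⊓ Subgroup.centralizer ({x} : Set G)) ∧
        ¬ (Subgroup.centralizer ({x} : Set G) ≤ M ∧ ∀ L : Subgroup G, IsCoatom L →
          Subgroup.centralizer ({x} : Set G) ≤ L → L = M)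

/-- B&G 10.5 (S1408) -/
def H5 : Prop :=
  ∀ (M : Subgroup G), IsCoatom M → ∀ (p : ℕ) [Fact p.Prime], p ∉ sigma M →
    PRankLE p 2 M → ¬ PRankLE p 1 M →
    ¬ IsIdealPrime p G ∧ ∀ A : Subgroup G, A ≤ M → IsElementaryAbelian p A →
        Nat.card A = p ^ 2 → ∀ B : Subgroup G, IsElementaryAbelian p B → A ≤ B → B = A

/-- B&G 10.6 (S1409) -/
def H6 : Prop :=
  ∀ (M : Subgroup G), IsCoatom M → ∀ (p : ℕ) [Fact p.Prime], p ∉ sigma M →
    ∀ (X : Subgroup G), Nat.card X = p → Subgroup.normalizer (X : Set G) ≤ M →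
    (PRankLE p 2 M ∧ ¬ PRankLE p 1 M) ∧ ¬ IsIdealPrime p G ∧
      ∃ A : Subgroup G, IsElementaryAbelian p A ∧ Nat.card A = p ^ 2 ∧ X ≤ A

/-- B&G 10.7 (S1410) -/
def H7 : Prop :=
  ∀ (p : ℕ) [Fact p.Prime] (H : Subgroup G), H ≠ ⊤ → PLengthLE p 1 H

/-- B&G 10.8 (S1411) -/
def H8 : Prop :=
  ∀ (p : ℕ) [Fact p.Prime] (P : Sylow p G) (V : Subgroup G),
    IsComplIn (P : Subgroup G) V (Subgroup.normalizer ((P : Subgroup G) : Set G)) →
    (P : Subgroup G) = ⁅(P : Subgroup G), V⁆ ∧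
      (P : Subgroup G) ≤ ⁅Subgroup.normalizer ((P : Subgroup G) : Set G),
        Subgroup.normalizer ((P : Subgroup G) : Set G)⁆

/-- B&G Theorem 6.5 (S1444) for groups in the universe of `G` -/
def H1444 : Prop :=
  ∀ (Γ : Type u) [Group Γ] [Finite Γ] [Group.IsSolvable Γ], Odd (Nat.card Γ) →
    ∀ (H R R₀ : Subgroup Γ) [H.Normal], (Nat.card H).Coprime H.index →
    Subgroup.IsComplement' H R → R₀ ≤ R → (Nat.card R₀).Prime →
    IsZGroup ↥(H ⊓ Subgroup.centralizer (R₀ : Set Γ)) →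
    ∀ (p : ℕ) [Fact p.Prime], PLengthLE p 1 ↥⁅H, R⁆

end Cfsg.Agent.Lib.Helper32.BG10
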