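import Mathlib
import Cfsg.Agent.Lib.Helper32.BG10Basic
import Cfsg.Agent.Lib.Helper66.Cores
import Cfsg.Agent.Lib.Helper30.Cores

/-!
# `M_σ` is a Hall `σ(M)`-subgroup of `M` and of `G` (S1350), from B&G 10.2 and `SigDer`
-/

set_option autoImplicit false

open Cfsg Cfsg.Agent.Lib.Helper32

namespace Cfsg.Agent.Lib.Helper32.BG10

universe u

variable {G : Type u} [Group G] [Finite G]

/-- for `p ∈ σ(M)` every Sylow `p`-subgroup of `M` lies in `O_{σ(M)}(M)` -/
theorem sylow_le_sigmaCore (hG : IsMinSimpleOddOrder G) (hUT : UT G) (h2 : H2 G)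
    (hder : SigDer G) {M : Subgroup G} (hM : IsCoatom M) (p : ℕ) [Fact p.Prime]
    (hpσ : p ∈ sigma M) (P : Sylow p ↥M) :
    (P : Subgroup ↥M) ≤ piCore (sigma M) ↥M := by
  intro x hx
  have hp : p.Prime := Fact.out
  have hασ : alpha M ⊆ sigma M := alpha_sub_sigma hG hUT hM
  have he : Group.IsNilpotent
      ↥((commutator ↥M).map (QuotientGroup.mk' (piCore (alpha M) ↥M))) := (h2 M hM).2.2.2.2
  have hxc : x ∈ commutator ↥M := hder M hM p hpσ P hx
  have hCn : ((commutator ↥M).map (QuotientGroup.mk' (piCore (alpha M) ↥M))).Normal :=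
    Subgroup.Normal.map inferInstance _ (QuotientGroup.mk'_surjective _)
  have h2' : (commutator ↥M).map (QuotientGroup.mk' (piCore (alpha M) ↥M)) ≤
      fittingSubgroup (↥M ⧸ piCore (alpha M) ↥M) := le_sSup ⟨hCn, he⟩
  obtain ⟨j, hj⟩ := P.2 ⟨x, hx⟩
  have hxj : x ^ p ^ j = 1 := by simpa using congrArg Subtype.val hj
  have hord : orderOf (QuotientGroup.mk' (piCore (alpha M) ↥M) x) ∣ p ^ j :=
    orderOf_dvd_of_pow_eq_one (by rw [← map_pow, hxj, map_one])
  obtain ⟨k, -, hk⟩ := (Nat.dvd_prime_pow hp).mp hord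
  have h3 : QuotientGroup.mk' (piCore (alpha M) ↥M) x ∈
      pCore p (↥M ⧸ piCore (alpha M) ↥M) :=
    Cfsg.Agent.Lib.Helper66.mem_pCore_of_mem_fitting (h2' (Subgroup.mem_map_of_mem _ hxc)) hk
  have hcard := Cfsg.Agent.Lib.Helper30.card_comap_mk' (piCore (alpha M) ↥M)
    (pCore p (↥M ⧸ piCore (alpha M) ↥M))
  have hLn : ((pCore p (↥M ⧸ piCore (alpha M) ↥M)).comap
      (QuotientGroup.mk' (piCore (alpha M) ↥M))).Normal :=
    (Cfsg.pCore_normal p _).comap _
  have hle : (pCore p (↥M ⧸ piCore (alpha M) ↥M)).comap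
      (QuotientGroup.mk' (piCore (alpha M) ↥M)) ≤ piCore (sigma M) ↥M := by
    apply le_sSup
    refine ⟨hLn, fun r hr hdvd => ?_⟩
    rw [hcard] at hdvd
    rcases (Nat.Prime.dvd_mul hr).mp hdvd with h | h
    · exact hασ (Cfsg.Agent.Lib.Helper66.isPi_piCore (alpha M) r hr h)
    · obtain ⟨i, hi⟩ := IsPGroup.iff_card.mp
        (Cfsg.Agent.Lib.Helper66.isPGroup_pCore (G := ↥M ⧸ piCore (alpha M) ↥M) p)
      rw [hi] at h
      have := (Nat.prime_dvd_prime_iff_eq hr hp).mp (hr.dvd_of_dvd_pow h)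
      rw [this]
      exact hpσ
  exact hle (Subgroup.mem_comap.mpr h3)

/-- for `p ∈ σ(M)`, `p` does not divide the index of `M` -/
theorem sigma_not_dvd_index {M : Subgroup G} {p : ℕ} (hp : p.Prime) (hpσ : p ∈ sigma M) :
    ¬ p ∣ M.index := by
  intro hdvd
  haveI : Fact p.Prime := ⟨hp⟩
  obtain ⟨P⟩ : Nonempty (Sylow p ↥M) := inferInstance
  have h1 := (sigma_sylow hpσ P).2.2
  rw [Cfsg.Agent.Lib.Helper30.card_map_subtype, P.card_eq_multiplicity, Subgroup.card_top] at h1
  have h2 : (Nat.card ↥M).factorization p = (Nat.card G).factorization p :=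
    Nat.pow_right_injective hp.two_le h1
  have h3 : Nat.card ↥M * M.index = Nat.card G := Subgroup.card_mul_index M
  have h4 : (Nat.card G).factorization p =
      (Nat.card ↥M).factorization p + (M.index).factorization p := by
    rw [← h3, Nat.factorization_mul Nat.card_pos.ne' Subgroup.index_ne_zero_of_finite,
      Finsupp.add_apply]
  have h5 : 0 < (M.index).factorization p :=
    hp.factorization_pos_of_dvd Subgroup.index_ne_zero_of_finite hdvd
  omega

/-- S1350: `M_σ` is a Hall `σ(M)`-subgroup of `M` and of `G`, and the only normal one -/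
theorem sigma_hall (hG : IsMinSimpleOddOrder G) (hUT : UT G) (h2 : H2 G) (hder : SigDer G)
    {M : Subgroup G} (hM : IsCoatom M) :
    IsPiHallOf (sigma M) (sigmaCore M) M ∧ IsPiHall (sigma M) (sigmaCore M) ∧
      ∀ N : Subgroup G, M ≤ Subgroup.normalizer (N : Set G) → IsPiHallOf (sigma M) N M →
        N = sigmaCore M := by
  have hNpi : ∀ p : ℕ, p.Prime → p ∣ Nat.card (piCore (sigma M) ↥M) → p ∈ sigma M :=
    Cfsg.Agent.Lib.Helper66.isPi_piCore (sigma M)
  have hidx : ∀ p : ℕ, p.Prime → p ∈ sigma M → ¬ p ∣ (piCore (sigma M) ↥M).index := by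
    intro p hp hpσ
    haveI : Fact p.Prime := ⟨hp⟩
    obtain ⟨P⟩ : Nonempty (Sylow p ↥M) := inferInstance
    intro hdvd
    exact P.not_dvd_index
      (hdvd.trans (Subgroup.index_dvd_of_le (sylow_le_sigmaCore hG hUT h2 hder hM p hpσ P)))
  have hrel : (sigmaCore M).relIndex M = (piCore (sigma M) ↥M).index := by
    have h1 : (sigmaCore M).subgroupOf M = piCore (sigma M) ↥M :=
      Subgroup.comap_map_eq_self_of_injective M.subtype_injective _
    rw [Subgroup.relIndex, h1]
  have hcardσ : Nat.card ↥(sigmaCore M) = Nat.card (piCore (sigma M) ↥M) :=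
    Cfsg.Agent.Lib.Helper30.card_map_subtype _
  have hσM : sigmaCore M ≤ M := Subgroup.map_subtype_le _
  refine ⟨⟨hσM, ?_, ?_⟩, ⟨?_, ?_⟩, ?_⟩
  · intro p hp hdvd
    rw [hcardσ] at hdvd
    exact hNpi p hp hdvd
  · intro p hp hpσ
    rw [hrel]
    exact hidx p hp hpσ
  · intro p hp hdvd
    rw [hcardσ] at hdvd
    exact hNpi p hp hdvd
  · intro p hp hpσ hdvd
    have h1 : (sigmaCore M).index = (piCore (sigma M) ↥M).index * M.index :=
      Subgroup.index_map_subtype _
    rw [h1] at hdvd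
    rcases (Nat.Prime.dvd_mul hp).mp hdvd with h | h
    · exact hidx p hp hpσ h
    · exact sigma_not_dvd_index hp hpσ h
  · intro N hMN ⟨hNM, hNpi', hNidx⟩
    -- `N ≤ M_σ`
    have hNn : (N.subgroupOf M).Normal := by
      constructor
      intro n hn g
      rw [Subgroup.mem_subgroupOf] at hn ⊢
      have hg := hMN g.2
      rw [Subgroup.mem_normalizer_iff] at hg
      have := (hg n.1).mp hn
      simpa using this
    have hcardN : Nat.card ↥(N.subgroupOf M) = Nat.card ↥N :=
      Nat.card_congr (Subgroup.subgroupOfEquivOfLe hNM).toEquiv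
    have hle' : N.subgroupOf M ≤ piCore (sigma M) ↥M := by
      apply le_sSup
      refine ⟨hNn, fun r hr hdvd => ?_⟩
      rw [hcardN] at hdvd
      exact hNpi' r hr hdvd
    have hle : N ≤ sigmaCore M := by
      intro x hx
      exact ⟨⟨x, hNM hx⟩, hle' (Subgroup.mem_subgroupOf.mpr hx), rfl⟩
    -- relative index one
    have hmul : N.relIndex (sigmaCore M) * (sigmaCore M).relIndex M = N.relIndex M :=
      Subgroup.relIndex_mul_relIndex N (sigmaCore M) M hle hσM
    have hone : N.relIndex (sigmaCore M) = 1 := by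
      by_contra hne
      obtain ⟨r, hr, hrdvd⟩ := Nat.exists_prime_and_dvd hne
      have h1 : r ∣ Nat.card ↥(sigmaCore M) :=
        hrdvd.trans (Subgroup.relIndex_dvd_card N (sigmaCore M))
      have hrσ : r ∈ sigma M := by
        rw [hcardσ] at h1
        exact hNpi r hr h1
      apply hNidx r hr hrσ
      rw [← hmul]
      exact hrdvd.trans (Dvd.intro _ rfl)
    exact le_antisymm hle (Subgroup.relIndex_eq_one.mp hone)

end Cfsg.Agent.Lib.Helper32.BG10
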