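import Cfsg.Agent.Lib.Helper41.BG11Kit
import Cfsg.Agent.Lib.Helper1.Hall

/-!
# B&G Section 11, piece BG11-BETA (helper32, for helper41): subgroups of `H_σ` whose order
involves no ideal prime are nilpotent (from S1414 and Hall's theorems).
-/

set_option autoImplicit false

open Cfsg Cfsg.Agent.Lib.Helper32 Cfsg.Agent.Lib.Helper32.BG10 Cfsg.Agent.Lib.Helper3.BG12
open Cfsg.Agent.Lib.Helper41.BG11
open scoped Pointwise

namespace Cfsg.Agent.Lib.Helper32.BG11

universe u

variable {G : Type u} [Group G] [Finite G]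

theorem beta (hG : IsMinSimpleOddOrder G) (h14 : H14 G) : PBeta G := by
  intro H X hH hXS hXni
  obtain ⟨U, ⟨hUS, hUpi, hUidx⟩, hUnil⟩ := (h14 H hH).2.2.2.1
  set S : Subgroup G := sigmaCore H with hSdef
  have hSH : S ≤ H := by
    rintro x ⟨y, -, rfl⟩; exact y.2
  have hStop : S ≠ ⊤ := fun h => hH.1 (top_le_iff.mp (h ▸ hSH))
  have hsol : Group.IsSolvable ↥S := minSimple_solvable hG hStop
  -- the arithmetic
  have hcardS : Nat.card ↥S = Nat.card U * U.relIndex S := by
    have h1 := Subgroup.card_mul_index (U.subgroupOf S)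
    rw [Nat.card_congr (Subgroup.subgroupOfEquivOfLe hUS).toEquiv] at h1
    exact h1.symm
  have hcop : (Nat.card U).Coprime (U.relIndex S) := by
    by_contra hc
    obtain ⟨r, hr, hr1, hr2⟩ := Nat.Prime.not_coprime_iff_dvd.mp hc
    exact hUidx r hr (hUpi r hr hr1) hr2
  have hXcop : (Nat.card ↥(X.subgroupOf S)).Coprime (U.relIndex S) := by
    rw [Nat.card_congr (Subgroup.subgroupOfEquivOfLe hXS).toEquiv]
    by_contra hc
    obtain ⟨r, hr, hr1, hr2⟩ := Nat.Prime.not_coprime_iff_dvd.mp hc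
    have hrb : r ∉ Cfsg.beta H := fun h => hXni r hr hr1 h.2
    exact hUidx r hr ⟨hr, hrb⟩ hr2
  obtain ⟨H', hH'card, hXH'⟩ := Cfsg.Agent.Lib.Helper1.hall_dominance (G := ↥S) (Nat.card U)
    (U.relIndex S) hcardS hcop (X.subgroupOf S) hXcop
  have hU'card : Nat.card ↥(U.subgroupOf S) = Nat.card U :=
    Nat.card_congr (Subgroup.subgroupOfEquivOfLe hUS).toEquiv
  obtain ⟨g, hg⟩ := Cfsg.Agent.Lib.Helper1.hall_conj (G := ↥S) (Nat.card U) (U.relIndex S)
    hcardS hcop H' (U.subgroupOf S) hH'card hU'card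
  -- nilpotency along the isomorphisms
  have hnU' : Group.IsNilpotent ↥(U.subgroupOf S) :=
    Group.nilpotent_of_mulEquiv (Subgroup.subgroupOfEquivOfLe hUS).symm
  have hnH' : Group.IsNilpotent ↥H' := by
    have e : ↥H' ≃* ↥(MulAut.conj g • H') := Subgroup.equivSMul (MulAut.conj g) H'
    rw [hg] at e
    exact Group.nilpotent_of_mulEquiv e.symm
  have hnX1 : Group.IsNilpotent ↥((X.subgroupOf S).subgroupOf H') := inferInstance
  have hnX2 : Group.IsNilpotent ↥(X.subgroupOf S) :=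
    Group.nilpotent_of_mulEquiv (Subgroup.subgroupOfEquivOfLe hXH')
  exact Group.nilpotent_of_mulEquiv (Subgroup.subgroupOfEquivOfLe hXS)

end Cfsg.Agent.Lib.Helper32.BG11
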