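import Cfsg.Agent.Lib.Helper41.BG11Kit
import Cfsg.Agent.Lib.Helper3.BG12Pieces

/-!
# B&G Section 11, piece BG11-BU (helper32, for helper41): two maximal subgroups sharing a
nontrivial `q`-subgroup, `q` ideal and in `σ` of both, are equal (Uniqueness Theorem).
-/

set_option autoImplicit false

open Cfsg Cfsg.Agent.Lib.Helper32 Cfsg.Agent.Lib.Helper32.BG10 Cfsg.Agent.Lib.Helper3.BG12
open Cfsg.Agent.Lib.Helper41.BG11

namespace Cfsg.Agent.Lib.Helper32.BG11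

universe u

variable {G : Type u} [Group G] [Finite G]

private theorem bu_claim (hG : IsMinSimpleOddOrder G) {M : Subgroup G} (hM : IsCoatom M) {q : ℕ}
    [Fact q.Prime] (hi : IsIdealPrime q G) (hqs : q ∈ sigma M) {Y₁ : Subgroup G}
    (hY₁c : Nat.card Y₁ = q) (hY₁M : Y₁ ≤ M) :
    UniqIn M (M ⊓ Subgroup.centralizer (Y₁ : Set G)) := by
  have hq : q.Prime := Fact.out
  have hY₁q : IsPGroup q Y₁ := IsPGroup.of_card (n := 1) (by rw [hY₁c, pow_one])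
  obtain ⟨Q, hQ, hYQ⟩ := exists_sylSet_ge hY₁q hY₁M
  obtain ⟨-, hQtop⟩ := sigma_sylSet hqs hQ
  have hQp : IsPGroup q Q := isPGroup_of_mem_sylSet hQ
  have hr2 : ¬ PRankLE q 2 ↥Q := by
    intro h
    have h1 : PRankLE q 2 ↥(⊤ : Subgroup G) := prankLE_of_sylSet hQtop 2 h
    obtain ⟨W, hW, hWc⟩ := Cfsg.Agent.Lib.Helper31.exists_of_not_pRankLE_top hi.2.1
    have hWcomm : ∀ a ∈ W, ∀ b ∈ W, a * b = b * a := by
      intro a ha b hb
      exact congrArg Subtype.val (hW.1.is_comm.comm ⟨a, ha⟩ ⟨b, hb⟩)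
    exact not_prankLE_of_le (le_top : W ≤ ⊤) hWcomm hW.2 hWc h1
  have hr1 : ¬ PRankLE q 1 ↥Q := fun h1 => hr2 (fun A hA hAe =>
    (h1 A hA hAe).trans (Nat.pow_le_pow_right hq.pos (by norm_num)))
  obtain ⟨A, hAQ, hAe, hAc, hYA⟩ :=
    Cfsg.Agent.Lib.Helper3.BG12S.exists_elemAb2_ge hQp hr1 hYQ hY₁c
  obtain ⟨B, hBQ, hBe, hAB⟩ :=
    Cfsg.Agent.Lib.Helper3.BG12S.exists_elemAb_gt_of_ideal hQtop hi hAQ hAe hAc
  have hBcomm : ∀ a ∈ B, ∀ b ∈ B, a * b = b * a := by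
    intro a ha b hb
    exact congrArg Subtype.val (hBe.1.is_comm.comm ⟨a, ha⟩ ⟨b, hb⟩)
  have hBC : B ≤ Subgroup.centralizer (Y₁ : Set G) := by
    intro b hb
    rw [Subgroup.mem_centralizer_iff]
    intro x hx
    exact hBcomm x (hAB.le (hYA hx)) b hb
  have hcardB : q ^ 2 < Nat.card B := by
    rw [← hAc]
    refine lt_of_le_of_ne (Subgroup.card_le_of_le hAB.le) (fun heq => ?_)
    exact hAB.ne (Subgroup.eq_of_le_of_card_ge hAB.le heq.ge)
  have hrank : ¬ PRankLE q 2 ↥(M ⊓ Subgroup.centralizer (Y₁ : Set G)) :=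
    not_prankLE_of_le (le_inf (hBQ.trans hQ.1) hBC) hBcomm hBe.2 hcardB
  exact uniqIn_of_rank3 (ut_of hG) hM inf_le_left hq hrank

theorem bu (hG : IsMinSimpleOddOrder G) : PBU G := by
  intro M H Y q hM hH hq hi hqM hqH hYq hY1 hYM hYH
  have : Fact q.Prime := ⟨hq⟩
  -- an element of order `q` in `Y`
  have hqY : q ∣ Nat.card Y := by
    obtain ⟨k, hk⟩ := IsPGroup.iff_card.mp hYq
    rw [hk]
    have hk0 : k ≠ 0 := by
      rintro rfl
      rw [pow_zero] at hk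
      exact hY1 (Subgroup.card_eq_one.mp hk)
    exact dvd_pow_self q hk0
  obtain ⟨y, hy⟩ := exists_prime_orderOf_dvd_card' q hqY
  have hy' : orderOf (y : G) = q := by rw [Subgroup.orderOf_coe]; exact hy
  set Y₁ : Subgroup G := Subgroup.zpowers (y : G) with hY₁
  have hY₁c : Nat.card Y₁ = q := by rw [hY₁, Nat.card_zpowers, hy']
  have hY₁Y : Y₁ ≤ Y := by
    rw [hY₁, Subgroup.zpowers_le]; exact y.2
  have hY₁1 : Y₁ ≠ ⊥ := by
    intro h
    rw [h, Subgroup.card_bot] at hY₁c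
    exact hq.one_lt.ne' hY₁c.symm
  have hY₁top : Y₁ ≠ ⊤ := by
    intro h
    have h1 : (⊤ : Subgroup G) ≤ M := h ▸ hY₁Y.trans hYM
    exact hM.1 (top_le_iff.mp h1)
  have hUM := bu_claim hG hM hi hqM hY₁c (hY₁Y.trans hYM)
  have hUH := bu_claim hG hH hi hqH hY₁c (hY₁Y.trans hYH)
  have hC : Subgroup.centralizer (Y₁ : Set G) ≠ ⊤ := by
    intro h
    have h2 := minSimple_normalizer_ne_top hG hY₁1 hY₁top
    exact h2 (top_le_iff.mp (h ▸ Subgroup.centralizer_le_normalizer (Y₁ : Set G)))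
  obtain ⟨L, hL, hCL⟩ := exists_coatom_ge hC
  have h1 : L = M := hUM L hL (inf_le_right.trans hCL)
  have h2 : L = H := hUH L hL (inf_le_right.trans hCL)
  rw [← h2, h1]

end Cfsg.Agent.Lib.Helper32.BG11
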