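import Cfsg.Agent.Lib.Helper41.BG11Kit
import Cfsg.Agent.S0033

/-!
# B&G Section 11, piece BG11-NIL (helper32, for helper41): B&G Lemma 11.3 from `PTI`
(`M_σ` is nilpotent, by Thompson's theorem S0033).
-/

set_option autoImplicit false

open Cfsg Cfsg.Agent.Lib.Helper32 Cfsg.Agent.Lib.Helper32.BG10 Cfsg.Agent.Lib.Helper3.BG12
open Cfsg.Agent.Lib.Helper41.BG11

namespace Cfsg.Agent.Lib.Helper32.BG11

universe u

variable {G : Type u} [Group G] [Finite G]

private theorem iter_eq_pow {H : Type*} [Group H] (φ : MulAut H) (n : ℕ) :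
    (⇑φ)^[n] = ⇑(φ ^ n) := by
  induction n with
  | zero => rfl
  | succ n ih =>
    rw [Function.iterate_succ', ih, pow_succ']
    rfl

theorem nil (_hG : IsMinSimpleOddOrder G) (hTI : PTI G) : PNil G := by
  intro M p A A₀ hExc
  have hExc' := hExc
  obtain ⟨hM, hp, hps, hAM, hmax, hAc, hid, hA₀, hA₀c, hN⟩ := hExc
  have : Fact p.Prime := ⟨hp⟩
  have hAp : IsPGroup p A := IsPGroup.of_card hAc
  obtain ⟨P, hP, hAP⟩ := exists_sylSet_ge hAp hAM
  have hP1 : P ≠ ⊥ := by
    intro h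
    rw [h] at hAP
    have h1 : A = ⊥ := le_bot_iff.mp hAP
    rw [h1, Subgroup.card_bot] at hAc
    have h2 := hp.one_lt
    have h3 : 1 < p ^ 2 := Nat.one_lt_pow two_ne_zero h2
    omega
  have hNP : ¬ Subgroup.normalizer (P : Set G) ≤ M :=
    fun h => hps (mem_sigma_of_normalizer_le hP hP1 h)
  obtain ⟨x, hxN, hxM⟩ := SetLike.not_le_iff_exists.mp hNP
  have hxP : cj x⁻¹ P = P := cj_eq_self_iff.mpr (Subgroup.inv_mem _ hxN)
  have hxP' : cj x P = P := cj_eq_self_iff.mpr hxN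
  have hAx : A ≤ cj x M := by
    have h1 : cj x⁻¹ A ≤ M := by
      have := cj_mono x⁻¹ hAP
      rw [hxP] at this
      exact this.trans hP.1
    have := cj_mono x h1
    rwa [cj_cj_inv] at this
  obtain ⟨-, hfix⟩ := hTI M p A A₀ hExc' x hxM hAx
  have hB : cj x A₀ ≤ M := by
    have := cj_mono x (hA₀.trans hAP)
    rw [hxP'] at this
    exact this.trans hP.1
  have hBc : Nat.card (cj x A₀) = p := by rw [card_cj]; exact hA₀c
  obtain ⟨b, hb, hb1⟩ : ∃ b ∈ cj x A₀, b ≠ 1 := by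
    by_contra h
    have h1 : cj x A₀ = ⊥ := by
      rw [eq_bot_iff]; intro y hy
      by_contra hy1
      exact h ⟨y, hy, fun e => hy1 (Subgroup.mem_bot.mpr e)⟩
    rw [h1, Subgroup.card_bot] at hBc
    exact hp.one_lt.ne' hBc.symm
  have hob : orderOf b = p := by
    have h1 : orderOf b ∣ p := by
      have h2 : orderOf (⟨b, hb⟩ : ↥(cj x A₀)) ∣ Nat.card ↥(cj x A₀) := orderOf_dvd_natCard _
      rw [hBc] at h2
      have h3 : orderOf (⟨b, hb⟩ : ↥(cj x A₀)) = orderOf b := by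
        rw [← Subgroup.orderOf_coe]
      rwa [h3] at h2
    rcases (Nat.dvd_prime hp).mp h1 with h | h
    · exact absurd (orderOf_eq_one_iff.mp h) hb1
    · exact h
  have hbz : Subgroup.zpowers b = cj x A₀ := by
    apply Subgroup.eq_of_le_of_card_ge ((Subgroup.zpowers_le).mpr hb)
    rw [hBc, Nat.card_zpowers, hob]
  have hbM : b ∈ M := hB hb
  have hbp : b ^ p = 1 := by rw [← hob]; exact pow_orderOf_eq_one b
  -- the automorphism of `O_σ(M)` induced by `b`
  let φ : MulAut ↥(piCore (sigma M) ↥M) := MulAut.conjNormal (⟨b, hbM⟩ : ↥M)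
  have hφfix : ∀ y : ↥(piCore (sigma M) ↥M), φ y = y → y = 1 := by
    intro y hy
    have h1 : (((φ y : ↥(piCore (sigma M) ↥M)) : ↥M) : G) = ((y : ↥M) : G) := by rw [hy]
    have h2 : (((φ y : ↥(piCore (sigma M) ↥M)) : ↥M) : G) = b * ((y : ↥M) : G) * b⁻¹ := by
      show (((MulAut.conjNormal (⟨b, hbM⟩ : ↥M) y : ↥(piCore (sigma M) ↥M)) : ↥M) : G) = _
      rw [MulAut.conjNormal_apply]
      rfl
    rw [h2] at h1
    set s : G := ((y : ↥M) : G) with hs
    have hcomm : b * s = s * b := by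
      have h3 : b * s * b⁻¹ * b = s * b := by rw [h1]
      rw [← h3]; group
    have hsS : s ∈ sigmaCore M := ⟨(y : ↥M), y.2, rfl⟩
    have hsC : s ∈ Subgroup.centralizer ((cj x A₀ : Subgroup G) : Set G) := by
      rw [← hbz]
      rw [Subgroup.mem_centralizer_iff]
      rintro _ ⟨i, rfl⟩
      simp only
      exact ((Commute.zpow_left (show Commute b s from hcomm) i)).eq
    have hs1 : s ∈ (⊥ : Subgroup G) := by
      rw [← hfix]; exact ⟨hsS, hsC⟩
    have hs1' : s = 1 := Subgroup.mem_bot.mp hs1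
    apply Subtype.ext
    apply Subtype.ext
    exact hs1'
  have hφpow : (⇑φ)^[p] = id := by
    rw [iter_eq_pow]
    have h1 : φ ^ p = 1 := by
      show (MulAut.conjNormal (⟨b, hbM⟩ : ↥M)) ^ p = 1
      rw [← map_pow]
      have h2 : (⟨b, hbM⟩ : ↥M) ^ p = 1 := Subtype.ext (by simpa using hbp)
      rw [h2, map_one]
    rw [h1]
    rfl
  have hnil : Group.IsNilpotent ↥(piCore (sigma M) ↥M) :=
    Cfsg.Agent.S0033.fpf_nilpotent p hp (Nat.card ↥(piCore (sigma M) ↥M))
      ↥(piCore (sigma M) ↥M) rfl φ hφfix hφpow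
  exact Group.nilpotent_of_mulEquiv
    ((piCore (sigma M) ↥M).equivMapOfInjective M.subtype M.subtype_injective)

end Cfsg.Agent.Lib.Helper32.BG11
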