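import Cfsg.Agent.Lib.Helper41.BG11Kit

/-!
# B&G Section 11, piece BG11-T1 (helper32, for helper41): B&G Lemma 11.1 from `PTr`.
-/

set_option autoImplicit false

open Cfsg Cfsg.Agent.Lib.Helper32 Cfsg.Agent.Lib.Helper32.BG10 Cfsg.Agent.Lib.Helper3.BG12
open Cfsg.Agent.Lib.Helper41.BG11

namespace Cfsg.Agent.Lib.Helper32.BG11

universe u

variable {G : Type u} [Group G] [Finite G]

theorem t1 (hG : IsMinSimpleOddOrder G) (hTr : PTr G) : PT1 G := by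
  intro M p A A₀ hExc q hq hqσ g hg Q₁ Q₁' hQ₁ hQ₁' hN₁ hN₂ H hH hAH hH₁ hH₂
  have hcent := hExc.cent_le
  obtain ⟨hM, hp, hpσ, hAM, hmax, hAc, hid, hA₀, hA₀c, hN⟩ := hExc
  have : Fact p.Prime := ⟨hp⟩
  have : Fact q.Prime := ⟨hq⟩
  have hqp : q ≠ p := by
    rintro rfl
    exact hpσ hqσ
  have hQ₁M : Q₁ ∈ sylSet q M := (Cfsg.Agent.Lib.Helper32.BG12.sylSet_sigmaCore_iff hG hM hqσ).mp hQ₁
  have hQ₁'M : Q₁' ∈ sylSet q M :=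
    (Cfsg.Agent.Lib.Helper32.BG12.sylSet_sigmaCore_iff hG hM hqσ).mp hQ₁'
  obtain ⟨hNQ₁, hQ₁T⟩ := sigma_sylSet hqσ hQ₁M
  obtain ⟨hNQ₁', hQ₁'T⟩ := sigma_sylSet hqσ hQ₁'M
  have hgtop : g ∈ Subgroup.normalizer (((⊤ : Subgroup G) : Subgroup G) : Set G) := by
    rw [Subgroup.mem_normalizer_iff]
    intro h
    simp
  have hgQT : cj g Q₁' ∈ sylSet q ⊤ := cj_mem_sylSet hgtop hQ₁'T
  obtain ⟨k, hk, hkQ⟩ := hTr p A hp hmax hAc q hq hqp Q₁ (cj g Q₁') hQ₁T hgQT hN₁ hN₂ H hH hAH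
    hH₁ hH₂
  have hkM : k ∈ M := hcent hk
  have hkQ₁M : cj k Q₁ ∈ sylSet q M := cj_mem_sylSet (Subgroup.le_normalizer hkM) hQ₁M
  obtain ⟨m, hm, hmQ⟩ := sylSet_conj hQ₁'M hkQ₁M
  have h1 : cj (g⁻¹ * m) Q₁' = Q₁' := by
    rw [cj_mul, hmQ, ← hkQ, cj_inv_cj]
  have h2 : g⁻¹ * m ∈ M := hNQ₁' (cj_eq_self_iff.mp h1)
  apply hg
  have h3 : g = m * (g⁻¹ * m)⁻¹ := by group
  rw [h3]
  exact M.mul_mem hm (M.inv_mem h2)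

end Cfsg.Agent.Lib.Helper32.BG11
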