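import Cfsg.Agent.Lib.Helper41.BG11Kit
import Cfsg.Agent.Lib.Helper32.BG12KITA

/-!
# B&G Section 11, piece BG11-TI (helper32, for helper41): B&G Lemma 11.2 from `PT1`.
-/

set_option autoImplicit false

open Cfsg Cfsg.Agent.Lib.Helper32 Cfsg.Agent.Lib.Helper32.BG10 Cfsg.Agent.Lib.Helper3.BG12
open Cfsg.Agent.Lib.Helper41.BG11

namespace Cfsg.Agent.Lib.Helper32.BG11

universe u

variable {G : Type u} [Group G] [Finite G]

omit [Finite G] in
private theorem sigmaCore_le' (M : Subgroup G) : sigmaCore M ≤ M := by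
  rintro x ⟨y, -, rfl⟩; exact y.2

omit [Finite G] in
private theorem sigmaCore_normalizer' (M : Subgroup G) :
    M ≤ Subgroup.normalizer ((sigmaCore M : Subgroup G) : Set G) := by
  intro m hm
  rw [Subgroup.mem_normalizer_iff]
  intro x
  have hn : (piCore (sigma M) ↥M).Normal := inferInstance
  constructor
  · rintro ⟨y, hy, rfl⟩
    refine ⟨(⟨m, hm⟩ : ↥M) * y * (⟨m, hm⟩ : ↥M)⁻¹, hn.conj_mem y hy _, ?_⟩
    simp
  · rintro ⟨y, hy, hyx⟩
    have hxM : x ∈ M := by
      have h1 : m * x * m⁻¹ ∈ M := by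
        have : (M.subtype y) = m * x * m⁻¹ := hyx
        rw [← this]; exact y.2
      have h2 : x = m⁻¹ * (m * x * m⁻¹) * m := by group
      rw [h2]
      exact M.mul_mem (M.mul_mem (M.inv_mem hm) h1) hm
    refine ⟨⟨x, hxM⟩, ?_, rfl⟩
    have h3 : (⟨x, hxM⟩ : ↥M) = (⟨m, hm⟩ : ↥M)⁻¹ * y * ((⟨m, hm⟩ : ↥M)⁻¹)⁻¹ := by
      apply Subtype.ext
      have : (M.subtype y) = m * x * m⁻¹ := hyx
      have h4 : (y : G) = m * x * m⁻¹ := this
      simp only [Subgroup.coe_mul, Subgroup.coe_inv, inv_inv, h4]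
      group
    rw [h3]
    exact hn.conj_mem y hy _

theorem ti (hG : IsMinSimpleOddOrder G) (hT1 : PT1 G) : PTI G := by
  intro M p A A₀ hExc g hg hAg
  have hExc' := hExc
  obtain ⟨hM, hp, hpσ, hAM, hmax, hAc, hid, hA₀, hA₀c, hN⟩ := hExc
  have : Fact p.Prime := ⟨hp⟩
  have hSM : sigmaCore M ≤ M := sigmaCore_le' M
  have hMS := sigmaCore_normalizer' M
  have hAp : IsPGroup p A := IsPGroup.of_card hAc
  have hAsol : Group.IsSolvable A := by
    have : IsMulCommutative A := hmax.1.1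
    have hc : ∀ a b : A, a * b = b * a := fun a b => this.is_comm.comm a b
    exact Group.isSolvable_of_comm hc
  -- coprimality of `p` with `|M_σ|`
  have hcopS : (Nat.card A).Coprime (Nat.card (sigmaCore M)) := by
    rw [hAc]
    apply Nat.Coprime.pow_left
    rw [Nat.Prime.coprime_iff_not_dvd hp]
    intro h
    exact hpσ (Cfsg.Agent.Lib.Helper32.BG12.mem_sigma_of_dvd_sigmaCore hp h)
  have hfirst : sigmaCore M ⊓ cj g M = ⊥ := by
    by_contra hD
    set D : Subgroup G := sigmaCore M ⊓ cj g M with hDdef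
    -- `A` normalizes `D`
    have hAgM : A ≤ Subgroup.normalizer ((cj g M : Subgroup G) : Set G) :=
      hAg.trans Subgroup.le_normalizer
    have hAD : A ≤ Subgroup.normalizer (D : Set G) := by
      intro a ha
      have h1 := (hMS (hAM ha))
      have h2 := hAgM ha
      rw [Subgroup.mem_normalizer_iff] at h1 h2 ⊢
      intro x
      rw [hDdef, Subgroup.mem_inf, Subgroup.mem_inf, h1 x, h2 x]
    have hDS : D ≤ sigmaCore M := inf_le_left
    have hcopD : (Nat.card A).Coprime (Nat.card D) :=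
      Nat.Coprime.coprime_dvd_right (Subgroup.card_dvd_of_le hDS) hcopS
    -- a prime `q` dividing `|D|`
    have hDcard : Nat.card D ≠ 1 := by
      intro h
      exact hD (Subgroup.card_eq_one.mp h)
    obtain ⟨q, hq, hqD⟩ := Nat.exists_prime_and_dvd hDcard
    have : Fact q.Prime := ⟨hq⟩
    have hqσ : q ∈ sigma M :=
      Cfsg.Agent.Lib.Helper32.BG12.mem_sigma_of_dvd_sigmaCore hq
        (dvd_trans hqD (Subgroup.card_dvd_of_le hDS))
    obtain ⟨X, hX, hAX⟩ := exists_invariant_sylow (q := q) A D hAD hcopD hAsol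
    have hXq : IsPGroup q X := isPGroup_of_mem_sylSet hX
    have hX1 : X ≠ ⊥ := by
      intro h
      have h1 : Nat.card X = 1 := by rw [h]; exact Subgroup.card_bot
      rw [hX.2] at h1
      have h2 : 0 < (Nat.card D).factorization q :=
        hq.factorization_pos_of_dvd Nat.card_pos.ne' hqD
      have h3 : 1 < q ^ (Nat.card D).factorization q :=
        Nat.one_lt_pow h2.ne' hq.one_lt
      omega
    have hXD : X ≤ D := hX.1
    have hXS : X ≤ sigmaCore M := hXD.trans hDS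
    have hXgM : X ≤ cj g M := hXD.trans inf_le_right
    obtain ⟨Q₁, hQ₁, hAQ₁, hXQ₁⟩ := exists_invariant_sylow_ge (q := q) A (sigmaCore M)
      ((hAM.trans hMS)) hcopS hAsol hXq hXS hAX
    -- `X ≤ Y := cj g M_σ`
    have hXY : X ≤ cj g (sigmaCore M) := by
      have h1 : cj g⁻¹ X ≤ M := by
        have := cj_mono g⁻¹ hXgM
        rwa [cj_inv_cj] at this
      have h2 : cj g⁻¹ X ≤ sigmaCore M :=
        Cfsg.Agent.Lib.Helper32.BG12.pgroup_le_sigmaCore hG hM hqσ (isPGroup_cj hXq) h1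
      have := cj_mono g h2
      rwa [cj_cj_inv] at this
    have hAY : A ≤ Subgroup.normalizer ((cj g (sigmaCore M) : Subgroup G) : Set G) := by
      intro a ha
      rw [mem_normalizer_cj]
      have h1 : g⁻¹ * a * g ∈ M := mem_cj.mp (hAg ha)
      exact hMS h1
    have hcopY : (Nat.card A).Coprime (Nat.card (cj g (sigmaCore M))) := by
      rw [card_cj]; exact hcopS
    obtain ⟨Q₂, hQ₂, hAQ₂, hXQ₂⟩ := exists_invariant_sylow_ge (q := q) A (cj g (sigmaCore M))
      hAY hcopY hAsol hXq hXY hAX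
    have hQ₁' : cj g⁻¹ Q₂ ∈ sylSet q (sigmaCore M) := by
      refine ⟨?_, ?_⟩
      · have := cj_mono g⁻¹ hQ₂.1
        rwa [cj_inv_cj] at this
      · rw [card_cj, hQ₂.2, card_cj]
    have hQ₂eq : cj g (cj g⁻¹ Q₂) = Q₂ := cj_cj_inv g Q₂
    have hXne : ∀ K : Subgroup G, X ≤ K → M ⊓ K ≠ ⊥ := by
      intro K hXK h
      apply hX1
      have : X ≤ M ⊓ K := le_inf (hXS.trans hSM) hXK
      rw [h] at this
      exact le_bot_iff.mp this
    exact hT1 M p A A₀ hExc' q hq hqσ g hg Q₁ (cj g⁻¹ Q₂) hQ₁ hQ₁' hAQ₁ (by rw [hQ₂eq]; exact hAQ₂)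
      M hM.1 hAM (hXne Q₁ hXQ₁) (by rw [hQ₂eq]; exact hXne Q₂ hXQ₂)
  refine ⟨hfirst, ?_⟩
  rw [eq_bot_iff, ← hfirst]
  refine le_inf inf_le_left ?_
  intro x hx
  have hx2 : x ∈ Subgroup.centralizer ((cj g A₀ : Subgroup G) : Set G) := hx.2
  have hx3 : x ∈ Subgroup.normalizer ((cj g A₀ : Subgroup G) : Set G) :=
    Subgroup.centralizer_le_normalizer _ hx2
  rw [mem_normalizer_cj] at hx3
  exact mem_cj.mpr (hN hx3)

end Cfsg.Agent.Lib.Helper32.BG11
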