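import Cfsg.Agent.Lib.Helper41.BG11Kit
import Cfsg.Agent.Lib.Helper31.PGrp
import Cfsg.Agent.S1392
import Cfsg.Agent.S1396

/-!
# B&G Section 11, piece BG11-TR (helper32, for helper41): transitivity for `A`-invariant Sylow
`q`-subgroups, from S1392 + S1396 + S1410.
-/

set_option autoImplicit false

open Cfsg Cfsg.Agent.Lib.Helper32 Cfsg.Agent.Lib.Helper32.BG10 Cfsg.Agent.Lib.Helper3.BG12
open Cfsg.Agent.Lib.Helper41.BG11

namespace Cfsg.Agent.Lib.Helper32.BG11

universe u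

variable {G : Type u} [Group G] [Finite G]

theorem tr (hG : IsMinSimpleOddOrder G) : PTr G := by
  intro p A hp hmax hAc q hq hqp Q₁ Q₂ hQ₁ hQ₂ hN₁ hN₂ H hH hAH hH₁ hH₂
  have : Fact p.Prime := ⟨hp⟩
  have : Fact q.Prime := ⟨hq⟩
  obtain ⟨hAe, hAmax⟩ := hmax
  have hpG : p ∣ Nat.card G := by
    have h1 : Nat.card A ∣ Nat.card G := Subgroup.card_subgroup_dvd_card A
    rw [hAc] at h1
    exact dvd_trans (dvd_pow_self p two_ne_zero) h1
  have hAp : IsPGroup p A := IsPGroup.of_card hAc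
  have hΩ : ∀ x ∈ Subgroup.centralizer (A : Set G), x ^ p = 1 ↔ x ∈ A := by
    intro x hx
    constructor
    · intro hxp
      have hB : IsElementaryAbelian p (A ⊔ Subgroup.zpowers x) := by
        refine Cfsg.Agent.Lib.Helper31.elemAb_sup hAe
          (Cfsg.Agent.Lib.Helper31.elemAb_zpowers hxp) ?_
        intro a ha b hb
        obtain ⟨i, rfl⟩ := hb
        have h1 : a * x = x * a := (Subgroup.mem_centralizer_iff.mp hx) a ha
        exact (Commute.zpow_right (show Commute a x from h1) i).eq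
      have h2 := hAmax _ hB le_sup_left
      rw [← h2]
      exact Subgroup.mem_sup_right (Subgroup.mem_zpowers x)
    · intro hxA
      exact hAe.2 x hxA
  have hTH : TransitivityHypothesis A :=
    Cfsg.Agent.S1396.result hG p hpG A hAp hAe.1
      (Or.inl ⟨hΩ, fun H hH => h7_of hG p H hH⟩)
  have hqA : ¬ q ∣ Nat.card A := by
    rw [hAc]
    intro h
    exact hqp ((Nat.prime_dvd_prime_iff_eq hq hp).mp (hq.dvd_of_dvd_pow h))
  have hmaxInv : ∀ Q : Subgroup G, Q ∈ sylSet q ⊤ → A ≤ Subgroup.normalizer (Q : Set G) →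
      Q ∈ maxInvSubgroups ⊤ A {q} := by
    intro Q hQ hN
    have hQp : IsPGroup q Q := isPGroup_of_mem_sylSet hQ
    refine ⟨⟨le_top, ?_, hN⟩, ?_⟩
    · intro r hr hrQ
      obtain ⟨k, hk⟩ := IsPGroup.iff_card.mp hQp
      rw [hk] at hrQ
      exact (Nat.prime_dvd_prime_iff_eq hr hq).mp (hr.dvd_of_dvd_pow hrQ)
    · intro R hR hQR
      obtain ⟨-, hRπ, -⟩ := hR
      have hRp : IsPGroup q R := by
        have h1 : Nat.card R = q ^ (Nat.card R).primeFactorsList.length :=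
          Nat.eq_prime_pow_of_unique_prime_dvd Nat.card_pos.ne'
            (fun {d} hd hdR => hRπ d hd hdR)
        exact IsPGroup.of_card h1
      exact sylSet_eq_of_le hQ hRp le_top hQR
  obtain ⟨k, hk, hkQ⟩ := Cfsg.Agent.S1392.result hG A hTH q hq hqA Q₁ Q₂
    (hmaxInv Q₁ hQ₁ hN₁) (hmaxInv Q₂ hQ₂ hN₂) H hH hAH hH₁ hH₂
  refine ⟨k, ?_, hkQ⟩
  have h3 : piCoreOf (primesNotDvd (Nat.card A)) (Subgroup.centralizer (A : Set G)) ≤
      Subgroup.centralizer (A : Set G) := by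
    unfold piCoreOf
    exact Subgroup.map_subtype_le _
  exact h3 hk

end Cfsg.Agent.Lib.Helper32.BG11
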