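import Cfsg.Agent.Lib.Helper32.Wielandt2
import Cfsg.Agent.Lib.Helper30.Basic
import Cfsg.Agent.Lib.Helper66.Cores

set_option autoImplicit false
open scoped Pointwise
open scoped commutatorElement

namespace Cfsg.Agent.Lib.Helper32

/-- The iterated commutator `[x, g, g, …, g]` with `n` entries `g`. -/
def eng {G : Type*} [Group G] (g : G) (n : ℕ) (x : G) : G :=
  (List.replicate n g).foldl (fun a b => a * b * a⁻¹ * b⁻¹) x

theorem eng_zero {G : Type*} [Group G] (g x : G) : eng g 0 x = x := rfl

theorem eng_succ {G : Type*} [Group G] (g : G) (n : ℕ) (x : G) :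
    eng g (n + 1) x = eng g n (x * g * x⁻¹ * g⁻¹) := by
  unfold eng
  rw [List.replicate_succ, List.foldl_cons]

theorem eng_succ' {G : Type*} [Group G] (g : G) (n : ℕ) (x : G) :
    eng g (n + 1) x = eng g n x * g * (eng g n x)⁻¹ * g⁻¹ := by
  unfold eng
  rw [List.replicate_succ', List.foldl_append]
  rfl

theorem eng_mem {G : Type*} [Group G] {K : Subgroup G} {g : G} (hg : g ∈ K) (n : ℕ) :
    ∀ x ∈ K, eng g n x ∈ K := by
  induction n with
  | zero => intro x hx; exact hx
  | succ n ih =>
    intro x hx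
    rw [eng_succ]
    exact ih _ (K.mul_mem (K.mul_mem (K.mul_mem hx hg) (K.inv_mem hx)) (K.inv_mem hg))

/-- Baer: a left Engel element generates a subnormal subgroup (relative version). -/
theorem engel_rsn {G : Type*} [Group G] [Finite G] (g : G) :
    ∀ (n : ℕ) (K : Subgroup G), Nat.card K ≤ n → g ∈ K →
      (∀ x ∈ K, ∃ m : ℕ, eng g m x = 1) → RSN (Subgroup.zpowers g) K := by
  intro n
  induction n with
  | zero =>
    intro K hK
    have := Nat.card_pos (α := K)
    omega
  | succ n ih =>
    intro K hK hgK hyp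
    have hAK : Subgroup.zpowers g ≤ K := by rw [Subgroup.zpowers_le]; exact hgK
    by_contra hnsn
    have hall : ∀ H : Subgroup G, Subgroup.zpowers g ≤ H → H ≤ K → H ≠ K →
        RSN (Subgroup.zpowers g) H := by
      intro H hAH hHK hHne
      have hc : Nat.card H ≤ n := by
        have := card_lt_of_le_of_ne' hHK hHne
        omega
      exact ih H hc (hAH (Subgroup.mem_zpowers g)) (fun x hx => hyp x (hHK hx))
    have hAne : Subgroup.zpowers g ≠ K := fun h => hnsn (h ▸ RSN.refl _)
    obtain ⟨M, hAM, hM⟩ := exists_isMaxIn hAK hAne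
    have hgM : g ∈ M := hAM (Subgroup.mem_zpowers g)
    rcases isMaxIn_normalizer hM with hNM | hNM
    · -- every element of `K` lies in `M`
      have key : ∀ (m : ℕ), ∀ y ∈ K, eng g m y ∈ M → y ∈ M := by
        intro m
        induction m with
        | zero => intro y _ h; exact h
        | succ m ihm =>
          intro y hyK h
          rw [eng_succ] at h
          have hy'K : y * g * y⁻¹ * g⁻¹ ∈ K :=
            K.mul_mem (K.mul_mem (K.mul_mem hyK hgK) (K.inv_mem hyK)) (K.inv_mem hgK)
          have h1 : y * g * y⁻¹ * g⁻¹ ∈ M := ihm _ hy'K h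
          have h2 : y * g * y⁻¹ ∈ M := by
            have := M.mul_mem h1 hgM
            have h3 : y * g * y⁻¹ * g⁻¹ * g = y * g * y⁻¹ := by group
            rwa [h3] at this
          have h4 : Subgroup.zpowers g ≤ cj y⁻¹ M := by
            rw [Subgroup.zpowers_le, mem_cj, inv_inv]
            exact h2
          have h5 := zipper K _ _ le_rfl hAK hall hnsn _ M (isMaxIn_cj hM (K.inv_mem hyK)) hM
            h4 hAM
          have h6 := Subgroup.inv_mem _ (cj_eq_self_iff.mp h5)
          rw [inv_inv] at h6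
          have h7 : y ∈ Subgroup.normalizer (M : Set G) ⊓ K := ⟨h6, hyK⟩
          rwa [hNM] at h7
      apply hM.2.1
      apply le_antisymm hM.1
      intro x hx
      obtain ⟨m, hm⟩ := hyp x hx
      exact key m x hx (hm ▸ M.one_mem)
    · exact hnsn ((hall M hAM hM.1 hM.2.1).trans (RSN.step M K K hM.1 hNM (RSN.refl K)))

theorem engel_mem_fitting {G : Type*} [Group G] [Finite G] (g : G)
    (h : ∀ x : G, ∃ n : ℕ, eng g n x = 1) : g ∈ Cfsg.fittingSubgroup G := by
  have h1 : RSN (Subgroup.zpowers g) ⊤ :=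
    engel_rsn g _ ⊤ le_rfl (Subgroup.mem_top g) (fun x _ => h x)
  have h2 : (Subgroup.zpowers g).IsSubnormal := h1.isSubnormal rfl
  have h3 : Group.IsNilpotent (Subgroup.zpowers g) := by
    have : IsCyclic (Subgroup.zpowers g) := inferInstance
    let _ : CommGroup (Subgroup.zpowers g) := IsCyclic.commGroup
    infer_instance
  exact Cfsg.Agent.Lib.Helper66.subnormal_nilpotent_le_fitting h2 h3 (Subgroup.mem_zpowers g)

theorem fitting_mem_engel {G : Type*} [Group G] [Finite G] (g : G)
    (hg : g ∈ Cfsg.fittingSubgroup G) (x : G) : ∃ n : ℕ, eng g n x = 1 := by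
  have hn : (Cfsg.fittingSubgroup G).Normal := Cfsg.Agent.Lib.Helper30.fitting_normal
  have hnil : Group.IsNilpotent (Cfsg.fittingSubgroup G) := Cfsg.Agent.Lib.Helper30.fitting_nilpotent
  obtain ⟨n, hn'⟩ := (Subgroup.isNilpotent_iff_lowerCentralSeries _).mp hnil
  have hx1 : x * g * x⁻¹ * g⁻¹ ∈ Cfsg.fittingSubgroup G :=
    Subgroup.mul_mem _ (hn.conj_mem g hg x) (Subgroup.inv_mem _ hg)
  have key : ∀ k : ℕ, eng g k (x * g * x⁻¹ * g⁻¹) ∈
      (Cfsg.fittingSubgroup G).lowerCentralSeries k := by
    intro k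
    induction k with
    | zero => exact hx1
    | succ k ih =>
      rw [eng_succ', Subgroup.lowerCentralSeries_succ]
      exact Subgroup.commutator_mem_commutator ih hg
  refine ⟨n + 1, ?_⟩
  rw [eng_succ]
  have := key n
  rwa [hn', Subgroup.mem_bot] at this

end Cfsg.Agent.Lib.Helper32
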