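import Mathlib

/-!
# Involutions of `Perm (Fin n)`, `n ≥ 5`, have a commuting conjugate different from themselves
-/

set_option autoImplicit false

namespace Cfsg.Agent.Lib.Helper32.OGLow

open Equiv

theorem swap_swap_facts {α : Type*} [DecidableEq α] {p q r s : α} (hpq : p ≠ q) (hpr : p ≠ r)
    (hps : p ≠ s) (hqr : q ≠ r) (hqs : q ≠ s) (hrs : r ≠ s) :
    swap r s * swap p q = swap p q * swap r s ∧ orderOf (swap p q * swap r s) = 2 := by
  have hd : Perm.Disjoint (swap p q) (swap r s) := by
    intro c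
    by_cases h1 : c = p
    · right; rw [h1]; exact swap_apply_of_ne_of_ne hpr hps
    · by_cases h2 : c = q
      · right; rw [h2]; exact swap_apply_of_ne_of_ne hqr hqs
      · left; exact swap_apply_of_ne_of_ne h1 h2
  have hc : swap r s * swap p q = swap p q * swap r s := hd.commute.eq.symm
  refine ⟨hc, ?_⟩
  apply orderOf_eq_prime
  · rw [sq, mul_assoc, ← mul_assoc (swap r s), hc, mul_assoc, swap_mul_self, mul_one,
      swap_mul_self]
  · intro h
    have h1 := congrArg (fun f : Perm α => f p) h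
    simp only [Perm.mul_apply, Perm.one_apply] at h1
    rw [swap_apply_of_ne_of_ne hpr hps, swap_apply_left] at h1
    exact hpq h1.symm

theorem exists_conj_not_odd {n : ℕ} (hn : 5 ≤ n) (x : Perm (Fin n)) (hx : orderOf x = 2) :
    ∃ y : Perm (Fin n), IsConj x y ∧ y ≠ x ∧ ¬ Odd (orderOf (x * y)) ∧
      ¬ Odd (orderOf (y * x)) := by
  have hx2 : x * x = 1 := by rw [← sq, ← hx, pow_orderOf_eq_one]
  have hxx : ∀ c, x (x c) = c := fun c => by
    have := congrArg (fun f : Perm (Fin n) => f c) hx2
    simpa using this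
  have hxinv : x⁻¹ = x := inv_eq_of_mul_eq_one_left hx2
  have hx1 : x ≠ 1 := by
    rintro rfl
    rw [orderOf_one] at hx; omega
  obtain ⟨a, ha⟩ : ∃ a, x a ≠ a := by
    by_contra h
    push_neg at h
    exact hx1 (Equiv.ext h)
  have core : ∀ (y : Perm (Fin n)) (p q r s : Fin n), p ≠ q → p ≠ r → p ≠ s → q ≠ r →
      q ≠ s → r ≠ s → IsConj x y → x * y = swap p q * swap r s →
      y * x = swap r s * swap p q →
      ∃ y : Perm (Fin n), IsConj x y ∧ y ≠ x ∧ ¬ Odd (orderOf (x * y)) ∧
        ¬ Odd (orderOf (y * x)) := by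
    intro y p q r s hpq hpr hps hqr hqs hrs hconj h1 h2
    obtain ⟨hc, ho⟩ := swap_swap_facts hpq hpr hps hqr hqs hrs
    refine ⟨y, hconj, ?_, ?_, ?_⟩
    · rintro rfl
      rw [hx2] at h1
      rw [← h1, orderOf_one] at ho; omega
    · rw [h1, ho]; decide
    · rw [h2, hc, ho]; decide
  by_cases hcase : ∃ b, b ≠ a ∧ b ≠ x a ∧ x b ≠ b
  · obtain ⟨b, hba, hba', hb⟩ := hcase
    have h1 : x b ≠ a := fun h => hba' (by rw [← h, hxx])
    have h2 : x b ≠ x a := fun h => hba (x.injective h)
    have e : swap a b = x * swap (x a) (x b) * x⁻¹ := by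
      rw [← swap_apply_apply, hxx, hxx]
    refine core (swap (x a) (x b) * x * (swap (x a) (x b))⁻¹) a b (x a) (x b) (Ne.symm hba)
      (Ne.symm ha) (Ne.symm h1) hba' (Ne.symm hb) (Ne.symm h2) (isConj_iff.mpr ⟨_, rfl⟩) ?_ ?_
    · rw [e, hxinv, swap_inv]
      simp only [mul_assoc]
    · rw [e, hxinv, swap_inv]
      simp only [mul_assoc]
  · push_neg at hcase
    have hxs : x = swap a (x a) := by
      refine Equiv.ext fun c => ?_
      by_cases hca : c = a
      · rw [hca, swap_apply_left]
      · by_cases hca' : c = x a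
        · rw [hca', swap_apply_right, hxx]
        · rw [swap_apply_of_ne_of_ne hca hca']
          exact hcase c hca hca'
    have hcard : 1 < (Finset.univ \ {a, x a} : Finset (Fin n)).card := by
      have h1 := Finset.card_sdiff_add_card_inter (Finset.univ : Finset (Fin n)) {a, x a}
      have h2 : ((Finset.univ : Finset (Fin n)) ∩ {a, x a}).card ≤ 2 := by
        rw [Finset.univ_inter]; exact Finset.card_le_two
      rw [Finset.card_univ, Fintype.card_fin] at h1
      omega
    obtain ⟨b, hb, b', hb', hbb'⟩ := Finset.one_lt_card.mp hcard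
    simp only [Finset.mem_sdiff, Finset.mem_univ, Finset.mem_insert, Finset.mem_singleton,
      true_and, not_or] at hb hb'
    refine core (swap b b') a (x a) b b' (Ne.symm ha) (Ne.symm hb.1) (Ne.symm hb'.1)
      (Ne.symm hb.2) (Ne.symm hb'.2) hbb' ?_ ?_ ?_
    · rw [hxs]
      exact Equiv.Perm.isConj_swap (Ne.symm ha) hbb'
    · conv_lhs => rw [hxs]
    · conv_lhs => rw [hxs]

end Cfsg.Agent.Lib.Helper32.OGLow
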