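import Mathlib
import Cfsg.Prelude.Def_LocalStructure
import Cfsg.Agent.S0999

/-!
# S3875, piece PC-SIMPLE (helper32 for helper10)
-/

set_option autoImplicit false

namespace Cfsg.Agent.Lib.Helper10.PC

open Cfsg

/-- PC-SIMPLE -/
theorem simple_bound_of (p : ℕ) [Fact p.Prime] (hp : p ≠ 2) (H : Type) [Group H] [Finite H]
    [IsSimpleGroup H] (hH : ¬ IsPClosed p H)
    (hcard : ∀ (F : Type) [Field F] [Fintype F], 5 ≤ p →
      (Fintype.card F = p ∨ ∃ m : ℕ, Fintype.card F = 2 ^ m ∧ p = 2 ^ m + 1) →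
      p * (p ^ 2 - 1) / 2 ≤ Nat.card (Matrix.ProjectiveSpecialLinearGroup (Fin 2) F)) :
    p * (p ^ 2 - 1) / 2 ≤ Nat.card H := by
  have hpp : p.Prime := Fact.out
  have hnc : ¬ IsCyclic H := by
    intro hc
    apply hH
    intro P
    have hcomm : ∀ a b : H, a * b = b * a := by
      intro a b
      obtain ⟨g, hg⟩ := hc.exists_generator
      obtain ⟨m, rfl⟩ := Subgroup.mem_zpowers_iff.mp (hg a)
      obtain ⟨n, rfl⟩ := Subgroup.mem_zpowers_iff.mp (hg b)
      rw [← zpow_add, ← zpow_add, add_comm]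
    exact ⟨fun n hn g => by
      have : g * n * g⁻¹ = n := by
        rw [hcomm g n, mul_inv_cancel_right]
      rw [this]; exact hn⟩
  have hdvd : p ∣ Nat.card H := by
    by_contra hnd
    apply hH
    intro P
    have h1 : Nat.card (P : Subgroup H) = 1 := by
      rw [P.card_eq_multiplicity, Nat.factorization_eq_zero_of_not_dvd hnd, pow_zero]
    rw [Subgroup.card_eq_one.mp h1]
    infer_instance
  by_cases hbig : p ^ 3 ≤ Nat.card H
  · refine le_trans ?_ hbig
    apply Nat.div_le_of_le_mul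
    have h1 : p ^ 2 - 1 ≤ p ^ 2 := Nat.sub_le _ _
    calc p * (p ^ 2 - 1) ≤ p * p ^ 2 := Nat.mul_le_mul_left p h1
      _ = p ^ 3 := by ring
      _ ≤ 2 * p ^ 3 := by omega
  · push Not at hbig
    rcases Cfsg.Agent.S0999.result hnc p hpp hdvd hbig with
      ⟨F, hFf, hFt, hF, h3, ⟨e⟩⟩ | ⟨m, F, hFf, hFt, hF, hpm, h3, ⟨e⟩⟩
    · rw [Nat.card_congr e.toEquiv]
      have h5 : 5 ≤ p := by
        by_contra h
        have : p = 4 := by omega
        rw [this] at hpp
        exact absurd hpp (by decide)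
      exact hcard F h5 (Or.inl hF)
    · rw [Nat.card_congr e.toEquiv]
      have h5 : 5 ≤ p := by
        by_contra h
        have : p = 4 := by omega
        rw [this] at hpp
        exact absurd hpp (by decide)
      exact hcard F h5 (Or.inr ⟨m, hF, hpm⟩)

end Cfsg.Agent.Lib.Helper10.PC
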