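import Cfsg.Agent.Lib.Helper32.ThTrans2
import Cfsg.Agent.Lib.Helper34.PLen2

set_option autoImplicit false
open Cfsg
open scoped commutatorElement

namespace Cfsg.Agent.Lib.Helper32

section LemmaX2

variable {H : Type*} [Group H] [Finite H] {p : ℕ} [Fact p.Prime]

/-- For a normal `p'`-subgroup `N` and a `p`-subgroup `A` containing every element of order
dividing `p` of its centralizer, the image of `A` in `H ⧸ N` contains every element of order
dividing `p` of its centralizer. -/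
theorem mem_map_of_mem_centralizer_map_exp {A : Subgroup H} (hA : IsPGroup p A) (N : Subgroup H)
    [hn : N.Normal] (hN : (Nat.card N).Coprime p)
    (hfull : ∀ x ∈ Subgroup.centralizer (A : Set H), x ^ p = 1 → x ∈ A)
    {y : H ⧸ N}
    (hy : y ∈ Subgroup.centralizer ((A.map (QuotientGroup.mk' N) : Subgroup (H ⧸ N)) : Set (H ⧸ N)))
    (hyp : y ^ p = 1) : y ∈ A.map (QuotientGroup.mk' N) := by
  have hp := (Fact.out : p.Prime)
  obtain ⟨x, rfl⟩ := QuotientGroup.mk'_surjective N y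
  have hmk1 : ∀ g : H, QuotientGroup.mk' N g = 1 ↔ g ∈ N := fun g => QuotientGroup.eq_one_iff g
  have hx : ∀ a ∈ A, x⁻¹ * (a * x * a⁻¹) ∈ N := by
    intro a ha
    rw [← hmk1]
    have h1 := Subgroup.mem_centralizer_iff.mp hy _ (Subgroup.mem_map_of_mem (QuotientGroup.mk' N) ha)
    simp only [map_mul, map_inv]
    rw [h1]
    group
  obtain ⟨n, hn', hxn⟩ := exists_lift_centralizing hA N hN hx
  have hmk : QuotientGroup.mk' N (x * n) = QuotientGroup.mk' N x := by
    rw [map_mul, (hmk1 n).mpr hn', mul_one]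
  have hpowN : (x * n) ^ p ∈ N := by
    rw [← hmk1, map_pow, hmk]
    exact hyp
  obtain ⟨v, -, hv⟩ := Nat.exists_mul_mod_eq_one_of_coprime hN hp.one_lt
  have hmem : (x * n) ^ (Nat.card N * v) ∈ A := by
    apply hfull
    · exact Subgroup.pow_mem _ hxn _
    · rw [← pow_mul, mul_comm, pow_mul, pow_mul, pow_card_eq_one_of_mem'' N hpowN, one_pow]
  have himg : QuotientGroup.mk' N ((x * n) ^ (Nat.card N * v)) = QuotientGroup.mk' N x := by
    rw [map_pow, hmk, ← Nat.div_add_mod (Nat.card N * v) p, hv, pow_add, pow_mul, hyp, one_pow,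
      one_mul, pow_one]
  rw [← himg]
  exact Subgroup.mem_map_of_mem _ hmem

/-- Abstract form (`p` odd): `N` a normal `p'`-subgroup of `H`, `Rb` a normal `p`-subgroup of
`H ⧸ N` that contains its centralizer and the image of the `p`-subgroup `A`; `A` contains every
element of order dividing `p` of its centralizer. Then every `A`-invariant `p'`-subgroup of `H`
lies in `N`. -/
theorem inv_le_of_quot_exp (hp2 : p ≠ 2) (N : Subgroup H) [hn : N.Normal]
    (hN : (Nat.card N).Coprime p)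
    (Rb : Subgroup (H ⧸ N)) [hRn : Rb.Normal] (hRb : IsPGroup p Rb)
    (hcon : Subgroup.centralizer (Rb : Set (H ⧸ N)) ≤ Rb)
    {A K : Subgroup H} (hA : IsPGroup p A)
    (hARb : A.map (QuotientGroup.mk' N) ≤ Rb)
    (hfull : ∀ x ∈ Subgroup.centralizer (A : Set H), x ^ p = 1 → x ∈ A)
    (hK : (Nat.card K).Coprime p) (hAK : A ≤ Subgroup.normalizer (K : Set H)) :
    K ≤ N := by
  have hAb : IsPGroup p (A.map (QuotientGroup.mk' N)) := hA.map _
  have hKb : (Nat.card (K.map (QuotientGroup.mk' N))).Coprime p :=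
    Nat.Coprime.coprime_dvd_left (Subgroup.card_map_dvd K _) hK
  have hAKb : A.map (QuotientGroup.mk' N) ≤
      Subgroup.normalizer ((K.map (QuotientGroup.mk' N) : Subgroup (H ⧸ N)) : Set (H ⧸ N)) :=
    (Subgroup.map_mono hAK).trans (Subgroup.le_normalizer_map _)
  have hnormR : ∀ X : Subgroup (H ⧸ N), X ≤ Subgroup.normalizer (Rb : Set (H ⧸ N)) := by
    intro X
    rw [Subgroup.normalizer_eq_top_iff.mpr hRn]
    exact le_top
  -- the image of `K` centralizes the image of `A`
  have hKA : ∀ k ∈ K.map (QuotientGroup.mk' N), ∀ a ∈ A.map (QuotientGroup.mk' N),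
      k * a = a * k := by
    intro k hk a ha
    have h1 : ⁅k, a⁆ ∈ K.map (QuotientGroup.mk' N) := by
      have : ⁅k, a⁆ = k * (a * k⁻¹ * a⁻¹) := by rw [commutatorElement_def]; group
      rw [this]
      exact Subgroup.mul_mem _ hk
        ((Subgroup.le_normalizer_iff.mp hAKb) a ha _ (Subgroup.inv_mem _ hk))
    have h2 : ⁅k, a⁆ ∈ Rb := by
      have : ⁅k, a⁆ = (k * a * k⁻¹) * a⁻¹ := by rw [commutatorElement_def]
      rw [this]
      exact Rb.mul_mem (hRn.conj_mem a (hARb ha) k) (Rb.inv_mem (hARb ha))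
    exact (commutatorElement_eq_one_iff_commute.mp (eq_one_of_mem_of_mem hRb hKb h2 h1)).eq
  have hCp : IsPGroup p (Rb ⊓ Subgroup.centralizer
      ((A.map (QuotientGroup.mk' N) : Subgroup (H ⧸ N)) : Set (H ⧸ N)) : Subgroup (H ⧸ N)) :=
    hRb.to_le inf_le_left
  have hKC : K.map (QuotientGroup.mk' N) ≤ Subgroup.normalizer ((Rb ⊓ Subgroup.centralizer
      ((A.map (QuotientGroup.mk' N) : Subgroup (H ⧸ N)) : Set (H ⧸ N)) : Subgroup (H ⧸ N)) :
        Set (H ⧸ N)) := by
    rw [Subgroup.le_normalizer_iff]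
    intro k hk c hc
    rw [Subgroup.mem_inf] at hc
    refine Subgroup.mem_inf.mpr ⟨hRn.conj_mem c hc.1 k, ?_⟩
    rw [Subgroup.mem_centralizer_iff]
    intro a ha
    have h1 := hKA k hk a ha
    have h2 := Subgroup.mem_centralizer_iff.mp hc.2 a ha
    have h3 : a * k⁻¹ = k⁻¹ * a := by
      calc a * k⁻¹ = k⁻¹ * (k * a) * k⁻¹ := by group
        _ = k⁻¹ * (a * k) * k⁻¹ := by rw [h1]
        _ = k⁻¹ * a := by group
    calc a * (k * c * k⁻¹) = (a * k) * c * k⁻¹ := by group
      _ = k * (a * c) * k⁻¹ := by rw [← h1]; group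
      _ = k * (c * a) * k⁻¹ := by rw [h2]
      _ = k * c * (a * k⁻¹) := by group
      _ = k * c * k⁻¹ * a := by rw [h3]; group
  have hCcen : (Rb ⊓ Subgroup.centralizer
      ((A.map (QuotientGroup.mk' N) : Subgroup (H ⧸ N)) : Set (H ⧸ N)) : Subgroup (H ⧸ N)) ≤
      Subgroup.centralizer ((K.map (QuotientGroup.mk' N) : Subgroup (H ⧸ N)) : Set (H ⧸ N)) := by
    apply le_centralizer_of_exp_p hp2 hCp hKb hKC
    intro y hy hyp
    rw [Subgroup.mem_inf] at hy
    have hyA : y ∈ A.map (QuotientGroup.mk' N) :=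
      mem_map_of_mem_centralizer_map_exp hA N hN hfull hy.2 hyp
    rw [Subgroup.mem_centralizer_iff]
    intro k hk
    exact hKA k hk y hyA
  have hcen : ∀ u ∈ Rb, ∀ w ∈ K.map (QuotientGroup.mk' N), w * u = u * w := by
    apply Cfsg.Agent.Lib.Helper40.thompson_AxB (K.map (QuotientGroup.mk' N))
      (A.map (QuotientGroup.mk' N)) hAb hKb hKA (Nat.card Rb) Rb rfl hRb (hnormR _) (hnormR _)
    intro u hu huA w hw
    have huC : u ∈ (Rb ⊓ Subgroup.centralizer
        ((A.map (QuotientGroup.mk' N) : Subgroup (H ⧸ N)) : Set (H ⧸ N)) : Subgroup (H ⧸ N)) := by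
      refine Subgroup.mem_inf.mpr ⟨hu, ?_⟩
      rw [Subgroup.mem_centralizer_iff]
      intro a ha
      exact huA a ha
    exact Subgroup.mem_centralizer_iff.mp (hCcen huC) w hw
  have hKR : K.map (QuotientGroup.mk' N) ≤ Rb := by
    intro k hk
    apply hcon
    rw [Subgroup.mem_centralizer_iff]
    intro u hu
    exact (hcen u hu k hk).symm
  have hKbot : K.map (QuotientGroup.mk' N) = ⊥ := by
    rw [eq_bot_iff]
    intro k hk
    rw [Subgroup.mem_bot]
    exact eq_one_of_mem_of_mem hRb hKb (hKR hk) hk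
  have := (Subgroup.map_eq_bot_iff _).mp hKbot
  rwa [QuotientGroup.ker_mk'] at this

/-- **Lemma X, `p`-length one form** (`p` odd). In a `p`-constrained group `H` of `p`-length at
most one, let `A` be a `p`-subgroup containing every element of order dividing `p` of `C_H(A)`.
Then every `A`-invariant `p'`-subgroup of `H` lies in `O_{p'}(H)`. -/
theorem inv_le_pPrimeCore_of_plength_one (hp2 : p ≠ 2) (hc : IsPConstrained p H)
    (hpl : PLengthLE p 1 H) {A K : Subgroup H} (hA : IsPGroup p A)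
    (hfull : ∀ x ∈ Subgroup.centralizer (A : Set H), x ^ p = 1 → x ∈ A)
    (hK : (Nat.card K).Coprime p) (hAK : A ≤ Subgroup.normalizer (K : Set H)) :
    K ≤ pPrimeCore p H := by
  have key : ∀ (N : Subgroup H) [N.Normal], N = (upperPSeries p H 1).1 → ∀ x : H,
      (∃ k : ℕ, x ^ p ^ k ∈ N) → QuotientGroup.mk' N x ∈ pCore p (H ⧸ N) := by
    intro N _ hNeq
    subst hNeq
    rintro x ⟨k, hk⟩
    exact Cfsg.Agent.Lib.Helper34.plength_one_mem_pCore p hpl x k hk
  refine inv_le_of_quot_exp hp2 (pPrimeCore p H) (Cfsg.Agent.Lib.Helper30.pPrimeCore_coprime p)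
    (pCore p (H ⧸ pPrimeCore p H)) (Cfsg.Agent.Lib.Helper30.pCore_isPGroup p)
    (centralizer_pCore_quot_le hc) hA ?_ hfull hK hAK
  rintro _ ⟨a, ha, rfl⟩
  apply key _ (Cfsg.Agent.Lib.Helper34.upperPSeries_one_eq p).symm
  obtain ⟨j, hj⟩ := exists_pow_eq_one_of_mem hA ha
  exact ⟨j, by rw [hj]; exact Subgroup.one_mem _⟩

end LemmaX2

section Sub2

variable {G : Type*} [Group G] [Finite G] {p : ℕ} [Fact p.Prime]

/-- **Lemma X, `p`-length one form**, for a subgroup `X` of `G`. -/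
theorem inv_le_pPrimeCoreOf_of_plength_one {X A K : Subgroup G} (hp2 : p ≠ 2)
    (hc : IsPConstrained p ↥X) (hpl : PLengthLE p 1 ↥X) (hAX : A ≤ X)
    (hKX : K ≤ X) (hA : IsPGroup p A)
    (hfull : ∀ x ∈ Subgroup.centralizer (A : Set G), x ^ p = 1 → x ∈ A)
    (hK : (Nat.card K).Coprime p) (hAK : A ≤ Subgroup.normalizer (K : Set G)) :
    K ≤ pPrimeCoreOf p X := by
  have key : K.subgroupOf X ≤ pPrimeCore p ↥X := by
    apply inv_le_pPrimeCore_of_plength_one hp2 hc hpl (A := A.subgroupOf X) (K := K.subgroupOf X)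
    · exact hA.comap_subtype
    · intro x hx hxp
      rw [Subgroup.mem_subgroupOf]
      apply hfull
      · rw [Subgroup.mem_centralizer_iff]
        intro a ha
        have h1 := Subgroup.mem_centralizer_iff.mp hx ⟨a, hAX ha⟩ (Subgroup.mem_subgroupOf.mpr ha)
        exact congrArg Subtype.val h1
      · have h2 := congrArg Subtype.val hxp
        simpa using h2
    · rw [Nat.card_congr (Subgroup.subgroupOfEquivOfLe hKX).toEquiv]
      exact hK
    · rw [Subgroup.le_normalizer_iff]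
      intro a ha k hk
      rw [Subgroup.mem_subgroupOf] at ha hk ⊢
      exact (Subgroup.le_normalizer_iff.mp hAK) _ ha _ hk
  intro k hk
  exact ⟨⟨k, hKX hk⟩, key (Subgroup.mem_subgroupOf.mpr hk), rfl⟩

/-- `O_{p'}(X) ≤ O_π(X)` when `π` contains all primes different from `p`. -/
theorem pPrimeCoreOf_le_piCoreOf (X : Subgroup G) {π : Set ℕ}
    (hπ : ∀ q : ℕ, q.Prime → q ≠ p → q ∈ π) : pPrimeCoreOf p X ≤ piCoreOf π X := by
  have hp := (Fact.out : p.Prime)
  apply le_piCoreOf π (pPrimeCoreOf_le X) (le_normalizer_pPrimeCoreOf X)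
  intro q hq hdvd
  apply hπ q hq
  rintro rfl
  have h1 := pPrimeCoreOf_coprime (p := q) X
  exact hq.one_lt.ne' (Nat.Coprime.eq_one_of_dvd h1.symm hdvd)

end Sub2

end Cfsg.Agent.Lib.Helper32
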