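import Cfsg.Agent.Lib.Helper32.PConstr2

set_option autoImplicit false
open Cfsg
open scoped commutatorElement

namespace Cfsg.Agent.Lib.Helper32

section LemmaX3

variable {H : Type*} [Group H] [Finite H] {p : ℕ} [Fact p.Prime]

/-- Abstract form (`p` odd), no hypothesis on the position of `A`: `N` a normal `p'`-subgroup of
`H`, `Rb` a normal `p`-subgroup of `H ⧸ N` that contains its centralizer; the `p`-subgroup `A`
contains every element of order dividing `p` of its centralizer. Then every `A`-invariant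
`p'`-subgroup of `H` lies in `N`. -/
theorem inv_le_of_quot_exp' (hp2 : p ≠ 2) (N : Subgroup H) [hn : N.Normal]
    (hN : (Nat.card N).Coprime p)
    (Rb : Subgroup (H ⧸ N)) [hRn : Rb.Normal] (hRb : IsPGroup p Rb)
    (hcon : Subgroup.centralizer (Rb : Set (H ⧸ N)) ≤ Rb)
    {A K : Subgroup H} (hA : IsPGroup p A)
    (hfull : ∀ x ∈ Subgroup.centralizer (A : Set H), x ^ p = 1 → x ∈ A)
    (hK : (Nat.card K).Coprime p) (hAK : A ≤ Subgroup.normalizer (K : Set H)) :
    K ≤ N := by
  have hAb : IsPGroup p (A.map (QuotientGroup.mk' N)) := hA.map _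
  have hKb : (Nat.card (K.map (QuotientGroup.mk' N))).Coprime p :=
    Nat.Coprime.coprime_dvd_left (Subgroup.card_map_dvd K _) hK
  have hAKb : A.map (QuotientGroup.mk' N) ≤
      Subgroup.normalizer ((K.map (QuotientGroup.mk' N) : Subgroup (H ⧸ N)) : Set (H ⧸ N)) :=
    (Subgroup.map_mono hAK).trans (Subgroup.le_normalizer_map _)
  have hnormR : ∀ X : Subgroup (H ⧸ N), X ≤ Subgroup.normalizer (Rb : Set (H ⧸ N)) := by
    intro X
    rw [Subgroup.normalizer_eq_top_iff.mpr hRn]
    exact le_top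
  have hcen : Rb ≤ Subgroup.centralizer ((K.map (QuotientGroup.mk' N) : Subgroup (H ⧸ N)) :
      Set (H ⧸ N)) := by
    by_contra hnot
    obtain ⟨R₁, hle, hm⟩ := exists_minConf hAKb _ Rb rfl (hnormR _) (hnormR _) hnot
    have hR₁ : IsPGroup p R₁ := hRb.to_le hle
    apply hm.not_le
    apply nc_AxB_odd hp2 hR₁ hKb hAb hm.hKR hm.hAR hAKb
    intro y hy
    rw [Subgroup.mem_inf] at hy
    have hyp : y ^ p = 1 := hm.exp hp2 hR₁ hKb hy.1
    have hyA : y ∈ A.map (QuotientGroup.mk' N) :=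
      mem_map_of_mem_centralizer_map_exp hA N hN hfull hy.2 hyp
    rw [Subgroup.mem_centralizer_iff]
    intro k hk
    have h1 : ⁅k, y⁆ ∈ K.map (QuotientGroup.mk' N) := by
      have : ⁅k, y⁆ = k * (y * k⁻¹ * y⁻¹) := by rw [commutatorElement_def]; group
      rw [this]
      exact Subgroup.mul_mem _ hk
        ((Subgroup.le_normalizer_iff.mp hAKb) y hyA _ (Subgroup.inv_mem _ hk))
    have h2 : ⁅k, y⁆ ∈ R₁ := by
      have : ⁅k, y⁆ = (k * y * k⁻¹) * y⁻¹ := by rw [commutatorElement_def]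
      rw [this]
      exact R₁.mul_mem ((Subgroup.le_normalizer_iff.mp hm.hKR) k hk y hy.1) (R₁.inv_mem hy.1)
    exact (commutatorElement_eq_one_iff_commute.mp (eq_one_of_mem_of_mem hR₁ hKb h2 h1)).eq
  have hKR : K.map (QuotientGroup.mk' N) ≤ Rb := (Subgroup.le_centralizer_iff.mp hcen).trans hcon
  have hKbot : K.map (QuotientGroup.mk' N) = ⊥ := by
    rw [eq_bot_iff]
    intro k hk
    rw [Subgroup.mem_bot]
    exact eq_one_of_mem_of_mem hRb hKb (hKR hk) hk
  have := (Subgroup.map_eq_bot_iff _).mp hKbot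
  rwa [QuotientGroup.ker_mk'] at this

/-- **Lemma X, `Ω₁` form** (`p` odd). In a `p`-constrained group `H`, let `A` be a `p`-subgroup
containing every element of order dividing `p` of `C_H(A)`. Then every `A`-invariant `p'`-subgroup
of `H` lies in `O_{p'}(H)`. -/
theorem inv_le_pPrimeCore_exp (hp2 : p ≠ 2) (hc : IsPConstrained p H)
    {A K : Subgroup H} (hA : IsPGroup p A)
    (hfull : ∀ x ∈ Subgroup.centralizer (A : Set H), x ^ p = 1 → x ∈ A)
    (hK : (Nat.card K).Coprime p) (hAK : A ≤ Subgroup.normalizer (K : Set H)) :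
    K ≤ pPrimeCore p H :=
  inv_le_of_quot_exp' hp2 (pPrimeCore p H) (Cfsg.Agent.Lib.Helper30.pPrimeCore_coprime p)
    (pCore p (H ⧸ pPrimeCore p H)) (Cfsg.Agent.Lib.Helper30.pCore_isPGroup p)
    (centralizer_pCore_quot_le hc) hA hfull hK hAK

end LemmaX3

end Cfsg.Agent.Lib.Helper32
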