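import Mathlib
import Cfsg.Agent.Lib.Helper48.QADefs

/-!
# Project QA (helper48, S2787), piece QA-BINV (helper32)

An involution-or-identity of `SL₂(F)`, `2 ≠ 0`, is `± 1` as a matrix.
-/

set_option autoImplicit false

universe u

namespace Cfsg.Agent.Lib.Helper48.QA

open Matrix Polynomial

local notation "SL2" F => Matrix.SpecialLinearGroup (Fin 2) F
local notation "PSL2" F => Matrix.ProjectiveSpecialLinearGroup (Fin 2) F
local notation "M2" F => Matrix (Fin 2) (Fin 2) F

/-- QA-BINV -/
theorem invol_eq {F : Type*} [Field F] (h2 : (2 : F) ≠ 0) (g : SL2 F) (hg : g * g = 1) :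
    (g : M2 F) = 1 ∨ (g : M2 F) = -1 := by
  have hdet : (g : M2 F).det = 1 := g.2
  rw [Matrix.det_fin_two] at hdet
  have hsq : (g : M2 F) * (g : M2 F) = 1 := by
    have h := congrArg (fun x : SL2 F => (x : M2 F)) hg
    simpa using h
  have h00 := congrFun (congrFun hsq 0) 0
  have h01 := congrFun (congrFun hsq 0) 1
  have h10 := congrFun (congrFun hsq 1) 0
  rw [Matrix.mul_apply, Fin.sum_univ_two] at h00 h01 h10
  rw [Matrix.one_apply_eq] at h00
  rw [Matrix.one_apply_ne (by decide)] at h01 h10
  by_cases hs : (g : M2 F) 0 0 + (g : M2 F) 1 1 = 0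
  · exfalso
    apply h2
    have hd : (g : M2 F) 1 1 = -(g : M2 F) 0 0 := by linear_combination hs
    rw [hd] at hdet
    linear_combination (-1 : F) * h00 - hdet
  · have hb : (g : M2 F) 0 1 = 0 := by
      have h : (g : M2 F) 0 1 * ((g : M2 F) 0 0 + (g : M2 F) 1 1) = 0 := by
        linear_combination h01
      exact (mul_eq_zero.1 h).resolve_right hs
    have hc : (g : M2 F) 1 0 = 0 := by
      have h : (g : M2 F) 1 0 * ((g : M2 F) 0 0 + (g : M2 F) 1 1) = 0 := by
        linear_combination h10
      exact (mul_eq_zero.1 h).resolve_right hs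
    rw [hb] at h00 hdet
    have ha : (g : M2 F) 0 0 * (g : M2 F) 0 0 = 1 := by linear_combination h00
    have had : (g : M2 F) 0 0 * (g : M2 F) 1 1 = 1 := by linear_combination hdet
    have ha0 : (g : M2 F) 0 0 ≠ 0 := by
      intro h
      rw [h] at ha
      simp at ha
    have hda : (g : M2 F) 1 1 = (g : M2 F) 0 0 := by
      have h : (g : M2 F) 0 0 * ((g : M2 F) 0 0 - (g : M2 F) 1 1) = 0 := by
        linear_combination ha - had
      have h' := (mul_eq_zero.1 h).resolve_left ha0
      linear_combination -h'
    have h1 : ((g : M2 F) 0 0 - 1) * ((g : M2 F) 0 0 + 1) = 0 := by linear_combination ha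
    rcases mul_eq_zero.1 h1 with h | h
    · left
      have ha1 : (g : M2 F) 0 0 = 1 := by linear_combination h
      ext i j
      fin_cases i <;> fin_cases j
      · simpa using ha1
      · simpa using hb
      · simpa using hc
      · simpa using hda.trans ha1
    · right
      have ha1 : (g : M2 F) 0 0 = -1 := by linear_combination h
      ext i j
      fin_cases i <;> fin_cases j
      · simpa using ha1
      · simpa using hb
      · simpa using hc
      · simpa using hda.trans ha1

end Cfsg.Agent.Lib.Helper48.QA
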