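import Mathlib
import Cfsg.Agent.Lib.Helper49.Sp4Base

/-!
# S2460, piece D1 (helper32 for helper49): `g² - μ g + 1 = 0` without roots gives a tame Lagrangian
-/

set_option autoImplicit false
set_option linter.style.haveILetI false
set_option linter.unusedSectionVars false
set_option linter.unusedVariables false

namespace Cfsg.Agent.Lib.Helper32.Sp4T

open Cfsg.Agent.Lib.Helper49.Sp4T

variable {F : Type*} [Field F] {V : Type*} [AddCommGroup V] [Module F V]
  (ω : LinearMap.BilinForm F V) (g : V ≃ₗ[F] V)

/-- PIECE D1 -/
theorem tame_D1 (hω : Symp ω) (hg : Isom ω g) (μ : F) (hD : ∀ v, hh g v = μ • v)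
    (hno : ∀ a : F, a * a - μ * a + 1 ≠ 0) : TameE ω g 1 := by
  classical
  -- `g² = μ g - 1`
  have gg : ∀ v, g (g v) = μ • g v - v := by
    intro v
    have h1 := hD (g v)
    unfold hh at h1
    rw [LinearEquiv.symm_apply_apply] at h1
    rw [← h1]
    abel
  -- no eigenvectors
  have noeig : ∀ (c : F) (z : V), g z = c • z → z = 0 := by
    intro c z hz
    have h1 := gg z
    rw [hz, map_smul, hz] at h1
    have h2 : (c * c - μ * c + 1) • z = 0 := by
      linear_combination (norm := module) h1
    rcases smul_eq_zero.mp h2 with h3 | h3
    · exact absurd h3 (hno c)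
    · exact h3
  haveI : Module.Finite F V := Module.finite_of_finrank_pos (by rw [hω.dim]; norm_num)
  obtain ⟨x, hx⟩ : ∃ x : V, x ≠ 0 :=
    Module.finrank_pos_iff_exists_ne_zero.mp (by rw [hω.dim]; norm_num)
  -- `y` orthogonal to `x`, outside `span {x, g x}`
  obtain ⟨y, hy0, hyn⟩ : ∃ y : V, ω x y = 0 ∧ y ∉ Submodule.span F ({x, g x} : Set V) := by
    by_contra hcon
    push Not at hcon
    have hle : LinearMap.ker (ω x) ≤ Submodule.span F ({x, g x} : Set V) := by
      intro y hy
      exact hcon y (LinearMap.mem_ker.mp hy)
    have h1 := LinearMap.finrank_range_add_finrank_ker (ω x)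
    have h2 : Module.finrank F (LinearMap.range (ω x)) ≤ 1 := by
      have := Submodule.finrank_le (LinearMap.range (ω x))
      rwa [Module.finrank_self] at this
    have h3 : Module.finrank F (Submodule.span F ({x, g x} : Set V)) ≤ 2 := by
      have h4 := finrank_span_finset_le_card (R := F) ({x, g x} : Finset V)
      have h5 : ((({x, g x} : Finset V)) : Set V) = {x, g x} := by
        rw [Finset.coe_insert, Finset.coe_singleton]
      rw [h5] at h4
      exact h4.trans Finset.card_le_two
    have h6 := Submodule.finrank_mono hle
    rw [hω.dim] at h1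
    omega
  have hind : ∀ s t : F, s • x + t • y = 0 → s = 0 ∧ t = 0 := by
    intro s t hst
    have ht : t = 0 := by
      by_contra ht
      apply hyn
      have hy : y = (-(t⁻¹ * s)) • x := by
        have h1 : t⁻¹ • (s • x + t • y) = 0 := by rw [hst, smul_zero]
        rw [smul_add, smul_smul, smul_smul, inv_mul_cancel₀ ht, one_smul] at h1
        linear_combination (norm := module) h1
      rw [hy]
      exact Submodule.smul_mem _ _ (Submodule.subset_span (Set.mem_insert _ _))
    subst ht
    rw [zero_smul, add_zero] at hst
    rcases smul_eq_zero.mp hst with h | h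
    · exact ⟨h, rfl⟩
    · exact absurd h hx
  refine ⟨x, y, ?_, hy0, ?_, ?_⟩
  · exact LinearIndependent.pair_iff.mpr hind
  · rw [← hg.hh_left, hD, map_smul, LinearMap.smul_apply, hy0, smul_zero]
  · intro a b hz
    obtain ⟨c, d, hcd⟩ := Submodule.mem_span_pair.mp hz
    have key : a = 0 ∧ b = 0 := by
      by_contra hab
      have hz0 : a • x + b • y ≠ 0 := fun h => hab (hind a b h)
      by_cases hDet : a * d - b * c = 0
      · -- `z` and `g z` are dependent
        have e1 : d • (a • x + b • y) = b • g (a • x + b • y) := by
          rw [← hcd]
          have : (a * d - b * c) • x = 0 := by rw [hDet, zero_smul]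
          linear_combination (norm := module) this
        by_cases hb : b = 0
        · subst hb
          simp only [zero_smul, add_zero] at e1 hcd hz0
          have hd : d = 0 := by
            rcases smul_eq_zero.mp e1 with h | h
            · exact h
            · exact absurd h hz0
          subst hd
          have ha : a ≠ 0 := fun h => hab ⟨h, rfl⟩
          rw [zero_smul, add_zero, map_smul] at hcd
          have hgx : g x = (a⁻¹ * c) • x := by
            have h1 : a⁻¹ • (a • g x) = a⁻¹ • (c • x) := by rw [hcd]
            rw [smul_smul, inv_mul_cancel₀ ha, one_smul, smul_smul] at h1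
            exact h1
          exact hx (noeig _ x hgx)
        · have hgz : g (a • x + b • y) = (b⁻¹ * d) • (a • x + b • y) := by
            have h1 : b⁻¹ • (b • g (a • x + b • y)) = b⁻¹ • (d • (a • x + b • y)) := by rw [e1]
            rw [smul_smul, inv_mul_cancel₀ hb, one_smul, smul_smul] at h1
            exact h1
          exact hz0 (noeig _ _ hgz)
      · -- `g x ∈ span {x, y}`
        have e2 : (a * d - b * c) • g x =
            ((d - b * μ) * c + b * a) • x + ((d - b * μ) * d + b * b) • y := by
          have h1 : (a * d - b * c) • x = d • (a • x + b • y) - b • g (a • x + b • y) := by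
            rw [← hcd]
            module
          have h2 : (a * d - b * c) • g x =
              d • g (a • x + b • y) - b • g (g (a • x + b • y)) := by
            rw [← map_smul, h1, map_sub, map_smul, map_smul]
          rw [h2, gg, ← hcd]
          module
        by_cases hβ : (d - b * μ) * d + b * b = 0
        · rw [hβ, zero_smul, add_zero] at e2
          have hgx : g x = ((a * d - b * c)⁻¹ * ((d - b * μ) * c + b * a)) • x := by
            have h1 : (a * d - b * c)⁻¹ • ((a * d - b * c) • g x) =
                (a * d - b * c)⁻¹ • (((d - b * μ) * c + b * a) • x) := by rw [e2]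
            rw [smul_smul, inv_mul_cancel₀ hDet, one_smul, smul_smul] at h1
            exact h1
          exact hx (noeig _ x hgx)
        · apply hyn
          have hy : y = ((d - b * μ) * d + b * b)⁻¹ •
              ((a * d - b * c) • g x - ((d - b * μ) * c + b * a) • x) := by
            rw [e2, add_sub_cancel_left, smul_smul, inv_mul_cancel₀ hβ, one_smul]
          rw [hy]
          apply Submodule.smul_mem
          apply Submodule.sub_mem
          · exact Submodule.smul_mem _ _
              (Submodule.subset_span (Set.mem_insert_of_mem _ (Set.mem_singleton _)))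
          · exact Submodule.smul_mem _ _ (Submodule.subset_span (Set.mem_insert _ _))
    obtain ⟨rfl, rfl⟩ := key
    simp

end Cfsg.Agent.Lib.Helper32.Sp4T
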