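import Mathlib

/-!
# A 2-group of order `2^n` with a cyclic maximal subgroup inverted (mod `2^(n-2)`) has
commutator subgroup of index 4
-/

set_option autoImplicit false

namespace Cfsg.Agent.Lib.Helper32.T23

open scoped commutatorElement

theorem gc2 {Y : Type*} [Group Y] [Finite Y] (n : ℕ) (hn : 4 ≤ n) (hY : Nat.card Y = 2 ^ n)
    (g s : Y) (k : ℕ) (ho : orderOf g = 2 ^ (n - 1))
    (hk : k % 2 ^ (n - 1) = 2 ^ (n - 1) - 1 ∨ k % 2 ^ (n - 1) = 2 ^ (n - 2) - 1)
    (hs : s * g * s⁻¹ = g ^ k) : (commutator Y).index = 4 := by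
  obtain ⟨m, rfl⟩ : ∃ m, n = m + 4 := ⟨n - 4, by omega⟩
  rw [show m + 4 - 1 = m + 3 from rfl] at ho hk
  rw [show m + 4 - 2 = m + 2 from rfl] at hk
  have hP : 1 ≤ 2 ^ m := Nat.one_le_two_pow
  have e3 : 2 ^ (m + 3) = 8 * 2 ^ m := by rw [pow_add]; ring
  have e2 : 2 ^ (m + 2) = 4 * 2 ^ m := by rw [pow_add]; ring
  have e4 : 2 ^ (m + 4) = 16 * 2 ^ m := by rw [pow_add]; ring
  -- k ≡ 3 mod 4, k % N ≠ 1
  have hkdiv := Nat.div_add_mod k (2 ^ (m + 3))
  have hk4 : k % 4 = 3 := by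
    rw [e3] at hkdiv hk
    rw [e2] at hk
    have e : 8 * 2 ^ m * (k / (8 * 2 ^ m)) = 8 * (2 ^ m * (k / (8 * 2 ^ m))) := by ring
    rw [e] at hkdiv
    omega
  have hk1 : 1 ≤ k := by omega
  have hkne : k % 2 ^ (m + 3) ≠ 1 := by
    rw [e3] at hk ⊢
    rw [e2] at hk
    generalize k % (8 * 2 ^ m) = r at hk ⊢
    generalize 2 ^ m = P at hk hP
    omega
  have hgk : g ^ k ≠ g := by
    intro h
    have h1 : g ^ k = g ^ 1 := by rw [h, pow_one]
    rw [pow_eq_pow_iff_modEq, ho] at h1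
    have h2 : k % 2 ^ (m + 3) = 1 % 2 ^ (m + 3) := h1
    rw [Nat.mod_eq_of_lt (show 1 < 2 ^ (m + 3) by rw [e3]; omega)] at h2
    exact hkne h2
  -- C = zpowers g has index 2
  have hCcard : Nat.card (Subgroup.zpowers g) = 2 ^ (m + 3) := by rw [Nat.card_zpowers, ho]
  have hCidx : (Subgroup.zpowers g).index = 2 := by
    have h1 := (Subgroup.zpowers g).index_mul_card
    rw [hCcard, hY, e3, e4] at h1
    have : (Subgroup.zpowers g).index * (8 * 2 ^ m) = 2 * (8 * 2 ^ m) := by rw [h1]; ring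
    exact Nat.eq_of_mul_eq_mul_right (by omega) this
  have hsC : s ∉ Subgroup.zpowers g := by
    intro hsC
    obtain ⟨z, rfl⟩ := Subgroup.mem_zpowers_iff.mp hsC
    apply hgk
    rw [← hs, ((Commute.refl g).zpow_left z).eq, mul_inv_cancel_right]
  -- D = zpowers (g^2)
  have hDord : orderOf (g ^ 2) = 2 ^ (m + 2) := by
    rw [orderOf_pow' g (by norm_num), ho]
    have : Nat.gcd (2 ^ (m + 3)) 2 = 2 := Nat.gcd_eq_right (by rw [e3]; omega)
    rw [this, e3, e2]
    omega
  have hDcard : Nat.card (Subgroup.zpowers (g ^ 2)) = 2 ^ (m + 2) := by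
    rw [Nat.card_zpowers, hDord]
  have hCn : Subgroup.zpowers g ≤ Subgroup.normalizer ((Subgroup.zpowers (g ^ 2) : Subgroup Y) : Set Y) := by
    intro c hc
    apply Subgroup.mem_normalizer_fintype
    intro d hd
    obtain ⟨z, rfl⟩ := Subgroup.mem_zpowers_iff.mp hc
    obtain ⟨w, rfl⟩ := Subgroup.mem_zpowers_iff.mp hd
    have hcomm : Commute (g ^ z) ((g ^ 2) ^ w) :=
      (((Commute.refl g).pow_right 2).zpow_right w).zpow_left z
    rw [hcomm.eq, mul_inv_cancel_right]
    exact hd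
  have hsn : s ∈ Subgroup.normalizer ((Subgroup.zpowers (g ^ 2) : Subgroup Y) : Set Y) := by
    apply Subgroup.mem_normalizer_fintype
    intro d hd
    obtain ⟨w, rfl⟩ := Subgroup.mem_zpowers_iff.mp hd
    have h1 : s * (g ^ 2) ^ w * s⁻¹ = ((g ^ 2) ^ k) ^ w := by
      rw [← conj_zpow, ← conj_pow, hs, ← pow_mul, ← pow_mul, mul_comm]
    rw [h1]
    exact Subgroup.zpow_mem _ (Subgroup.pow_mem _ (Subgroup.mem_zpowers _) k) w
  have hDnorm : (Subgroup.zpowers (g ^ 2)).Normal := by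
    rw [← Subgroup.normalizer_eq_top_iff, eq_top_iff]
    intro y _
    by_cases hy : y ∈ Subgroup.zpowers g
    · exact hCn hy
    · have h1 : y * s ∈ Subgroup.zpowers g :=
        (Subgroup.mul_mem_iff_of_index_two hCidx).mpr (iff_of_false hy hsC)
      have h2 : y = (y * s) * s⁻¹ := by group
      rw [h2]
      exact Subgroup.mul_mem _ (hCn h1) (Subgroup.inv_mem _ hsn)
  -- the quotient has order 4
  have hDidx : (Subgroup.zpowers (g ^ 2)).index = 2 ^ 2 := by
    have h1 := (Subgroup.zpowers (g ^ 2)).index_mul_card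
    rw [hDcard, hY, e2, e4] at h1
    have : (Subgroup.zpowers (g ^ 2)).index * (4 * 2 ^ m) = 4 * (4 * 2 ^ m) := by rw [h1]; ring
    have := Nat.eq_of_mul_eq_mul_right (by omega) this
    rw [this]; norm_num
  have hqcomm : ∀ a b : Y ⧸ Subgroup.zpowers (g ^ 2), a * b = b * a := by
    apply IsPGroup.commutative_of_card_eq_prime_sq (p := 2)
    rw [← Subgroup.index_eq_card]
    exact hDidx
  have hle : commutator Y ≤ Subgroup.zpowers (g ^ 2) := by
    rw [commutator_def, Subgroup.commutator_le]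
    intro a _ b _
    rw [← QuotientGroup.eq_one_iff, commutatorElement_def]
    simp only [QuotientGroup.mk_mul, QuotientGroup.mk_inv]
    rw [hqcomm (a : Y ⧸ Subgroup.zpowers (g ^ 2)) b]
    group
  -- the commutator [s, g]
  have hcmem : g ^ k * g⁻¹ ∈ commutator Y := by
    have h1 : ⁅s, g⁆ ∈ commutator Y := by
      rw [commutator_def]
      exact Subgroup.commutator_mem_commutator (Subgroup.mem_top s) (Subgroup.mem_top g)
    rwa [commutatorElement_def, hs] at h1
  have hcord : orderOf (g ^ k * g⁻¹) = 2 ^ (m + 2) := by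
    have h1 : g ^ k * g⁻¹ = g ^ (k - 1) := by
      rw [pow_sub g hk1, pow_one]
    have hk0 : k - 1 ≠ 0 := by omega
    rw [h1, orderOf_pow' g hk0, ho]
    have hgcd : Nat.gcd (2 ^ (m + 3)) (k - 1) = 2 := by
      obtain ⟨a, ha, had⟩ := (Nat.dvd_prime_pow Nat.prime_two).mp
        (Nat.gcd_dvd_left (2 ^ (m + 3)) (k - 1))
      have h2 : 2 ∣ Nat.gcd (2 ^ (m + 3)) (k - 1) :=
        Nat.dvd_gcd (by rw [e3]; omega) (by omega)
      have h4 : ¬ 4 ∣ Nat.gcd (2 ^ (m + 3)) (k - 1) := by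
        intro h
        have := dvd_trans h (Nat.gcd_dvd_right (2 ^ (m + 3)) (k - 1))
        omega
      rw [had] at h2 h4 ⊢
      have ha1 : a = 1 := by
        rcases a with _ | _ | a
        · norm_num at h2
        · rfl
        · exfalso
          apply h4
          rw [pow_succ, pow_succ]
          exact ⟨2 ^ a, by ring⟩
      rw [ha1, pow_one]
    rw [hgcd, e3, e2]
    omega
  have hc1 : 2 ^ (m + 2) ≤ Nat.card (commutator Y) := by
    have h1 : Subgroup.zpowers (g ^ k * g⁻¹) ≤ commutator Y := by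
      rw [Subgroup.zpowers_le]; exact hcmem
    have h2 := Subgroup.card_le_of_le h1
    rwa [Nat.card_zpowers, hcord] at h2
  have hc2 : Nat.card (commutator Y) ≤ 2 ^ (m + 2) := by
    have h2 := Subgroup.card_le_of_le hle
    rwa [hDcard] at h2
  have hc : Nat.card (commutator Y) = 2 ^ (m + 2) := le_antisymm hc2 hc1
  have h1 := (commutator Y).index_mul_card
  rw [hc, hY, e2, e4] at h1
  have : (commutator Y).index * (4 * 2 ^ m) = 4 * (4 * 2 ^ m) := by rw [h1]; ring
  exact Nat.eq_of_mul_eq_mul_right (by omega) this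

end Cfsg.Agent.Lib.Helper32.T23
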