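import Mathlib

/-!
# Two 2-elements, one normalizing the cyclic group of the other, lie in a common Sylow 2-subgroup
-/

set_option autoImplicit false

namespace Cfsg.Agent.Lib.Helper32.T23

theorem gc3 {G : Type*} [Group G] [Finite G] (P : Sylow 2 G) (n : ℕ)
    (hP : Nat.card P = 2 ^ n) (g s : G) (hs : ∃ e : ℕ, orderOf s = 2 ^ e)
    (ho : orderOf g = 2 ^ (n - 1)) (k : ℕ) (hsg : s * g * s⁻¹ = g ^ k) :
    ∃ (Q : Sylow 2 G), g ∈ (Q : Subgroup G) ∧ s ∈ (Q : Subgroup G) ∧ Nat.card Q = 2 ^ n ∧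
      (commutator ↥Q).index = (commutator ↥P).index := by
  have hg2 : IsPGroup 2 (Subgroup.zpowers g) :=
    IsPGroup.of_card (n := n - 1) (by rw [Nat.card_zpowers, ho])
  obtain ⟨e, he⟩ := hs
  have hs2 : IsPGroup 2 (Subgroup.zpowers s) :=
    IsPGroup.of_card (n := e) (by rw [Nat.card_zpowers, he])
  have hnorm : Subgroup.zpowers s ≤
      Subgroup.normalizer ((Subgroup.zpowers g : Subgroup G) : Set G) := by
    rw [Subgroup.zpowers_le]
    apply Subgroup.mem_normalizer_fintype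
    intro d hd
    obtain ⟨w, rfl⟩ := Subgroup.mem_zpowers_iff.mp hd
    rw [← conj_zpow, hsg]
    exact Subgroup.zpow_mem _ (Subgroup.pow_mem _ (Subgroup.mem_zpowers g) k) w
  have hsup : IsPGroup 2 (Subgroup.zpowers g ⊔ Subgroup.zpowers s : Subgroup G) :=
    IsPGroup.to_sup_of_normal_left' hg2 hs2 hnorm
  obtain ⟨Q, hQ⟩ := hsup.exists_le_sylow
  obtain ⟨x, hx⟩ := MulAction.exists_smul_eq G P Q
  subst hx
  refine ⟨x • P, hQ (Subgroup.mem_sup_left (Subgroup.mem_zpowers g)),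
    hQ (Subgroup.mem_sup_right (Subgroup.mem_zpowers s)), ?_, ?_⟩
  · rw [← hP]
    exact Nat.card_congr (Sylow.equivSMul P x).symm.toEquiv
  · rw [Subgroup.index_eq_card, Subgroup.index_eq_card]
    exact Nat.card_congr (MulEquiv.abelianizationCongr (Sylow.equivSMul P x)).symm.toEquiv

end Cfsg.Agent.Lib.Helper32.T23
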