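import Mathlib

/-!
# Conjugates of a generator of a large cyclic 2-subgroup inside that subgroup
-/

set_option autoImplicit false

namespace Cfsg.Agent.Lib.Helper32.T23

theorem gn {G : Type*} [Group G] [Finite G] (n : ℕ) (hn : 2 ≤ n)
    (hG : ¬ 2 ^ (n + 1) ∣ Nat.card G) (g t : G) (i : ℕ) (ho : orderOf g = 2 ^ (n - 1))
    (hti : t * g * t⁻¹ = g ^ i) (hgt : t * g ≠ g * t) (x : G) (j : ℕ)
    (hx : x * g * x⁻¹ = g ^ j) : g ^ j = g ∨ g ^ j = g ^ i := by
  classical
  obtain ⟨C, hC⟩ : ∃ C : Subgroup G, C = Subgroup.zpowers g := ⟨_, rfl⟩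
  have hgC : g ∈ C := by rw [hC]; exact Subgroup.mem_zpowers g
  have hCcard : Nat.card C = 2 ^ (n - 1) := by rw [hC, Nat.card_zpowers, ho]
  haveI : IsCyclic C := by rw [hC]; infer_instance
  -- membership in the normalizer
  have hnorm : ∀ y : G, ∀ l : ℕ, y * g * y⁻¹ = g ^ l → y ∈ Subgroup.normalizer (C : Set G) := by
    intro y l hy
    apply Subgroup.mem_normalizer_fintype
    intro d hd
    rw [SetLike.mem_coe, hC] at hd ⊢
    obtain ⟨w, rfl⟩ := Subgroup.mem_zpowers_iff.mp hd
    rw [← conj_zpow, hy]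
    exact Subgroup.zpow_mem _ (Subgroup.pow_mem _ (Subgroup.mem_zpowers g) l) w
  have htM := hnorm t i hti
  have hxM := hnorm x j hx
  have hcomm_of_mem : ∀ y : G, y ∈ Subgroup.centralizer (C : Set G) → y * g * y⁻¹ = g := by
    intro y hy
    have h1 := Subgroup.mem_centralizer_iff.mp hy g hgC
    rw [← h1, mul_inv_cancel_right]
  have htZ : t ∉ Subgroup.centralizer (C : Set G) := by
    intro h
    apply hgt
    exact (Subgroup.mem_centralizer_iff.mp h g hgC).symm
  -- the relative index is a power of two dividing 2^(n-2)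
  have key := Subgroup.card_dvd_of_injective _
    (QuotientGroup.kerLift_injective C.normalizerMonoidHom)
  rw [Subgroup.normalizerMonoidHom_ker, ← Subgroup.index, ← Subgroup.relIndex,
    IsCyclic.card_mulAut, hCcard, Nat.totient_prime_pow Nat.prime_two (by omega)] at key
  have key' : (Subgroup.centralizer (C : Set G)).relIndex (Subgroup.normalizer (C : Set G)) ∣
      2 ^ (n - 1 - 1) := by simpa using key
  obtain ⟨a, -, ha⟩ := (Nat.dvd_prime_pow Nat.prime_two).mp key'
  have hZM : Subgroup.centralizer (C : Set G) ≤ Subgroup.normalizer (C : Set G) :=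
    Subgroup.centralizer_le_normalizer _
  have hcard : Nat.card (Subgroup.centralizer (C : Set G)) *
      (Subgroup.centralizer (C : Set G)).relIndex (Subgroup.normalizer (C : Set G)) =
        Nat.card (Subgroup.normalizer (C : Set G)) := by
    have := Subgroup.relIndex_mul_relIndex (⊥ : Subgroup G) _ _ bot_le hZM
    rwa [Subgroup.relIndex_bot_left, Subgroup.relIndex_bot_left] at this
  have hCZ : C ≤ Subgroup.centralizer (C : Set G) := by
    intro c hc
    rw [Subgroup.mem_centralizer_iff]
    intro d hd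
    rw [SetLike.mem_coe, hC] at hd
    rw [hC] at hc
    obtain ⟨w, rfl⟩ := Subgroup.mem_zpowers_iff.mp hd
    obtain ⟨z, rfl⟩ := Subgroup.mem_zpowers_iff.mp hc
    exact (((Commute.refl g).zpow_right z).zpow_left w).eq
  have ha1 : a = 1 := by
    have h1 : 2 ^ (n - 1) ∣ Nat.card (Subgroup.centralizer (C : Set G)) := by
      rw [← hCcard]; exact Subgroup.card_dvd_of_le hCZ
    have h2 : 2 ^ (n - 1) * 2 ^ a ∣ Nat.card G := by
      refine dvd_trans ?_ (Subgroup.card_subgroup_dvd_card (Subgroup.normalizer (C : Set G)))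
      rw [← hcard, ha]
      exact Nat.mul_dvd_mul_right h1 _
    have h3 : a ≠ 0 := by
      intro h0
      rw [h0, pow_zero, Subgroup.relIndex_eq_one] at ha
      exact htZ (ha htM)
    by_contra hne
    have h4 : 2 ≤ a := by omega
    apply hG
    refine dvd_trans ?_ h2
    rw [← pow_add]
    exact pow_dvd_pow 2 (by omega)
  rw [ha1, pow_one] at ha
  -- index two in the normalizer
  have hidx : ((Subgroup.centralizer (C : Set G)).subgroupOf
      (Subgroup.normalizer (C : Set G))).index = 2 := ha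
  by_cases hxZ : x ∈ Subgroup.centralizer (C : Set G)
  · left
    rw [← hx]; exact hcomm_of_mem x hxZ
  · right
    have h1 : (⟨x, hxM⟩ : Subgroup.normalizer (C : Set G)) * (⟨t, htM⟩)⁻¹ ∈
        (Subgroup.centralizer (C : Set G)).subgroupOf (Subgroup.normalizer (C : Set G)) := by
      rw [Subgroup.mul_mem_iff_of_index_two hidx]
      refine iff_of_false ?_ ?_
      · rw [Subgroup.mem_subgroupOf]; exact hxZ
      · rw [Subgroup.inv_mem_iff, Subgroup.mem_subgroupOf]; exact htZ
    rw [Subgroup.mem_subgroupOf] at h1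
    have h2 : x * t⁻¹ ∈ Subgroup.centralizer (C : Set G) := h1
    have h3 := Subgroup.mem_centralizer_iff.mp h2 (g ^ i) (Subgroup.pow_mem _ hgC i)
    have h4 : x * g * x⁻¹ = (x * t⁻¹) * (t * g * t⁻¹) * (x * t⁻¹)⁻¹ := by group
    rw [← hx, h4, hti, ← h3, mul_inv_cancel_right]

end Cfsg.Agent.Lib.Helper32.T23
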