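import Cfsg.Agent.S1282
import Cfsg.Agent.Lib.Helper32.PConstr
import Cfsg.Agent.Lib.Helper32.Trans

set_option autoImplicit false
open Cfsg
open scoped commutatorElement

namespace Cfsg.Agent.Lib.Helper32

section Sub

variable {G : Type*} [Group G] [Finite G] {p : ℕ} [Fact p.Prime]

/-- `O_{p'}(X)` for a subgroup `X` of `G`, as a subgroup of `G`. -/
def pPrimeCoreOf (p : ℕ) (X : Subgroup G) : Subgroup G := (pPrimeCore p ↥X).map X.subtype

omit [Finite G] [Fact p.Prime] in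
theorem pPrimeCoreOf_le (X : Subgroup G) : pPrimeCoreOf p X ≤ X := by
  rintro x ⟨y, -, rfl⟩
  exact y.2

theorem pPrimeCoreOf_coprime (X : Subgroup G) : (Nat.card (pPrimeCoreOf p X)).Coprime p := by
  unfold pPrimeCoreOf
  rw [Cfsg.Agent.Lib.Helper30.card_map_subtype]
  exact Cfsg.Agent.Lib.Helper30.pPrimeCore_coprime p

omit [Finite G] [Fact p.Prime] in
theorem le_normalizer_pPrimeCoreOf (X : Subgroup G) :
    X ≤ Subgroup.normalizer (pPrimeCoreOf p X : Set G) := by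
  rw [Subgroup.le_normalizer_iff]
  rintro x hx _ ⟨y, hy, rfl⟩
  have hn : (pPrimeCore p ↥X).Normal := pPrimeCore_normal p ↥X
  exact ⟨⟨x, hx⟩ * y * ⟨x, hx⟩⁻¹, hn.conj_mem y hy ⟨x, hx⟩, rfl⟩

/-- **Lemma X** for a `p`-constrained subgroup `X` of `G`. -/
theorem inv_le_pPrimeCoreOf {X A K : Subgroup G} (hc : IsPConstrained p ↥X) (hAX : A ≤ X)
    (hKX : K ≤ X) (hA : IsPGroup p A)
    (hfull : ∀ x ∈ Subgroup.centralizer (A : Set G), (∃ j : ℕ, x ^ p ^ j = 1) → x ∈ A)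
    (hK : (Nat.card K).Coprime p) (hAK : A ≤ Subgroup.normalizer (K : Set G))
    (hcase : p ≠ 2 ∨ ((∀ a ∈ A, ∀ b ∈ A, a * b = b * a) ∧
      ∀ S : Subgroup G, IsPGroup p S → A ≤ S → S ≤ Subgroup.normalizer (A : Set G))) :
    K ≤ pPrimeCoreOf p X := by
  have key : K.subgroupOf X ≤ pPrimeCore p ↥X := by
    apply inv_le_pPrimeCore hc (A := A.subgroupOf X) (K := K.subgroupOf X)
    · exact hA.comap_subtype
    · intro x hx hxp
      rw [Subgroup.mem_subgroupOf]
      apply hfull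
      · rw [Subgroup.mem_centralizer_iff]
        intro a ha
        have h1 := Subgroup.mem_centralizer_iff.mp hx ⟨a, hAX ha⟩ (Subgroup.mem_subgroupOf.mpr ha)
        exact congrArg Subtype.val h1
      · obtain ⟨j, hj⟩ := hxp
        refine ⟨j, ?_⟩
        have h2 := congrArg Subtype.val hj
        simpa using h2
    · rw [Nat.card_congr (Subgroup.subgroupOfEquivOfLe hKX).toEquiv]
      exact hK
    · rw [Subgroup.le_normalizer_iff]
      intro a ha k hk
      rw [Subgroup.mem_subgroupOf] at ha hk ⊢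
      exact (Subgroup.le_normalizer_iff.mp hAK) _ ha _ hk
    · rcases hcase with hp2 | ⟨hAc, hnorm⟩
      · exact Or.inl hp2
      · refine Or.inr ⟨?_, ?_⟩
        · intro a ha b hb
          rw [Subgroup.mem_subgroupOf] at ha hb
          exact Subtype.ext (hAc _ ha _ hb)
        · intro S hS hAS
          have h1 : A ≤ S.map X.subtype := by
            intro a ha
            exact ⟨⟨a, hAX ha⟩, hAS (Subgroup.mem_subgroupOf.mpr ha), rfl⟩
          have h2 := hnorm (S.map X.subtype) (hS.map _) h1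
          rw [Subgroup.le_normalizer_iff]
          intro s hs a ha
          rw [Subgroup.mem_subgroupOf] at ha ⊢
          exact (Subgroup.le_normalizer_iff.mp h2) _ (Subgroup.mem_map_of_mem _ hs) _ ha
  intro k hk
  exact ⟨⟨k, hKX hk⟩, key (Subgroup.mem_subgroupOf.mpr hk), rfl⟩

end Sub

section Aux

variable {G : Type*} [Group G]

theorem le_normalizer_sup' {A H K : Subgroup G} (hH : A ≤ Subgroup.normalizer (H : Set G))
    (hK : A ≤ Subgroup.normalizer (K : Set G)) : A ≤ Subgroup.normalizer ((H ⊔ K : Subgroup G) : Set G) := by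
  intro a ha
  rw [Subgroup.mem_normalizer_iff_map_conj_eq, Subgroup.map_sup,
    Subgroup.mem_normalizer_iff_map_conj_eq.mp (hH ha),
    Subgroup.mem_normalizer_iff_map_conj_eq.mp (hK ha)]

theorem le_normalizer_centralizer_singleton {E : Subgroup G} {a : G}
    (h : ∀ e ∈ E, e * a = a * e) :
    E ≤ Subgroup.normalizer ((Subgroup.centralizer ({a} : Set G) : Subgroup G) : Set G) := by
  rw [Subgroup.le_normalizer_iff]
  intro e he x hx
  rw [Subgroup.mem_centralizer_iff] at hx ⊢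
  intro y hy
  rw [Set.mem_singleton_iff] at hy
  subst hy
  have h1 := hx y rfl
  have h2 := h e he
  have h3 : e⁻¹ * y = y * e⁻¹ := by
    calc e⁻¹ * y = e⁻¹ * (y * e) * e⁻¹ := by group
      _ = e⁻¹ * (e * y) * e⁻¹ := by rw [h2]
      _ = y * e⁻¹ := by group
  calc y * (e * x * e⁻¹) = (y * e) * x * e⁻¹ := by group
    _ = e * (y * x) * e⁻¹ := by rw [← h2]; group
    _ = e * (x * y) * e⁻¹ := by rw [h1]
    _ = e * x * (y * e⁻¹) := by group
    _ = e * x * e⁻¹ * y := by rw [← h3]; group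

theorem centralizer_singleton_le_normalizer_zpowers (a : G) :
    Subgroup.centralizer ({a} : Set G) ≤ Subgroup.normalizer ((Subgroup.zpowers a : Subgroup G) : Set G) := by
  rw [Subgroup.le_normalizer_iff]
  intro x hx y hy
  obtain ⟨n, rfl⟩ := Subgroup.mem_zpowers_iff.mp hy
  have h1 : a * x = x * a := Subgroup.mem_centralizer_iff.mp hx a rfl
  have h2 : Commute x (a ^ n) := (Commute.zpow_right (show Commute x a from h1.symm) n)
  have h3 : x * a ^ n * x⁻¹ = a ^ n := by rw [h2.eq]; group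
  rw [h3]
  exact Subgroup.zpow_mem_zpowers a n

theorem coprime_of_isPGroup_ne [Finite G] {p q : ℕ} [hp : Fact p.Prime] [hq : Fact q.Prime] (hqp : q ≠ p)
    {Q : Subgroup G} (hQ : IsPGroup q Q) : (Nat.card Q).Coprime p := by
  obtain ⟨n, hn⟩ := IsPGroup.iff_card.mp hQ
  rw [hn]
  exact Nat.Coprime.pow_left _ ((Nat.coprime_primes hq.out hp.out).mpr hqp)

end Aux

section Trans

variable {G : Type*} [Group G] [Finite G] {p : ℕ} [Fact p.Prime]

/-- The hypotheses of the Thompson transitivity theorem on an abelian `p`-subgroup `E`. -/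
structure TTHyp (p : ℕ) (E : Subgroup G) : Prop where
  hEp : IsPGroup p E
  hEc : ∀ a ∈ E, ∀ b ∈ E, a * b = b * a
  hEfull : ∀ x ∈ Subgroup.centralizer (E : Set G), (∃ j : ℕ, x ^ p ^ j = 1) → x ∈ E
  hloc : ∀ T : Subgroup G, IsPGroup p T → T ≠ ⊥ →
    IsPConstrained p ↥(Subgroup.normalizer (T : Set G))
  hcase : p ≠ 2 ∨ ∀ S : Subgroup G, IsPGroup p S → E ≤ S → S ≤ Subgroup.normalizer (E : Set G)

/-- Under `TTHyp`, every `E`-invariant `p'`-subgroup of a `p`-local subgroup `N_G(T)` containing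
`E` lies in `O_{p'}(N_G(T))`. -/
theorem TTHyp.inv_le {E : Subgroup G} (h : TTHyp p E) {T K : Subgroup G} (hT : IsPGroup p T)
    (hT1 : T ≠ ⊥) (hET : E ≤ Subgroup.normalizer (T : Set G))
    (hKT : K ≤ Subgroup.normalizer (T : Set G)) (hK : (Nat.card K).Coprime p)
    (hEK : E ≤ Subgroup.normalizer (K : Set G)) :
    K ≤ pPrimeCoreOf p (Subgroup.normalizer (T : Set G)) := by
  apply inv_le_pPrimeCoreOf (h.hloc T hT hT1) hET hKT h.hEp h.hEfull hK hEK
  rcases h.hcase with hp2 | hnorm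
  · exact Or.inl hp2
  · exact Or.inr ⟨h.hEc, hnorm⟩

/-- Under `TTHyp` (with `E ≠ 1`), `p'`-subgroups centralizing `E` lie in `O_{p'}(C_G(E))`. -/
theorem TTHyp.centralizer_le {E : Subgroup G} (h : TTHyp p E) (hE1 : E ≠ ⊥) {K : Subgroup G}
    (hK : (Nat.card K).Coprime p) (hKE : K ≤ Subgroup.centralizer (E : Set G)) :
    K ≤ piCoreOf (primesNotDvd p) (Subgroup.centralizer (E : Set G)) := by
  have hp := (Fact.out : p.Prime)
  have hCN : Subgroup.centralizer (E : Set G) ≤ Subgroup.normalizer (E : Set G) :=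
    Subgroup.centralizer_le_normalizer _
  have hEK : E ≤ Subgroup.normalizer (K : Set G) := by
    rw [Subgroup.le_normalizer_iff]
    intro e he k hk
    have h1 : e * k = k * e := Subgroup.mem_centralizer_iff.mp (hKE hk) e he
    have h2 : e * k * e⁻¹ = k := by rw [h1]; group
    rw [h2]; exact hk
  have h1 := h.inv_le h.hEp hE1 Subgroup.le_normalizer (hKE.trans hCN) hK hEK
  have h2 : K ≤ pPrimeCoreOf p (Subgroup.normalizer (E : Set G)) ⊓ Subgroup.centralizer (E : Set G) :=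
    le_inf h1 hKE
  refine h2.trans (le_piCoreOf _ inf_le_right ?_ ?_)
  · refine le_trans ?_ Subgroup.inf_normalizer_le_normalizer_inf
    exact le_inf (hCN.trans (le_normalizer_pPrimeCoreOf _)) Subgroup.le_normalizer
  · intro r hr hdvd
    refine ⟨hr, fun hrp => ?_⟩
    have hrp' : r = p := (Nat.prime_dvd_prime_iff_eq hr hp).mp hrp
    subst hrp'
    have h3 : r ∣ Nat.card (pPrimeCoreOf r (Subgroup.normalizer (E : Set G))) :=
      hdvd.trans (Subgroup.card_dvd_of_le inf_le_left)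
    have h4 := Nat.Coprime.eq_one_of_dvd (pPrimeCoreOf_coprime (p := r) _).symm h3
    exact hr.one_lt.ne' h4

/-- **Thompson transitivity theorem**, induction form. -/
theorem thompson_trans_aux {E : Subgroup G} (h : TTHyp p E) {A₀ : Subgroup G} (hA₀E : A₀ ≤ E)
    (hA₀ : IsElementaryAbelian p A₀) (hA₀3 : p ^ 3 ≤ Nat.card A₀) {q : ℕ} [Fact q.Prime]
    (hqp : q ≠ p) :
    ∀ (n : ℕ) (Q₁ Q₂ : Subgroup G), Q₁ ∈ maxInvSubgroups ⊤ E {q} → Q₂ ∈ maxInvSubgroups ⊤ E {q} →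
      Nat.card G - Nat.card ↥(Q₁ ⊓ Q₂) ≤ n →
      ∃ k ∈ piCoreOf (primesNotDvd p) (Subgroup.centralizer (E : Set G)), Q₂ = cj k Q₁ := by
  have hp := (Fact.out : p.Prime)
  have hsol : Group.IsSolvable E :=
    Group.isSolvable_of_comm (fun a b => Subtype.ext (h.hEc a a.2 b b.2))
  have hE1 : E ≠ ⊥ := by
    intro hE
    have h1 : Nat.card A₀ = 1 := by
      have : A₀ = ⊥ := le_bot_iff.mp (hE ▸ hA₀E)
      rw [this]; exact Subgroup.card_bot
    have h2 : 1 < p ^ 3 := Nat.one_lt_pow (by norm_num) hp.one_lt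
    omega
  intro n
  induction n with
  | zero =>
    intro Q₁ Q₂ h₁ h₂ hn
    have h1 : Nat.card G ≤ Nat.card ↥(Q₁ ⊓ Q₂) := by omega
    have h2 : Q₁ ⊓ Q₂ = ⊤ := Subgroup.eq_top_of_le_card _ h1
    have h3 : Q₁ = ⊤ := top_le_iff.mp (h2 ▸ inf_le_left)
    have h4 : Q₂ = ⊤ := top_le_iff.mp (h2 ▸ inf_le_right)
    exact ⟨1, Subgroup.one_mem _, by rw [cj_one, h3, h4]⟩
  | succ n ih =>
    intro Q₁ Q₂ h₁ h₂ hn
    by_cases heq : Q₁ = Q₂
    · exact ⟨1, Subgroup.one_mem _, by rw [cj_one, heq]⟩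
    obtain ⟨D, hD⟩ : ∃ D : Subgroup G, D = Q₁ ⊓ Q₂ := ⟨_, rfl⟩
    have hDQ₁ : D ≤ Q₁ := hD ▸ inf_le_left
    have hDQ₂ : D ≤ Q₂ := hD ▸ inf_le_right
    have hD₁ : Q₁ ⊓ Q₂ ≠ Q₁ := by
      intro h'
      exact heq (h₁.2 Q₂ h₂.1 (inf_eq_left.mp h')).symm
    have hD₂ : Q₁ ⊓ Q₂ ≠ Q₂ := by
      intro h'
      exact heq (h₂.2 Q₁ h₁.1 (inf_eq_right.mp h'))
    have hQ₁q : IsPGroup q Q₁ := isPGroup_of_primes h₁.1.2.1
    have hQ₂q : IsPGroup q Q₂ := isPGroup_of_primes h₂.1.2.1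
    have hEQ₁ : E ≤ Subgroup.normalizer (Q₁ : Set G) := h₁.1.2.2
    have hEQ₂ : E ≤ Subgroup.normalizer (Q₂ : Set G) := h₂.1.2.2
    have hED : E ≤ Subgroup.normalizer (D : Set G) := by
      rw [hD]
      exact le_trans (le_inf hEQ₁ hEQ₂) Subgroup.inf_normalizer_le_normalizer_inf
    have hDq : IsPGroup q D := hQ₁q.to_le hDQ₁
    obtain ⟨a, haA, ha1, hN₁, hN₂⟩ := Cfsg.Agent.S1282.result p A₀ hA₀ hA₀3 q hqp Q₁ Q₂ hQ₁q hQ₂q
      (hA₀E.trans hEQ₁) (hA₀E.trans hEQ₂) hD₁ hD₂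
    rw [← hD] at hN₁ hN₂
    have haE : a ∈ E := hA₀E haA
    have hEa : ∀ e ∈ E, e * a = a * e := fun e he => h.hEc e he a haE
    -- the `p`-local `X = N_G(⟨a⟩)`
    have hTp : IsPGroup p (Subgroup.zpowers a) := h.hEp.to_le (by
      rw [Subgroup.zpowers_le]; exact haE)
    have hT1 : Subgroup.zpowers a ≠ ⊥ := by
      rw [Ne, Subgroup.zpowers_eq_bot]; exact ha1
    have hCX := centralizer_singleton_le_normalizer_zpowers a
    have hEC : E ≤ Subgroup.centralizer ({a} : Set G) := by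
      intro e he
      rw [Subgroup.mem_centralizer_iff]
      intro y hy
      rw [Set.mem_singleton_iff] at hy
      subst hy
      exact (hEa e he).symm
    have hEX : E ≤ Subgroup.normalizer ((Subgroup.zpowers a : Subgroup G) : Set G) := hEC.trans hCX
    obtain ⟨L, hL⟩ : ∃ L : Subgroup G, L = pPrimeCoreOf p (Subgroup.normalizer
      ((Subgroup.zpowers a : Subgroup G) : Set G)) := ⟨_, rfl⟩
    have hLcop : (Nat.card L).Coprime p := hL ▸ pPrimeCoreOf_coprime _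
    have hEL : E ≤ Subgroup.normalizer (L : Set G) := hL ▸ hEX.trans (le_normalizer_pPrimeCoreOf _)
    obtain ⟨M, hM⟩ : ∃ M : Subgroup G, M = L ⊓ Subgroup.normalizer (D : Set G) := ⟨_, rfl⟩
    have hML : M ≤ L := hM ▸ inf_le_left
    have hMD : M ≤ Subgroup.normalizer (D : Set G) := hM ▸ inf_le_right
    have hEM : E ≤ Subgroup.normalizer (M : Set G) := by
      rw [hM]
      exact le_trans (le_inf hEL (hED.trans Subgroup.le_normalizer))
        Subgroup.inf_normalizer_le_normalizer_inf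
    have hMcop : (Nat.card M).Coprime p :=
      Nat.Coprime.coprime_dvd_left (Subgroup.card_dvd_of_le hML) hLcop
    have hcop : (Nat.card E).Coprime (Nat.card M) := by
      obtain ⟨k, hk⟩ := IsPGroup.iff_card.mp h.hEp
      rw [hk]
      exact Nat.Coprime.pow_left _ hMcop.symm
    have hECa := le_normalizer_centralizer_singleton hEa
    -- the key claim for one maximal subgroup
    have claim : ∀ Q : Subgroup G, Q ∈ maxInvSubgroups ⊤ E {q} → D ≤ Q →
        ¬ (Subgroup.normalizer (D : Set G) ⊓ Q ⊓ Subgroup.centralizer ({a} : Set G) ≤ D) →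
        ∃ S R : Subgroup G, S ∈ sylSet q M ∧ E ≤ Subgroup.normalizer (S : Set G) ∧
          R ∈ maxInvSubgroups ⊤ E {q} ∧ D ⊔ S ≤ R ∧ ¬ S ≤ D ∧
          ∃ k ∈ piCoreOf (primesNotDvd p) (Subgroup.centralizer (E : Set G)), R = cj k Q := by
      intro Q hQ hDQ hN
      have hQq : IsPGroup q Q := isPGroup_of_primes hQ.1.2.1
      have hEQ : E ≤ Subgroup.normalizer (Q : Set G) := hQ.1.2.2
      have hNq : IsPGroup q (Subgroup.normalizer (D : Set G) ⊓ Q ⊓
          Subgroup.centralizer ({a} : Set G) : Subgroup G) :=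
        hQq.to_le (inf_le_left.trans inf_le_right)
      have hEN : E ≤ Subgroup.normalizer ((Subgroup.normalizer (D : Set G) ⊓ Q ⊓
          Subgroup.centralizer ({a} : Set G) : Subgroup G) : Set G) := by
        refine le_trans (le_inf ?_ hECa) Subgroup.inf_normalizer_le_normalizer_inf
        exact le_trans (le_inf (hED.trans Subgroup.le_normalizer) hEQ)
          Subgroup.inf_normalizer_le_normalizer_inf
      have hNL : Subgroup.normalizer (D : Set G) ⊓ Q ⊓ Subgroup.centralizer ({a} : Set G) ≤ L := by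
        rw [hL]
        exact h.inv_le hTp hT1 hEX (inf_le_right.trans hCX) (coprime_of_isPGroup_ne hqp hNq) hEN
      have hNM : Subgroup.normalizer (D : Set G) ⊓ Q ⊓ Subgroup.centralizer ({a} : Set G) ≤ M := by
        rw [hM]
        exact le_inf hNL (inf_le_left.trans inf_le_left)
      obtain ⟨S, hS, hES, hNS⟩ := exists_invariant_sylow_ge E M hEM hcop hsol hNq hNM hEN
      have hSq : IsPGroup q S := isPGroup_of_mem_sylSet hS
      have hSD : S ≤ Subgroup.normalizer (D : Set G) := hS.1.trans hMD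
      have hDSq : IsPGroup q (D ⊔ S : Subgroup G) := IsPGroup.to_sup_of_normal_left' hDq hSq hSD
      obtain ⟨R, hR, hDSR⟩ := exists_maxInv_ge (A := E) (π := {q})
        ⟨le_top, primes_of_isPGroup hDSq, le_normalizer_sup' hED hES⟩
      have hSnD : ¬ S ≤ D := fun hle => hN (hNS.trans hle)
      refine ⟨S, R, hS, hES, hR, hDSR, hSnD, ?_⟩
      obtain ⟨x, hx, hxD⟩ := SetLike.not_le_iff_exists.mp hN
      have hlt : Nat.card D < Nat.card ↥(Q ⊓ R) :=
        card_lt_of_le_of_not_mem (le_inf hDQ (le_sup_left.trans hDSR))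
          (⟨hx.1.2, hDSR (Subgroup.mem_sup_right (hNS hx))⟩ : x ∈ Q ⊓ R) hxD
      have hle := Subgroup.card_le_card_group (Q ⊓ R)
      exact ih Q R hQ hR (by rw [hD] at hlt; omega)
    obtain ⟨S₁, R₁, hS₁, hES₁, hR₁, hDS₁, hS₁D, k₁, hk₁, hk₁Q⟩ := claim Q₁ h₁ hDQ₁ hN₁
    obtain ⟨S₂, R₂, hS₂, hES₂, hR₂, hDS₂, hS₂D, k₂, hk₂, hk₂Q⟩ := claim Q₂ h₂ hDQ₂ hN₂
    obtain ⟨c, hcM, hcE, hcS⟩ := invariant_sylow_conj E M hEM hcop hsol hS₁ hS₂ hES₁ hES₂
    -- `c` lies in `O_{p'}(C_G(E))`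
    have hcK : c ∈ piCoreOf (primesNotDvd p) (Subgroup.centralizer (E : Set G)) := by
      have h1 : M ⊓ Subgroup.centralizer (E : Set G) ≤
          piCoreOf (primesNotDvd p) (Subgroup.centralizer (E : Set G)) :=
        h.centralizer_le hE1
          (Nat.Coprime.coprime_dvd_left (Subgroup.card_dvd_of_le inf_le_left) hMcop) inf_le_right
      exact h1 ⟨hcM, Subgroup.mem_centralizer_iff.mpr (fun e he => hcE e he)⟩
    have hcD : cj c D = D := cj_eq_self_iff.mpr (hMD hcM)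
    have hle₁ : D ⊔ S₂ ≤ cj c R₁ := by
      refine sup_le ?_ ?_
      · rw [← hcD]; exact cj_mono c (le_sup_left.trans hDS₁)
      · rw [← hcS]; exact cj_mono c (le_sup_right.trans hDS₁)
    obtain ⟨x, hxS, hxD⟩ := SetLike.not_le_iff_exists.mp hS₂D
    have hlt : Nat.card D < Nat.card ↥(cj c R₁ ⊓ R₂) :=
      card_lt_of_le_of_not_mem (le_inf (le_sup_left.trans hle₁) (le_sup_left.trans hDS₂))
        (⟨hle₁ (Subgroup.mem_sup_right hxS), hDS₂ (Subgroup.mem_sup_right hxS)⟩ :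
          x ∈ cj c R₁ ⊓ R₂) hxD
    have hle := Subgroup.card_le_card_group (cj c R₁ ⊓ R₂)
    obtain ⟨k₃, hk₃, hk₃Q⟩ := ih (cj c R₁) R₂ (cj_mem_maxInv hcE hR₁) hR₂
      (by rw [hD] at hlt; omega)
    refine ⟨k₂⁻¹ * k₃ * c * k₁, ?_, ?_⟩
    · exact Subgroup.mul_mem _ (Subgroup.mul_mem _ (Subgroup.mul_mem _ (Subgroup.inv_mem _ hk₂) hk₃)
        hcK) hk₁
    · rw [cj_mul, cj_mul, cj_mul, ← hk₁Q, ← hk₃Q, hk₂Q, cj_inv_cj]

/-- **Thompson transitivity theorem.** -/
theorem thompson_trans {E : Subgroup G} (h : TTHyp p E) {A₀ : Subgroup G} (hA₀E : A₀ ≤ E)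
    (hA₀ : IsElementaryAbelian p A₀) (hA₀3 : p ^ 3 ≤ Nat.card A₀) {q : ℕ} [Fact q.Prime]
    (hqp : q ≠ p) {Q₁ Q₂ : Subgroup G} (h₁ : Q₁ ∈ maxInvSubgroups ⊤ E {q})
    (h₂ : Q₂ ∈ maxInvSubgroups ⊤ E {q}) :
    ∃ k ∈ piCoreOf (primesNotDvd p) (Subgroup.centralizer (E : Set G)), Q₂ = cj k Q₁ :=
  thompson_trans_aux h hA₀E hA₀ hA₀3 hqp _ Q₁ Q₂ h₁ h₂ le_rfl

end Trans

end Cfsg.Agent.Lib.Helper32
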