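import Cfsg.Agent.Lib.Helper30.PLayer
import Cfsg.Agent.Lib.Helper32.ThTrans

set_option autoImplicit false
open Cfsg

namespace Cfsg.Agent.Lib.Helper32

/-- A finite solvable group is `p`-constrained. -/
theorem isPConstrained_of_isSolvable {H : Type*} [Group H] [Finite H] (hs : Group.IsSolvable H)
    (p : ℕ) [Fact p.Prime] : IsPConstrained p H := by
  apply Cfsg.Agent.Lib.Helper30.isPConstrained_of_layer_quotient p
  rw [Cfsg.Agent.Lib.Helper30.layer_eq_bot_iff]
  intro K hK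
  have h1 : Group.IsSolvable (H ⧸ pPrimeCore p H) := inferInstance
  have h2 : Group.IsSolvable K := inferInstance
  exact Cfsg.Agent.Lib.Helper30.comp_not_solvable hK h2

/-- If `B` is a self-centralizing normal subgroup of a Sylow `p`-subgroup `P` of `G`, then `B`
contains every `p`-element of `C_G(B)`. -/
theorem scn_full {G : Type*} [Group G] [Finite G] {p : ℕ} [Fact p.Prime] (P : Sylow p G)
    {B : Subgroup G} (hBP : B ≤ (P : Subgroup G))
    (hPB : (P : Subgroup G) ≤ Subgroup.normalizer (B : Set G))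
    (hBc : (P : Subgroup G) ⊓ Subgroup.centralizer (B : Set G) = B) :
    ∀ x ∈ Subgroup.centralizer (B : Set G), (∃ j : ℕ, x ^ p ^ j = 1) → x ∈ B := by
  intro x hx hxp
  have hBp : IsPGroup p B := P.2.to_le hBP
  have hzp : IsPGroup p (Subgroup.zpowers x) := by
    obtain ⟨j, hj⟩ := hxp
    rintro ⟨y, hy⟩
    obtain ⟨n, rfl⟩ := Subgroup.mem_zpowers_iff.mp hy
    refine ⟨j, Subtype.ext ?_⟩
    show (x ^ n) ^ p ^ j = 1
    rw [← zpow_natCast, ← zpow_mul, mul_comm, zpow_mul, zpow_natCast, hj, one_zpow]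
  have hxN : x ∈ Subgroup.normalizer (B : Set G) := Subgroup.centralizer_le_normalizer _ hx
  have hzN : Subgroup.zpowers x ≤ Subgroup.normalizer (B : Set G) := by
    rw [Subgroup.zpowers_le]; exact hxN
  have hSp : IsPGroup p (B ⊔ Subgroup.zpowers x : Subgroup G) :=
    IsPGroup.to_sup_of_normal_left' hBp hzp hzN
  have hSN : B ⊔ Subgroup.zpowers x ≤ Subgroup.normalizer (B : Set G) :=
    sup_le Subgroup.le_normalizer hzN
  -- `P` is a Sylow subgroup of `N_G(B)`
  obtain ⟨R, hR, hPR⟩ := exists_sylSet_ge P.2 hPB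
  have hRP : R = (P : Subgroup G) := P.is_maximal' (isPGroup_of_mem_sylSet hR) hPR
  rw [hRP] at hR
  obtain ⟨R', hR', hSR'⟩ := exists_sylSet_ge hSp hSN
  obtain ⟨n, hn, hnP⟩ := sylSet_conj hR hR'
  have hxR' : x ∈ cj n (P : Subgroup G) := by
    rw [hnP]; exact hSR' (Subgroup.mem_sup_right (Subgroup.mem_zpowers x))
  rw [mem_cj] at hxR'
  have hnB : ∀ b ∈ B, n * b * n⁻¹ ∈ B := fun b hb => (Subgroup.le_normalizer_iff.mp le_rfl) n hn b hb
  have hnB' : ∀ b ∈ B, n⁻¹ * b * n ∈ B := by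
    intro b hb
    have := (Subgroup.le_normalizer_iff.mp le_rfl) n⁻¹ (Subgroup.inv_mem _ hn) b hb
    simpa using this
  have hcen : n⁻¹ * x * n ∈ Subgroup.centralizer (B : Set G) := by
    rw [Subgroup.mem_centralizer_iff]
    intro b hb
    have h1 := Subgroup.mem_centralizer_iff.mp hx _ (hnB b hb)
    calc b * (n⁻¹ * x * n) = n⁻¹ * ((n * b * n⁻¹) * x) * n := by group
      _ = n⁻¹ * (x * (n * b * n⁻¹)) * n := by rw [h1]
      _ = n⁻¹ * x * n * b := by group
  have h2 : n⁻¹ * x * n ∈ B := by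
    rw [← hBc]; exact ⟨hxR', hcen⟩
  have h3 := hnB _ h2
  have h4 : n * (n⁻¹ * x * n) * n⁻¹ = x := by group
  rwa [h4] at h3

end Cfsg.Agent.Lib.Helper32
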