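import Cfsg.Agent.Lib.Helper32.Uniq1
import Cfsg.Agent.Lib.Helper34.Rank2c
import Cfsg.Agent.S0100
import Cfsg.Agent.S1894

set_option autoImplicit false

namespace Cfsg.Agent.Lib.Helper32

open Cfsg Cfsg.Agent.Lib.Helper34

universe u

section TypeLevel

variable {Λ : Type u} [Group Λ] [Finite Λ]

omit [Finite Λ] in
theorem pPrimePCore_normal32 (p : ℕ) : (pPrimePCore p Λ).Normal := by
  unfold pPrimePCore
  have h : (pCore p (Λ ⧸ pPrimeCore p Λ)).Normal := inferInstance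
  exact Subgroup.Normal.comap h _

omit [Finite Λ] in
theorem pPrimeCore_le_pPrimePCore32 (p : ℕ) : pPrimeCore p Λ ≤ pPrimePCore p Λ := by
  intro x hx
  show QuotientGroup.mk' (pPrimeCore p Λ) x ∈ pCore p _
  have h : QuotientGroup.mk' (pPrimeCore p Λ) x = 1 := (QuotientGroup.eq_one_iff x).mpr hx
  rw [h]; exact one_mem _

theorem relIndex_pPrimeCore_pPrimePCore (p : ℕ) [Fact p.Prime] :
    ∃ j : ℕ, (pPrimeCore p Λ).relIndex (pPrimePCore p Λ) = p ^ j := by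
  have e1 := Cfsg.Agent.Lib.Helper30.card_eq_card_mul_relIndex
    (pPrimeCore_le_pPrimePCore32 (Λ := Λ) p)
  have e2 : Nat.card (pPrimePCore p Λ) =
      Nat.card (pPrimeCore p Λ) * Nat.card (pCore p (Λ ⧸ pPrimeCore p Λ)) :=
    Cfsg.Agent.Lib.Helper30.card_comap_mk' (pPrimeCore p Λ) _
  obtain ⟨k, hk⟩ := IsPGroup.iff_card.mp
    (Cfsg.Agent.Lib.Helper30.pCore_isPGroup (G := Λ ⧸ pPrimeCore p Λ) p)
  refine ⟨k, ?_⟩
  rw [e1, hk] at e2
  exact Nat.eq_of_mul_eq_mul_left Nat.card_pos e2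

/-- Frattini: `G = O_{p'}(G) N_G(S ∩ O_{p',p}(G))`. -/
theorem core_sup_normalizer_inf (p : ℕ) [Fact p.Prime] (S : Sylow p Λ) :
    pPrimeCore p Λ ⊔
      Subgroup.normalizer (((S : Subgroup Λ) ⊓ pPrimePCore p Λ : Subgroup Λ) : Set Λ) = ⊤ := by
  have hN : (pPrimePCore p Λ).Normal := pPrimePCore_normal32 p
  set N := pPrimePCore p Λ with hNdef
  set D := (S : Subgroup Λ) ⊓ N with hD
  have hDp : IsPGroup p D := S.2.to_le inf_le_left
  have hnd : ¬ p ∣ D.relIndex N := not_dvd_relIndex_inf_normal p S N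
  have h1 := normalizer_sup_eq_top_of_relIndex p N D hDp inf_le_right hnd
  obtain ⟨j, hj⟩ := relIndex_pPrimeCore_pPrimePCore (Λ := Λ) p
  have h2 : N ≤ pPrimeCore p Λ ⊔ D := le_sup_of_relIndex p (pPrimeCore p Λ) N D hnd j hj
  rw [eq_top_iff, ← h1]
  apply sup_le
  · exact le_sup_right
  · refine h2.trans (sup_le le_sup_left ?_)
    exact (Subgroup.le_normalizer).trans le_sup_right

/-- a Sylow `p`-subgroup lies in every normal subgroup of index prime to `p` -/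
theorem sylow_le_of_index_coprime (p : ℕ) [Fact p.Prime] (S : Sylow p Λ) (N : Subgroup Λ)
    [N.Normal] (hN : (N.index).Coprime p) : (S : Subgroup Λ) ≤ N := by
  intro x hx
  rw [← QuotientGroup.eq_one_iff (N := N)]
  obtain ⟨k, hk⟩ := (S.2 ⟨x, hx⟩)
  have hk' : x ^ p ^ k = 1 := by simpa using congrArg Subtype.val hk
  have h5 : ((x : Λ ⧸ N)) ^ p ^ k = 1 := by rw [← QuotientGroup.mk_pow, hk']; rfl
  have h6 : orderOf (x : Λ ⧸ N) ∣ p ^ k := orderOf_dvd_of_pow_eq_one h5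
  have h7 : orderOf (x : Λ ⧸ N) ∣ N.index := by
    rw [Subgroup.index_eq_card]; exact orderOf_dvd_natCard _
  have h8 : orderOf (x : Λ ⧸ N) ∣ 1 := by
    have := Nat.dvd_gcd h6 h7
    rwa [Nat.Coprime.gcd_eq_one (Nat.Coprime.pow_left k hN.symm)] at this
  exact orderOf_eq_one_iff.mp (Nat.dvd_one.mp h8)

/-- `p`-length one for `p`-rank at most two (solvable, odd order). -/
theorem sylow_le_pPrimePCore_of_rank2 [Group.IsSolvable Λ] (hodd : Odd (Nat.card Λ)) (p : ℕ)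
    [Fact p.Prime] (hp : p ≠ 2) (hr : PRankLE p 2 Λ) (S : Sylow p Λ) :
    (S : Subgroup Λ) ≤ pPrimePCore p Λ := by
  obtain ⟨h1, h2⟩ := rank2_quotient_core hodd p hr hp
  have h3 := (npc_conclusions hodd p h1 h2).2.2.2.2.2
  have hN : (pPrimePCore p Λ).Normal := pPrimePCore_normal32 p
  exact sylow_le_of_index_coprime p S _ h3

/-- `p`-stability: an abelian normal subgroup of a Sylow `p`-subgroup lies in `O_{p',p}`. -/
theorem normal_abelian_le_pPrimePCore [Group.IsSolvable Λ] (hodd : Odd (Nat.card Λ)) (p : ℕ)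
    [Fact p.Prime] (hp : p ≠ 2) (S : Sylow p Λ) {A : Subgroup Λ} (hAS : A ≤ (S : Subgroup Λ))
    (hAc : ∀ a ∈ A, ∀ b ∈ A, a * b = b * a)
    (hSA : (S : Subgroup Λ) ≤ Subgroup.normalizer (A : Set Λ)) :
    A ≤ pPrimePCore p Λ := by
  set K := pPrimeCore p Λ with hK
  set π := QuotientGroup.mk' K with hπ
  have hπs : Function.Surjective π := QuotientGroup.mk'_surjective K
  set U := pCore p (Λ ⧸ K) with hU
  have hUn : U.Normal := inferInstance
  have hUp : IsPGroup p U := Cfsg.Agent.Lib.Helper30.pCore_isPGroup p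
  have hoddq : Odd (Nat.card (Λ ⧸ K)) :=
    Odd.of_dvd_nat hodd (Subgroup.card_quotient_dvd_card K)
  have hcent : Subgroup.centralizer (U : Set (Λ ⧸ K)) ≤ U :=
    solv_centralizer_pCore_le p (Cfsg.Agent.Lib.Helper30.pPrimeCore_quotient_eq_bot p)
  have hUS : U ≤ (S : Subgroup Λ).map π := by
    have := hUp.le_sylow_of_normal (S.mapSurjective hπs)
    rwa [Sylow.coe_mapSurjective] at this
  intro a ha
  show π a ∈ U
  have haS := hAS ha
  obtain ⟨k₀, hk₀⟩ := S.2 ⟨a, haS⟩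
  have hak : a ^ p ^ k₀ = 1 := by simpa using congrArg Subtype.val hk₀
  have hquad : ∀ x ∈ U, π a * (π a * x * (π a)⁻¹ * x⁻¹) = (π a * x * (π a)⁻¹ * x⁻¹) * π a := by
    intro x hx
    obtain ⟨u, hu, rfl⟩ := hUS hx
    have hc : a * u * a⁻¹ * u⁻¹ ∈ A := by
      have h1 : u * a⁻¹ * u⁻¹ ∈ A := (Subgroup.le_normalizer_iff.mp hSA) u hu a⁻¹ (A.inv_mem ha)
      have h2 : a * u * a⁻¹ * u⁻¹ = a * (u * a⁻¹ * u⁻¹) := by group
      rw [h2]; exact A.mul_mem ha h1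
    have h3 := hAc a ha _ hc
    have h4 := congrArg π h3
    simpa using h4
  have h5 := quad_mem_pCore hoddq p hp U hUp (π a) k₀ (by rw [← map_pow, hak, map_one]) hquad
  have hCp : IsPGroup p (Subgroup.centralizer (U : Set (Λ ⧸ K))) := hUp.to_le hcent
  exact comap_pCore_le p _ hCp (Subgroup.mem_comap.mpr h5)

end TypeLevel

section Rel

variable {G : Type u} [Group G] [Finite G]

/-- `O_{p',p}(X)` as a subgroup of `G`. -/
def pPrimePCoreOf (p : ℕ) (X : Subgroup G) : Subgroup G := (pPrimePCore p ↥X).map X.subtype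

omit [Finite G] in
theorem pPrimePCoreOf_le (p : ℕ) (X : Subgroup G) : pPrimePCoreOf p X ≤ X := by
  rintro x ⟨y, -, rfl⟩
  exact y.2

/-- Frattini, relative: `H = O_{p'}(H) N_H(P ∩ O_{p',p}(H))`. -/
theorem core_sup_normalizer_inf_rel {p : ℕ} [Fact p.Prime] {H P : Subgroup G}
    (hP : P ∈ sylSet p H) :
    H ≤ pPrimeCoreOf p H ⊔
      (H ⊓ Subgroup.normalizer ((P ⊓ pPrimePCoreOf p H : Subgroup G) : Set G)) := by
  obtain ⟨S, rfl⟩ := exists_sylow_of_mem_sylSet hP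
  have key := core_sup_normalizer_inf p S
  intro x hx
  have hx' : (⟨x, hx⟩ : ↥H) ∈ pPrimeCore p ↥H ⊔ Subgroup.normalizer
      (((S : Subgroup ↥H) ⊓ pPrimePCore p ↥H : Subgroup ↥H) : Set ↥H) := by
    rw [key]; trivial
  have h2 : x ∈ (pPrimeCore p ↥H ⊔ Subgroup.normalizer
      (((S : Subgroup ↥H) ⊓ pPrimePCore p ↥H : Subgroup ↥H) : Set ↥H)).map H.subtype :=
    ⟨⟨x, hx⟩, hx', rfl⟩
  rw [Subgroup.map_sup] at h2
  have hmapinf : ((S : Subgroup ↥H) ⊓ pPrimePCore p ↥H).map H.subtype =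
      (S : Subgroup ↥H).map H.subtype ⊓ pPrimePCoreOf p H :=
    Subgroup.map_inf_eq _ _ _ H.subtype_injective
  have h3 : (Subgroup.normalizer
      (((S : Subgroup ↥H) ⊓ pPrimePCore p ↥H : Subgroup ↥H) : Set ↥H)).map H.subtype ≤
      H ⊓ Subgroup.normalizer
        (((S : Subgroup ↥H).map H.subtype ⊓ pPrimePCoreOf p H : Subgroup G) : Set G) := by
    rintro _ ⟨y, hy, rfl⟩
    refine Subgroup.mem_inf.mpr ⟨y.2, ?_⟩
    rw [← hmapinf]
    exact mem_normalizer_map_subtype hy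
  exact (sup_le_sup (le_refl (pPrimeCoreOf p H)) h3) h2

/-- `p`-stability, relative form. -/
theorem normal_abelian_le_pPrimePCoreOf {p : ℕ} [Fact p.Prime] (hp : p ≠ 2) {H P A : Subgroup G}
    (hs : Group.IsSolvable ↥H) (hodd : Odd (Nat.card ↥H)) (hP : P ∈ sylSet p H) (hAP : A ≤ P)
    (hAc : ∀ a ∈ A, ∀ b ∈ A, a * b = b * a) (hPA : P ≤ Subgroup.normalizer (A : Set G)) :
    A ≤ pPrimePCoreOf p H := by
  obtain ⟨S, rfl⟩ := exists_sylow_of_mem_sylSet hP
  have hAH : A ≤ H := hAP.trans (by rintro x ⟨y, -, rfl⟩; exact y.2)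
  have key : A.subgroupOf H ≤ pPrimePCore p ↥H := by
    apply normal_abelian_le_pPrimePCore hodd p hp S
    · intro a ha
      rw [Subgroup.mem_subgroupOf] at ha
      obtain ⟨y, hy, hya⟩ := hAP ha
      have h1 : y = a := Subtype.ext hya
      rw [← h1]; exact hy
    · intro a ha b hb
      rw [Subgroup.mem_subgroupOf] at ha hb
      exact Subtype.ext (hAc _ ha _ hb)
    · rw [Subgroup.le_normalizer_iff]
      intro s hs a ha
      rw [Subgroup.mem_subgroupOf] at ha ⊢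
      exact (Subgroup.le_normalizer_iff.mp hPA) _ (Subgroup.mem_map_of_mem _ hs) _ ha
  intro a ha
  exact ⟨⟨a, hAH ha⟩, key (Subgroup.mem_subgroupOf.mpr ha), rfl⟩

/-- the `p`-rank of `H` is that of a Sylow `p`-subgroup -/
theorem prankLE_of_sylSet {p : ℕ} [Fact p.Prime] {H P : Subgroup G} (hP : P ∈ sylSet p H) (k : ℕ)
    (hr : PRankLE p k ↥P) : PRankLE p k ↥H := by
  intro E hEc hEp
  have hEpg : IsPGroup p E := fun g => ⟨1, by rw [pow_one]; exact Subtype.ext (hEp g.1 g.2)⟩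
  set E₁ := E.map H.subtype with hE₁
  have hE₁H : E₁ ≤ H := by rintro x ⟨y, -, rfl⟩; exact y.2
  have hE₁p : IsPGroup p E₁ := hEpg.map _
  obtain ⟨R, hR, hER⟩ := exists_sylSet_ge hE₁p hE₁H
  obtain ⟨n, hn, hnR⟩ := sylSet_conj hR hP
  have hle : cj n E₁ ≤ P := hnR ▸ cj_mono n hER
  have hcard : Nat.card ((cj n E₁).subgroupOf P) = Nat.card E := by
    rw [Nat.card_congr (Subgroup.subgroupOfEquivOfLe hle).toEquiv, card_cj]
    exact Cfsg.Agent.Lib.Helper30.card_map_subtype E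
  rw [← hcard]
  apply hr
  · refine ⟨⟨?_⟩⟩
    rintro ⟨a, ha⟩ ⟨b, hb⟩
    rw [Subgroup.mem_subgroupOf] at ha hb
    obtain ⟨x, ⟨x', hx', rfl⟩, hxa⟩ := ha
    obtain ⟨y, ⟨y', hy', rfl⟩, hyb⟩ := hb
    apply Subtype.ext; apply Subtype.ext
    show (a : G) * (b : G) = (b : G) * (a : G)
    rw [← hxa, ← hyb]
    have hcomm : x' * y' = y' * x' := congrArg Subtype.val (hEc.is_comm.comm ⟨x', hx'⟩ ⟨y', hy'⟩)
    rw [← map_mul, ← map_mul, ← map_mul, ← map_mul, hcomm]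
  · intro a ha
    rw [Subgroup.mem_subgroupOf] at ha
    obtain ⟨x, ⟨x', hx', rfl⟩, hxa⟩ := ha
    apply Subtype.ext
    show (a : G) ^ p = 1
    rw [← hxa, ← map_pow, ← map_pow, hEp x' hx', map_one, map_one]

/-- rank at most two: a Sylow `p`-subgroup of `H` lies in `O_{p',p}(H)`. -/
theorem sylow_le_pPrimePCoreOf_of_rank2 {p : ℕ} [Fact p.Prime] (hp : p ≠ 2) {H P : Subgroup G}
    (hs : Group.IsSolvable ↥H) (hodd : Odd (Nat.card ↥H)) (hP : P ∈ sylSet p H)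
    (hr : PRankLE p 2 ↥P) : P ≤ pPrimePCoreOf p H := by
  have hrH := prankLE_of_sylSet hP 2 hr
  obtain ⟨S, rfl⟩ := exists_sylow_of_mem_sylSet hP
  exact Subgroup.map_mono (sylow_le_pPrimePCore_of_rank2 hodd p hp hrH S)

end Rel

end Cfsg.Agent.Lib.Helper32
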