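import Cfsg.Agent.Lib.Helper32.Uniq2
import Cfsg.Agent.Lib.Helper32.Trans3

set_option autoImplicit false

namespace Cfsg.Agent.Lib.Helper32

open Cfsg Cfsg.Agent.Lib.Helper34

universe u

section Uniq3

variable {G : Type u} [Group G] [Finite G]

omit [Finite G] in
theorem not_prankLE_of_le {p k : ℕ} {A E : Subgroup G} (hEA : E ≤ A)
    (hEc : ∀ a ∈ E, ∀ b ∈ E, a * b = b * a) (hEp : ∀ a ∈ E, a ^ p = 1)
    (hcard : p ^ k < Nat.card E) : ¬ PRankLE p k ↥A := by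
  intro h
  have h1 := h (E.subgroupOf A) ⟨⟨?_⟩⟩ ?_
  · rw [Nat.card_congr (Subgroup.subgroupOfEquivOfLe hEA).toEquiv] at h1; omega
  · rintro ⟨a, ha⟩ ⟨b, hb⟩
    rw [Subgroup.mem_subgroupOf] at ha hb
    exact Subtype.ext (Subtype.ext (hEc _ ha _ hb))
  · intro a ha
    rw [Subgroup.mem_subgroupOf] at ha
    exact Subtype.ext (hEp _ ha)

omit [Finite G] in
theorem exists_of_not_prankLE {p k : ℕ} {A : Subgroup G} (h : ¬ PRankLE p k ↥A) :
    ∃ E : Subgroup G, E ≤ A ∧ (∀ a ∈ E, ∀ b ∈ E, a * b = b * a) ∧ (∀ a ∈ E, a ^ p = 1) ∧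
      p ^ k < Nat.card E := by
  unfold PRankLE at h
  push Not at h
  obtain ⟨E', hE'c, hE'p, hE'card⟩ := h
  refine ⟨E'.map A.subtype, ?_, ?_, ?_, ?_⟩
  · rintro x ⟨y, -, rfl⟩
    exact y.2
  · rintro _ ⟨a, ha, rfl⟩ _ ⟨b, hb, rfl⟩
    exact congrArg (fun z : ↥E' => ((z : ↥A) : G)) (hE'c.is_comm.comm ⟨a, ha⟩ ⟨b, hb⟩)
  · rintro _ ⟨a, ha, rfl⟩
    have h1 := congrArg (fun z : ↥A => (z : G)) (hE'p a ha)
    simpa using h1
  · rw [Cfsg.Agent.Lib.Helper30.card_map_subtype]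
    exact hE'card

/-- a `p`-group is a proper subgroup of a minimal simple group -/
theorem minSimple_pgroup_ne_top (hG : IsMinSimpleOddOrder G) {p : ℕ} [Fact p.Prime]
    {T : Subgroup G} (hT : IsPGroup p T) : T ≠ ⊤ := by
  intro h
  have hGp : IsPGroup p G := by
    intro g
    obtain ⟨k, hk⟩ := hT ⟨g, h ▸ Subgroup.mem_top g⟩
    exact ⟨k, by simpa using congrArg Subtype.val hk⟩
  have hs : IsSimpleGroup G := hG.2.1
  have hnt : Nontrivial G := hs.toNontrivial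
  have hc := hGp.bot_lt_center
  have hcn : (Subgroup.center G).Normal := inferInstance
  rcases hcn.eq_bot_or_eq_top with h1 | h1
  · exact (ne_of_gt hc) h1
  · exact hG.2.2.1 (Subgroup.center_eq_top_iff.mp h1)

/-- `SCN_3(P)` is nonempty for a `p`-group `P` of rank at least three (`p` odd). -/
theorem exists_scn3 {p : ℕ} [Fact p.Prime] (hp : p ≠ 2) {P : Subgroup G} (hP : IsPGroup p P)
    (hr : ¬ PRankLE p 2 ↥P) : ∃ A : Subgroup G, IsSCN P A ∧ ¬ PRankLE p 2 ↥A := by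
  have h1 : ∃ A₀ : Subgroup ↥P, A₀.Normal ∧ IsMulCommutative A₀ ∧ (∀ a ∈ A₀, a ^ p = 1) ∧
      Nat.card A₀ = p ^ 3 := by
    by_contra hcon
    push Not at hcon
    apply hr
    intro E hE hEe
    exact Cfsg.Agent.S0100.result hp hP
      (fun A hAn hAc hAe hcard => hcon A hAn hAc hAe hcard) E hE hEe
  obtain ⟨A₀, hA₀n, hA₀c, hA₀e, hA₀card⟩ := h1
  obtain ⟨C, hCn, hA₀C, hC1, hC2, hC3⟩ :=
    Cfsg.Agent.S1894.result hP (⊤ : Subgroup ↥P) A₀ le_top hA₀c
  refine ⟨C.map P.subtype, ⟨?_, ?_, ?_⟩, ?_⟩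
  · rintro x ⟨y, -, rfl⟩; exact y.2
  · exact le_normalizer_map_subtype P C
  · ext x
    constructor
    · intro hx
      obtain ⟨hxP, hxC⟩ := Subgroup.mem_inf.mp hx
      refine ⟨⟨x, hxP⟩, ?_, rfl⟩
      rw [← hC3]
      refine Subgroup.mem_inf.mpr ⟨Subgroup.mem_top _, ?_⟩
      rw [Subgroup.mem_centralizer_iff]
      intro c hc
      apply Subtype.ext
      exact Subgroup.mem_centralizer_iff.mp hxC _ (Subgroup.mem_map_of_mem _ hc)
    · rintro ⟨y, hy, rfl⟩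
      refine Subgroup.mem_inf.mpr ⟨y.2, ?_⟩
      rw [Subgroup.mem_centralizer_iff]
      rintro _ ⟨c, hc, rfl⟩
      have hyc : y ∈ Subgroup.centralizer (C : Set ↥P) := by
        have h2 : y ∈ (⊤ : Subgroup ↥P) ⊓ Subgroup.centralizer (C : Set ↥P) := by
          rw [hC3]; exact hy
        exact (Subgroup.mem_inf.mp h2).2
      exact congrArg Subtype.val (Subgroup.mem_centralizer_iff.mp hyc c hc)
  · apply not_prankLE_of_le (E := A₀.map P.subtype) (Subgroup.map_mono hA₀C)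
    · rintro _ ⟨a, ha, rfl⟩ _ ⟨b, hb, rfl⟩
      have h2 : a * b = b * a := congrArg Subtype.val (hA₀c.is_comm.comm ⟨a, ha⟩ ⟨b, hb⟩)
      exact congrArg Subtype.val h2
    · rintro _ ⟨a, ha, rfl⟩
      have h2 := congrArg Subtype.val (hA₀e a ha)
      simpa using h2
    · rw [Cfsg.Agent.Lib.Helper30.card_map_subtype, hA₀card]
      exact Nat.pow_lt_pow_right (Fact.out : p.Prime).one_lt (by norm_num)

/-- a subgroup containing a Sylow `q`-subgroup of `Y` for every prime `q` contains `Y` -/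
theorem le_of_sylSet_le {Y K : Subgroup G}
    (h : ∀ q : ℕ, q.Prime → ∃ S ∈ sylSet q Y, S ≤ K) : Y ≤ K := by
  have hdvd : Nat.card Y ∣ Nat.card ↥(K ⊓ Y) := by
    rw [← Nat.factorization_le_iff_dvd Nat.card_pos.ne' Nat.card_pos.ne']
    intro q
    by_cases hq : q.Prime
    · obtain ⟨S, hS, hSK⟩ := h q hq
      have h1 : Nat.card S ∣ Nat.card ↥(K ⊓ Y) := Subgroup.card_dvd_of_le (le_inf hSK hS.1)
      rw [hS.2] at h1
      exact (hq.pow_dvd_iff_le_factorization Nat.card_pos.ne').mp h1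
    · rw [Nat.factorization_eq_zero_of_not_prime _ hq]
      exact Nat.zero_le _
  have hle : Nat.card Y ≤ Nat.card ↥(K ⊓ Y) := Nat.le_of_dvd Nat.card_pos hdvd
  have heq : K ⊓ Y = Y := Subgroup.eq_of_le_of_card_ge inf_le_right hle
  rw [← heq]
  exact inf_le_left

end Uniq3

end Cfsg.Agent.Lib.Helper32
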