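import Cfsg.Agent.Lib.Helper32.Uniq3

set_option autoImplicit false

namespace Cfsg.Agent.Lib.Helper32

open Cfsg Cfsg.Agent.Lib.Helper34

universe u

section Uniq4

variable {G : Type u} [Group G] [Finite G]

omit [Finite G] in
theorem le_normalizer_cj_of_mem_normalizer {A Y : Subgroup G} {g : G}
    (hg : g ∈ Subgroup.normalizer (A : Set G)) (h : A ≤ Subgroup.normalizer (Y : Set G)) :
    A ≤ Subgroup.normalizer (cj g Y : Set G) := by
  apply le_normalizer_of_cj_eq
  intro a ha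
  have ha' : g⁻¹ * a * g ∈ A := (Subgroup.mem_normalizer_iff''.mp hg a).mp ha
  have h1 : a * g = g * (g⁻¹ * a * g) := by group
  rw [← cj_mul, h1, cj_mul, cj_eq_self_of_le_normalizer h ha']

omit [Finite G] in
theorem scn_comm {P A : Subgroup G} (hA : IsSCN P A) : ∀ a ∈ A, ∀ b ∈ A, a * b = b * a := by
  intro a ha b hb
  have hb' : b ∈ P ⊓ Subgroup.centralizer (A : Set G) := by rw [hA.2.2]; exact hb
  exact Subgroup.mem_centralizer_iff.mp (Subgroup.mem_inf.mp hb').2 a ha

/-- If every `P`-invariant `p'`-subgroup lies in `K` (`P` a Sylow `p`-subgroup of `G`) and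
`A ∈ SCN_3(P)`, then every `A`-invariant `p'`-subgroup lies in `K` (via Thompson transitivity). -/
theorem inv_le_of_scn3 (hG : IsMinSimpleOddOrder G) {p : ℕ} [Fact p.Prime] (hp2 : p ≠ 2)
    {P A K : Subgroup G} (hP : P ∈ sylSet p ⊤) (hA : IsSCN P A) (hA3 : ¬ PRankLE p 2 ↥A)
    (hK : ∀ Y : Subgroup G, (Nat.card Y).Coprime p → P ≤ Subgroup.normalizer (Y : Set G) →
      Y ≤ K) :
    ∀ Y : Subgroup G, (Nat.card Y).Coprime p → A ≤ Subgroup.normalizer (Y : Set G) → Y ≤ K := by
  classical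
  have hp := (Fact.out : p.Prime)
  have hPp : IsPGroup p P := isPGroup_of_mem_sylSet hP
  have hAc := scn_comm hA
  obtain ⟨hAP, hPA, hAcent⟩ := hA
  have hAp : IsPGroup p A := hPp.to_le hAP
  have hcardP : Nat.card P = p ^ (Nat.card G).factorization p := by
    have := hP.2; rwa [Subgroup.card_top] at this
  have hfull : ∀ x ∈ Subgroup.centralizer (A : Set G), (∃ j : ℕ, x ^ p ^ j = 1) → x ∈ A :=
    scn_full (Sylow.ofCard P hcardP) hAP hPA hAcent
  have hloc : ∀ T : Subgroup G, IsPGroup p T → T ≠ ⊥ →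
      IsPConstrained p ↥(Subgroup.normalizer (T : Set G)) := by
    intro T hT hT1
    have hne := minSimple_normalizer_ne_top hG hT1 (minSimple_pgroup_ne_top hG hT)
    exact isPConstrained_of_isSolvable (minSimple_solvable hG hne) p
  have hTT : TTHyp p A := ⟨hAp, hAc, hfull, hloc, Or.inl hp2⟩
  obtain ⟨A₀, hA₀A, hA₀c, hA₀e, hA₀card⟩ := exists_of_not_prankLE hA3
  have hA₀ : IsElementaryAbelian p A₀ :=
    ⟨⟨⟨fun a b => Subtype.ext (hA₀c a.1 a.2 b.1 b.2)⟩⟩, hA₀e⟩
  have hA₀3 : p ^ 3 ≤ Nat.card A₀ := by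
    obtain ⟨m, hm⟩ := IsPGroup.iff_card.mp (hAp.to_le hA₀A)
    rw [hm] at hA₀card ⊢
    have := (Nat.pow_lt_pow_iff_right hp.one_lt).mp hA₀card
    exact Nat.pow_le_pow_right hp.pos (by omega)
  set C := piCoreOf (primesNotDvd p) (Subgroup.centralizer (A : Set G)) with hC
  have hPC : P ≤ Subgroup.normalizer (C : Set G) :=
    hPA.trans ((normalizer_le_normalizer_centralizer A).trans
      (normalizer_le_normalizer_piCoreOf _ _))
  have hCcop : (Nat.card C).Coprime p := by
    rw [Nat.coprime_comm, Nat.Prime.coprime_iff_not_dvd hp]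
    intro hd
    exact (piCoreOf_primes _ _ p hp hd).2 (dvd_refl p)
  have hCK : C ≤ K := hK C hCcop hPC
  have hCcent : ∀ y ∈ C, ∀ a ∈ A, a * y = y * a := by
    intro y hy a ha
    exact Subgroup.mem_centralizer_iff.mp (piCoreOf_le _ _ hy) a ha
  have hPsol : Group.IsSolvable ↥P := by
    have := hPp.isNilpotent
    infer_instance
  have hAsol : Group.IsSolvable ↥A := by
    have := hAp.isNilpotent
    infer_instance
  have hq : ∀ q : ℕ, q.Prime → q ≠ p → ∀ Q ∈ invSubgroups ⊤ A {q}, Q ≤ K := by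
    intro q hqp hne Q hQ
    have : Fact q.Prime := ⟨hqp⟩
    obtain ⟨Q₁, hQ₁, hQQ₁⟩ := exists_maxInv_ge hQ
    have hcop : (Nat.card P).Coprime (Nat.card C) := by
      obtain ⟨m, hm⟩ := IsPGroup.iff_card.mp hPp
      rw [hm]; exact Nat.Coprime.pow_left m hCcop.symm
    obtain ⟨⟨Q₀, hQ₀, hfix⟩, -⟩ := glauberman_aux (Ω := Subgroup G) cj cj_one cj_mul
      (Nat.card P) P C (maxInvSubgroups ⊤ A {q}) le_rfl hPC hcop hPsol
      (fun a ha t ht => cj_mem_maxInv_of_normalizer (hPA ha) ht)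
      (fun y hy t ht => cj_mem_maxInv (hCcent y hy) ht)
      (fun s hs t ht => by
        obtain ⟨k, hk, hkt⟩ := thompson_trans hTT hA₀A hA₀ hA₀3 hne hs ht
        exact ⟨k, hk, hkt.symm⟩)
      ⟨Q₁, hQ₁⟩
    have hQ₀K : Q₀ ≤ K := by
      apply hK
      · exact coprime_of_isPGroup_ne hne (isPGroup_of_primes hQ₀.1.2.1)
      · exact le_normalizer_of_cj_eq hfix
    obtain ⟨k, hk, hkt⟩ := thompson_trans hTT hA₀A hA₀ hA₀3 hne hQ₀ hQ₁
    rw [hkt] at hQQ₁
    exact hQQ₁.trans (cj_le_of_mem (hCK hk) hQ₀K)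
  intro Y hY hAY
  apply le_of_sylSet_le
  intro q hqp
  have : Fact q.Prime := ⟨hqp⟩
  have hcopAY : (Nat.card A).Coprime (Nat.card Y) := by
    obtain ⟨m, hm⟩ := IsPGroup.iff_card.mp hAp
    rw [hm]; exact Nat.Coprime.pow_left m hY.symm
  obtain ⟨S, hS, hAS⟩ := exists_invariant_sylow (q := q) A Y hAY hcopAY hAsol
  refine ⟨S, hS, ?_⟩
  by_cases hqp' : q = p
  · subst hqp'
    have h1 : Nat.card S = 1 := by
      rw [hS.2, Nat.factorization_eq_zero_of_not_dvd, pow_zero]
      exact (Nat.Prime.coprime_iff_not_dvd hp).mp hY.symm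
    rw [Subgroup.card_eq_one.mp h1]
    exact bot_le
  · apply hq q hqp hqp' S
    exact ⟨le_top, primes_of_isPGroup (isPGroup_of_mem_sylSet hS), hAS⟩

/-- **B&G Theorem 9.1**, in the form (b): a nontrivial `p`-subgroup `B` of a maximal subgroup
`M` all of whose invariant `p'`-subgroups lie in `M` lies in no other maximal subgroup. -/
theorem uniq_of_inv (hG : IsMinSimpleOddOrder G) {M : Subgroup G} (hM : IsCoatom M) {p : ℕ}
    [Fact p.Prime] {B : Subgroup G} (hBM : B ≤ M) (hBp : IsPGroup p B) (hB1 : B ≠ ⊥)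
    (hb : ∀ Y : Subgroup G, (Nat.card Y).Coprime p → B ≤ Subgroup.normalizer (Y : Set G) →
      Y ≤ M) :
    ∀ H : Subgroup G, IsCoatom H → B ≤ H → H = M := by
  classical
  have hp := (Fact.out : p.Prime)
  have hp2 : p ≠ 2 := by
    rintro rfl
    obtain ⟨m, hm⟩ := IsPGroup.iff_card.mp hBp
    have hodd : Odd (Nat.card B) := minSimple_odd_sub hG B
    rw [hm] at hodd
    rcases Nat.eq_zero_or_pos m with h0 | h0
    · apply hB1
      apply Subgroup.card_eq_one.mp
      rw [hm, h0, pow_zero]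
    · exact (Nat.not_even_iff_odd.mpr hodd) (even_iff_two_dvd.mpr (dvd_pow_self 2 h0.ne'))
  by_contra hcon
  push Not at hcon
  obtain ⟨H₀, hH₀c, hBH₀, hH₀M⟩ := hcon
  obtain ⟨H, ⟨hHc, hBH, hHM⟩, hmax⟩ := Set.exists_max_image
    {H : Subgroup G | IsCoatom H ∧ B ≤ H ∧ H ≠ M}
    (fun H => (Nat.card ↥(H ⊓ M)).factorization p) (Set.toFinite _) ⟨H₀, hH₀c, hBH₀, hH₀M⟩
  have hMs := minSimple_solvable hG hM.1
  have hHs := minSimple_solvable hG hHc.1
  have hModd := minSimple_odd_sub hG M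
  have hHodd := minSimple_odd_sub hG H
  obtain ⟨R, hR, hBR⟩ := exists_sylSet_ge hBp (le_inf hBH hBM)
  have hRp := isPGroup_of_mem_sylSet hR
  have hRM : R ≤ M := hR.1.trans inf_le_right
  have hRH : R ≤ H := hR.1.trans inf_le_left
  obtain ⟨P, hP, hRP⟩ := exists_sylSet_ge hRp hRM
  have hPp := isPGroup_of_mem_sylSet hP
  have hR1 : R ≠ ⊥ := fun h => hB1 (le_bot_iff.mp (h ▸ hBR))
  have hP1 : P ≠ ⊥ := fun h => hR1 (le_bot_iff.mp (h ▸ hRP))
  have hcoreH : pPrimeCoreOf p H ≤ M :=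
    hb _ (pPrimeCoreOf_coprime H) (hBH.trans (le_normalizer_pPrimeCoreOf H))
  by_cases hRP' : R = P
  · -- `P ≤ H`
    have hPH : P ≤ H := hRP' ▸ hRH
    have hBP : B ≤ P := hBR.trans hRP
    set K := pPrimeCoreOf p M with hK
    have hKM : K ≤ M := pPrimeCoreOf_le M
    have hMK : M ≤ Subgroup.normalizer (K : Set G) := le_normalizer_pPrimeCoreOf M
    have hKcop : (Nat.card K).Coprime p := pPrimeCoreOf_coprime M
    have hF1 : ∀ Y : Subgroup G, (Nat.card Y).Coprime p →
        P ≤ Subgroup.normalizer (Y : Set G) → Y ≤ K := by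
      intro Y hY hPY
      have hYM : Y ≤ M := hb Y hY (hBP.trans hPY)
      exact inv_le_pPrimeCoreOf_loc hp2 (isPConstrained_of_isSolvable hMs p) hP.1 hYM hPp
        (sylow_full hP) hY hPY
    have hNP : Subgroup.normalizer (P : Set G) ≤ M := by
      by_cases hK1 : K = ⊥
      · have h1 := le_normalizer_relZ_of_core_bot hp2 hMs hModd hK1 hP
        have h2 := normalizer_eq_of_coatom hG hM (relZ_ne_bot hPp hP1)
          ((relZ_le P).trans hP.1) h1
        exact (normalizer_le_normalizer_relZ P).trans h2.le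
      · have h2 := normalizer_eq_of_coatom hG hM hK1 hKM hMK
        intro g hg
        rw [← h2, ← cj_eq_self_iff]
        have hle : cj g K ≤ K :=
          hF1 _ (by rw [card_cj]; exact hKcop)
            (le_normalizer_cj_of_mem_normalizer hg (hP.1.trans hMK))
        exact Subgroup.eq_of_le_of_card_ge hle (by rw [card_cj])
    have hPsylH : P ∈ sylSet p H := mem_sylSet_of_normalizer_le hP hNP hPH
    have hPsylG : P ∈ sylSet p ⊤ := mem_sylSet_of_normalizer_le hP hNP le_top
    have hcoreHK : pPrimeCoreOf p H ≤ K :=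
      hF1 _ (pPrimeCoreOf_coprime H) (hPH.trans (le_normalizer_pPrimeCoreOf H))
    by_cases hK1 : K = ⊥
    · have hcoreH1 : pPrimeCoreOf p H = ⊥ := le_bot_iff.mp (hK1 ▸ hcoreHK)
      have h1 := le_normalizer_relZ_of_core_bot hp2 hMs hModd hK1 hP
      have h2 := normalizer_eq_of_coatom hG hM (relZ_ne_bot hPp hP1)
        ((relZ_le P).trans hP.1) h1
      have h3 := le_normalizer_relZ_of_core_bot hp2 hHs hHodd hcoreH1 hPsylH
      exact hHM (coatom_eq_of_le hHc hM (h2 ▸ h3))
    · have hNK := normalizer_eq_of_coatom hG hM hK1 hKM hMK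
      set T := P ⊓ pPrimePCoreOf p H with hT
      have hTinv : ∀ Y : Subgroup G, (Nat.card Y).Coprime p →
          T ≤ Subgroup.normalizer (Y : Set G) → Y ≤ K := by
        by_cases hr : PRankLE p 2 ↥P
        · have hPle := sylow_le_pPrimePCoreOf_of_rank2 hp2 hHs hHodd hPsylH hr
          have hTP : T = P := inf_eq_left.mpr hPle
          rw [hTP]; exact hF1
        · obtain ⟨A, hA, hA3⟩ := exists_scn3 hp2 hPp hr
          have hAT : A ≤ T := le_inf hA.1
            (normal_abelian_le_pPrimePCoreOf hp2 hHs hHodd hPsylH hA.1 (scn_comm hA) hA.2.1)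
          intro Y hY hTY
          exact inv_le_of_scn3 hG hp2 hPsylG hA hA3 hF1 Y hY (hAT.trans hTY)
      have hNT : Subgroup.normalizer (T : Set G) ≤ M := by
        intro g hg
        rw [← hNK, ← cj_eq_self_iff]
        have hTK : T ≤ Subgroup.normalizer (K : Set G) := (inf_le_left.trans hP.1).trans hMK
        have hle : cj g K ≤ K :=
          hTinv _ (by rw [card_cj]; exact hKcop) (le_normalizer_cj_of_mem_normalizer hg hTK)
        exact Subgroup.eq_of_le_of_card_ge hle (by rw [card_cj])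
      have hfact := core_sup_normalizer_inf_rel hPsylH
      have hHleM : H ≤ M :=
        hfact.trans (sup_le (hcoreHK.trans hKM) (inf_le_right.trans hNT))
      exact hHM (coatom_eq_of_le hHc hM hHleM)
  · -- `R < P`
    obtain ⟨x, hxP, hxR, hxN⟩ := exists_normalizing_not_mem hPp hRP hRP'
    set X := relZ R with hX
    have hX1 : X ≠ ⊥ := relZ_ne_bot hRp hR1
    have hXR : X ≤ R := relZ_le R
    have hXtop : X ≠ ⊤ := minSimple_pgroup_ne_top hG (hRp.to_le hXR)
    have hNtop := minSimple_normalizer_ne_top hG hX1 hXtop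
    obtain ⟨L, hLc, hNL⟩ := exists_coatom_ge hNtop
    have hNRX := normalizer_le_normalizer_relZ R
    have hLM : L = M := by
      by_contra hLM
      have hBL : B ≤ L := hBR.trans ((Subgroup.le_normalizer).trans (hNRX.trans hNL))
      have h1 : (Nat.card ↥(L ⊓ M)).factorization p ≤ (Nat.card ↥(H ⊓ M)).factorization p :=
        hmax L ⟨hLc, hBL, hLM⟩
      set Q := P ⊓ Subgroup.normalizer (R : Set G) with hQ
      have hQp : IsPGroup p Q := hPp.to_le inf_le_left
      have hQLM : Q ≤ L ⊓ M :=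
        le_inf (inf_le_right.trans (hNRX.trans hNL)) (inf_le_left.trans hP.1)
      have hRQ : R ≤ Q := le_inf hRP Subgroup.le_normalizer
      have hlt : Nat.card R < Nat.card Q :=
        card_lt_of_le_of_not_mem hRQ (Subgroup.mem_inf.mpr ⟨hxP, hxN⟩) hxR
      obtain ⟨m, hm⟩ := IsPGroup.iff_card.mp hQp
      have h2 : p ^ m ∣ Nat.card ↥(L ⊓ M) := hm ▸ Subgroup.card_dvd_of_le hQLM
      have h3 : m ≤ (Nat.card ↥(L ⊓ M)).factorization p :=
        (hp.pow_dvd_iff_le_factorization Nat.card_pos.ne').mp h2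
      rw [hR.2, hm] at hlt
      have h4 := (Nat.pow_lt_pow_iff_right hp.one_lt).mp hlt
      omega
    have hNM : Subgroup.normalizer (X : Set G) ≤ M := hLM ▸ hNL
    have hRsylH : R ∈ sylSet p H := by
      obtain ⟨S, hS, hRS⟩ := exists_sylSet_ge hRp hRH
      have hSp := isPGroup_of_mem_sylSet hS
      by_cases hne : R = S
      · rw [hne]; exact hS
      · exfalso
        obtain ⟨y, hyS, hyR, hyN⟩ := exists_normalizing_not_mem hSp hRS hne
        set Q := S ⊓ Subgroup.normalizer (R : Set G) with hQ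
        have hQp : IsPGroup p Q := hSp.to_le inf_le_left
        have hQHM : Q ≤ H ⊓ M :=
          le_inf (inf_le_left.trans hS.1) (inf_le_right.trans (hNRX.trans hNM))
        have hRQ : R ≤ Q := le_inf hRS Subgroup.le_normalizer
        have hQR : Q = R := sylSet_eq_of_le hR hQp hQHM hRQ
        exact hyR (hQR ▸ (Subgroup.mem_inf.mpr ⟨hyS, hyN⟩ : y ∈ Q))
    have hfact := puig_fact_rel hp2 hHs hHodd hRsylH
    have hHleM : H ≤ M := hfact.trans (sup_le hcoreH (inf_le_right.trans hNM))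
    exact hHM (coatom_eq_of_le hHc hM hHleM)

end Uniq4

end Cfsg.Agent.Lib.Helper32
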