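import Cfsg.Agent.Lib.Helper32.Uniq4
import Cfsg.Agent.Lib.Helper32.Trans2
import Cfsg.Agent.S0058

set_option autoImplicit false

namespace Cfsg.Agent.Lib.Helper32

open Cfsg Cfsg.Agent.Lib.Helper34

universe u

section Uniq5

variable {G : Type u} [Group G] [Finite G]

/-- `X` lies in no maximal subgroup other than `M`. -/
def UniqIn (M X : Subgroup G) : Prop := ∀ H : Subgroup G, IsCoatom H → X ≤ H → H = M

omit [Finite G] in
theorem UniqIn.mono {M X Y : Subgroup G} (h : UniqIn M X) (hXY : X ≤ Y) : UniqIn M Y :=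
  fun H hH hYH => h H hH (hXY.trans hYH)

omit [Finite G] in
theorem inUniqueMaximal_of_uniqIn {M X : Subgroup G} (hM : IsCoatom M) (hXM : X ≤ M)
    (h : UniqIn M X) : InUniqueMaximal X :=
  ⟨M, ⟨hM, hXM⟩, fun H hH => h H hH.1 hH.2⟩

omit [Finite G] in
theorem uniqIn_of_inUniqueMaximal {X : Subgroup G} (h : InUniqueMaximal X) :
    ∃ M : Subgroup G, IsCoatom M ∧ X ≤ M ∧ UniqIn M X := by
  obtain ⟨M, ⟨hM, hXM⟩, huniq⟩ := h
  exact ⟨M, hM, hXM, fun H hH hXH => huniq H ⟨hH, hXH⟩⟩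

theorem not_isCyclic_of_elemAb {p : ℕ} [Fact p.Prime] {E : Subgroup G}
    (hEp : ∀ a ∈ E, a ^ p = 1) (hcard : p ^ 2 ≤ Nat.card E) : ¬ IsCyclic ↥E := by
  intro hc
  obtain ⟨g, hg⟩ := hc.exists_generator
  have h1 : orderOf g = Nat.card E := orderOf_eq_card_of_forall_mem_zpowers hg
  have h2 : g ^ p = 1 := Subtype.ext (hEp g.1 g.2)
  have h3 : orderOf g ∣ p := orderOf_dvd_of_pow_eq_one h2
  have h4 : Nat.card E ≤ p := h1 ▸ Nat.le_of_dvd (Fact.out : p.Prime).pos h3
  have h5 : p < p ^ 2 := by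
    have := (Fact.out : p.Prime).one_lt
    nlinarith
  omega

/-- **B&G Theorem 9.1(a)**. -/
theorem uniq_of_centralizers (hG : IsMinSimpleOddOrder G) {M : Subgroup G} (hM : IsCoatom M)
    {p : ℕ} [Fact p.Prime] {B : Subgroup G} (hBM : B ≤ M)
    (hBc : ∀ a ∈ B, ∀ b ∈ B, a * b = b * a) (hBe : ∀ a ∈ B, a ^ p = 1) (hBnc : ¬ IsCyclic ↥B)
    (h : ∀ b ∈ B, b ≠ 1 → Subgroup.centralizer ({b} : Set G) ≤ M) : UniqIn M B := by
  have hBp : IsPGroup p B := fun g => ⟨1, by rw [pow_one]; exact Subtype.ext (hBe g.1 g.2)⟩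
  have hB1 : B ≠ ⊥ := by
    rintro rfl
    exact hBnc inferInstance
  have hBcomm : IsMulCommutative ↥B := ⟨⟨fun a b => Subtype.ext (hBc a.1 a.2 b.1 b.2)⟩⟩
  have hb : ∀ Y : Subgroup G, (Nat.card Y).Coprime p → B ≤ Subgroup.normalizer (Y : Set G) →
      Y ≤ M := by
    intro Y hY hBY
    have hcop : (Nat.card B).Coprime (Nat.card Y) := by
      obtain ⟨m, hm⟩ := IsPGroup.iff_card.mp hBp
      rw [hm]; exact Nat.Coprime.pow_left m hY.symm
    have key := Cfsg.Agent.S0058.result B Y hBnc hBY hcop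
    rw [← key]
    apply iSup₂_le
    rintro a ⟨haB, ha1⟩
    exact inf_le_right.trans (h a haB ha1)
  exact uniq_of_inv hG hM hBM hBp hB1 hb

/-- the centralizer of a nonidentity element centralizing a subgroup of `𝒰` -/
theorem centralizer_le_of_uniqIn (hG : IsMinSimpleOddOrder G) {M L : Subgroup G}
    (hL : UniqIn M L) {x : G} (hx : x ∈ Subgroup.centralizer (L : Set G)) (hx1 : x ≠ 1) :
    Subgroup.centralizer ({x} : Set G) ≤ M := by
  have hne := minSimple_centralizer_singleton_ne_top hG hx1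
  obtain ⟨H, hH, hle⟩ := exists_coatom_ge hne
  have hLH : L ≤ H := by
    intro l hl
    apply hle
    rw [Subgroup.mem_centralizer_iff]
    intro y hy
    rw [Set.mem_singleton_iff] at hy
    rw [hy]
    exact (Subgroup.mem_centralizer_iff.mp hx l hl).symm
  rw [← hL H hH hLH]
  exact hle

omit [Finite G] in
theorem mem_centralizer_singleton_self (x : G) : x ∈ Subgroup.centralizer ({x} : Set G) := by
  rw [Subgroup.mem_centralizer_iff]
  intro y hy
  rw [Set.mem_singleton_iff] at hy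
  rw [hy]

/-- **B&G Corollary 9.2**, core: a noncyclic elementary abelian `p`-subgroup centralizing a
subgroup of `𝒰`. -/
theorem uniq_of_centralizing_rank2 (hG : IsMinSimpleOddOrder G) {M L E : Subgroup G}
    (hM : IsCoatom M) (hL : UniqIn M L) {p : ℕ} [Fact p.Prime]
    (hEL : E ≤ Subgroup.centralizer (L : Set G))
    (hEc : ∀ a ∈ E, ∀ b ∈ E, a * b = b * a) (hEe : ∀ a ∈ E, a ^ p = 1)
    (hcard : p ^ 2 ≤ Nat.card E) : E ≤ M ∧ UniqIn M E := by
  have hcent : ∀ b ∈ E, b ≠ 1 → Subgroup.centralizer ({b} : Set G) ≤ M :=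
    fun b hb hb1 => centralizer_le_of_uniqIn hG hL (hEL hb) hb1
  have hEM : E ≤ M := by
    intro e he
    by_cases he1 : e = 1
    · rw [he1]; exact one_mem _
    · exact hcent e he he1 (mem_centralizer_singleton_self e)
  exact ⟨hEM, uniq_of_centralizers hG hM hEM hEc hEe (not_isCyclic_of_elemAb hEe hcard) hcent⟩

/-- **B&G Corollary 9.2**. -/
theorem uniq_of_centralizing (hG : IsMinSimpleOddOrder G) {M L K : Subgroup G}
    (hM : IsCoatom M) (hL : UniqIn M L) (hK : K ≤ Subgroup.centralizer (L : Set G))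
    (hKr : ¬ RankLE 1 ↥K) : K ≤ M ∧ UniqIn M K := by
  obtain ⟨p, E, hp, hEK, hEc, hEe, hEcard⟩ := exists_elemAb_of_not_rankLE K 1 hKr
  have : Fact p.Prime := ⟨hp⟩
  have h1 := uniq_of_centralizing_rank2 hG hM hL (hEK.trans hK) hEc hEe (by rw [hEcard])
  refine ⟨?_, h1.2.mono hEK⟩
  intro x hx
  by_cases hx1 : x = 1
  · rw [hx1]; exact one_mem _
  · exact centralizer_le_of_uniqIn hG hL (hK hx) hx1 (mem_centralizer_singleton_self x)

end Uniq5

end Cfsg.Agent.Lib.Helper32
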