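import Cfsg.Agent.Lib.Helper32.Uniq5
import Cfsg.Agent.S1337
import Cfsg.Agent.S0126

set_option autoImplicit false

namespace Cfsg.Agent.Lib.Helper32

open Cfsg Cfsg.Agent.Lib.Helper34

universe u

section Uniq6

variable {G : Type u} [Group G] [Finite G]

omit [Finite G] in
theorem cj_top (g : G) : cj g (⊤ : Subgroup G) = ⊤ := by
  ext x; simp [mem_cj]

omit [Finite G] in
theorem isCoatom_cj (g : G) {M : Subgroup G} (hM : IsCoatom M) : IsCoatom (cj g M) := by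
  constructor
  · intro h
    apply hM.1
    have h1 := congrArg (cj g⁻¹) h
    rw [cj_inv_cj, cj_top] at h1
    exact h1
  · intro b hb
    have hle : M ≤ cj g⁻¹ b := by
      have := cj_mono g⁻¹ hb.le
      rwa [cj_inv_cj] at this
    have h1 : M < cj g⁻¹ b := by
      refine lt_of_le_of_ne hle ?_
      intro heq
      apply hb.ne
      rw [heq, cj_cj_inv]
    have h2 := hM.2 _ h1
    have h3 := congrArg (cj g) h2
    rw [cj_cj_inv, cj_top] at h3
    exact h3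

omit [Finite G] in
theorem UniqIn.conj {M X : Subgroup G} (h : UniqIn M X) (g : G) :
    UniqIn (cj g M) (cj g X) := by
  intro H hH hXH
  have h1 : X ≤ cj g⁻¹ H := by
    have := cj_mono g⁻¹ hXH
    rwa [cj_inv_cj] at this
  have h2 := h _ (isCoatom_cj g⁻¹ hH) h1
  rw [← h2, cj_cj_inv]

omit [Finite G] in
theorem cj_comm {E : Subgroup G} (g : G) (h : ∀ a ∈ E, ∀ b ∈ E, a * b = b * a) :
    ∀ a ∈ cj g E, ∀ b ∈ cj g E, a * b = b * a := by
  intro a ha b hb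
  rw [mem_cj] at ha hb
  have h1 := h _ ha _ hb
  calc a * b = g * ((g⁻¹ * a * g) * (g⁻¹ * b * g)) * g⁻¹ := by group
    _ = g * ((g⁻¹ * b * g) * (g⁻¹ * a * g)) * g⁻¹ := by rw [h1]
    _ = b * a := by group

omit [Finite G] in
theorem cj_exp {E : Subgroup G} (g : G) {p : ℕ} (h : ∀ a ∈ E, a ^ p = 1) :
    ∀ a ∈ cj g E, a ^ p = 1 := by
  intro a ha
  rw [mem_cj] at ha
  have h1 := h _ ha
  have h2 : a = g * (g⁻¹ * a * g) * g⁻¹ := by group
  rw [h2, conj_pow, h1]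
  group

/-- a normal elementary abelian subgroup of order `p ^ 2` in a `p`-group of rank `≥ 3` -/
theorem exists_normal_rank2 {p : ℕ} [Fact p.Prime] {S : Subgroup G} (hS : IsPGroup p S)
    (hr : ¬ PRankLE p 2 ↥S) :
    ∃ U : Subgroup G, U ≤ S ∧ S ≤ Subgroup.normalizer (U : Set G) ∧
      (∀ a ∈ U, ∀ b ∈ U, a * b = b * a) ∧ (∀ a ∈ U, a ^ p = 1) ∧ Nat.card U = p ^ 2 := by
  obtain ⟨U, hUn, hUe, hUc, -⟩ := Cfsg.Agent.S1337.result p hS hr
  refine ⟨U.map S.subtype, ?_, le_normalizer_map_subtype S U, ?_, ?_, ?_⟩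
  · rintro x ⟨y, -, rfl⟩; exact y.2
  · rintro _ ⟨a, ha, rfl⟩ _ ⟨b, hb, rfl⟩
    have h2 : a * b = b * a := congrArg Subtype.val (hUe.1.is_comm.comm ⟨a, ha⟩ ⟨b, hb⟩)
    exact congrArg Subtype.val h2
  · rintro _ ⟨a, ha, rfl⟩
    have h2 := congrArg Subtype.val (hUe.2 a ha)
    simpa using h2
  · rw [Cfsg.Agent.Lib.Helper30.card_map_subtype, hUc]

theorem card_inf_centralizer_ge_rel {p : ℕ} [Fact p.Prime] {S U E : Subgroup G}
    (hS : IsPGroup p S) (hUS : U ≤ S) (hSU : S ≤ Subgroup.normalizer (U : Set G))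
    (hUc : Nat.card U = p ^ 2) (hES : E ≤ S) (hEcard : p ^ 2 < Nat.card E) :
    p ^ 2 ≤ Nat.card ↥(E ⊓ Subgroup.centralizer (U : Set G)) := by
  have hUn : (U.subgroupOf S).Normal :=
    (Subgroup.normal_subgroupOf_iff_le_normalizer hUS).mpr hSU
  have hU' : Nat.card (U.subgroupOf S) = p ^ 2 := by
    rw [Nat.card_congr (Subgroup.subgroupOfEquivOfLe hUS).toEquiv]; exact hUc
  have hE' : p ^ 2 < Nat.card (E.subgroupOf S) := by
    rw [Nat.card_congr (Subgroup.subgroupOfEquivOfLe hES).toEquiv]; exact hEcard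
  have key := Cfsg.Agent.S1337.card_inf_centralizer_ge p hS hU' hE'
  have hle : (E.subgroupOf S ⊓ Subgroup.centralizer (U.subgroupOf S : Set ↥S)).map S.subtype ≤
      E ⊓ Subgroup.centralizer (U : Set G) := by
    rintro _ ⟨x, hx, rfl⟩
    obtain ⟨hxE, hxC⟩ := Subgroup.mem_inf.mp hx
    refine Subgroup.mem_inf.mpr ⟨Subgroup.mem_subgroupOf.mp hxE, ?_⟩
    rw [Subgroup.mem_centralizer_iff]
    intro u hu
    have h1 := Subgroup.mem_centralizer_iff.mp hxC ⟨u, hUS hu⟩ (Subgroup.mem_subgroupOf.mpr hu)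
    exact congrArg Subtype.val h1
  calc p ^ 2 ≤ Nat.card ↥(E.subgroupOf S ⊓ Subgroup.centralizer (U.subgroupOf S : Set ↥S)) := key
    _ = Nat.card ↥((E.subgroupOf S ⊓
          Subgroup.centralizer (U.subgroupOf S : Set ↥S)).map S.subtype) :=
        (Cfsg.Agent.Lib.Helper30.card_map_subtype _).symm
    _ ≤ Nat.card ↥(E ⊓ Subgroup.centralizer (U : Set G)) := Subgroup.card_le_of_le hle

/-- If `U ∈ 𝒰` is a normal subgroup of order `p ^ 2` of the `p`-group `S` and `E ≤ S` is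
elementary abelian of order `> p ^ 2`, then `C_E(U) ∈ 𝒰`. -/
theorem uniqIn_inf_centralizer (hG : IsMinSimpleOddOrder G) {M : Subgroup G} (hM : IsCoatom M)
    {p : ℕ} [Fact p.Prime] {S U E : Subgroup G} (hS : IsPGroup p S) (hUS : U ≤ S)
    (hSU : S ≤ Subgroup.normalizer (U : Set G)) (hUc : Nat.card U = p ^ 2)
    (hUU : UniqIn M U) (hES : E ≤ S) (hEc : ∀ a ∈ E, ∀ b ∈ E, a * b = b * a)
    (hEe : ∀ a ∈ E, a ^ p = 1) (hEcard : p ^ 2 < Nat.card E) :
    E ⊓ Subgroup.centralizer (U : Set G) ≤ M ∧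
      UniqIn M (E ⊓ Subgroup.centralizer (U : Set G)) := by
  have hYcard := card_inf_centralizer_ge_rel hS hUS hSU hUc hES hEcard
  exact uniq_of_centralizing_rank2 hG hM hUU inf_le_right
    (fun a ha b hb => hEc a ha.1 b hb.1) (fun a ha => hEe a ha.1) hYcard

/-- If the abelian `p`-subgroup `A ≤ S` of rank `≥ 3` is in `𝒰`, so is every normal
elementary abelian subgroup `U` of order `p ^ 2` of the `p`-group `S`. -/
theorem uniqIn_normal_rank2 (hG : IsMinSimpleOddOrder G) {M : Subgroup G} (hM : IsCoatom M)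
    {p : ℕ} [Fact p.Prime] {S U A : Subgroup G} (hS : IsPGroup p S) (hUS : U ≤ S)
    (hSU : S ≤ Subgroup.normalizer (U : Set G)) (hUcomm : ∀ a ∈ U, ∀ b ∈ U, a * b = b * a)
    (hUe : ∀ a ∈ U, a ^ p = 1) (hUc : Nat.card U = p ^ 2) (hAS : A ≤ S)
    (hAc : ∀ a ∈ A, ∀ b ∈ A, a * b = b * a) (hA3 : ¬ PRankLE p 2 ↥A) (hAU : UniqIn M A) :
    U ≤ M ∧ UniqIn M U := by
  obtain ⟨E, hEA, hEc, hEe, hEcard⟩ := exists_of_not_prankLE hA3
  have hYcard := card_inf_centralizer_ge_rel hS hUS hSU hUc (hEA.trans hAS) hEcard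
  have hYA : E ⊓ Subgroup.centralizer (U : Set G) ≤ Subgroup.centralizer (A : Set G) := by
    intro y hy
    rw [Subgroup.mem_centralizer_iff]
    intro a ha
    exact hAc a ha y (hEA hy.1)
  have hY := uniq_of_centralizing_rank2 hG hM hAU hYA
    (fun a ha b hb => hEc a ha.1 b hb.1) (fun a ha => hEe a ha.1) hYcard
  have hUY : U ≤ Subgroup.centralizer
      ((E ⊓ Subgroup.centralizer (U : Set G) : Subgroup G) : Set G) := by
    intro u hu
    rw [Subgroup.mem_centralizer_iff]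
    intro y hy
    exact (Subgroup.mem_centralizer_iff.mp hy.2 u hu).symm
  exact uniq_of_centralizing_rank2 hG hM hY.2 hUY hUcomm hUe (by rw [hUc])

theorem not_rankLE_one_of_not_cyclic {p : ℕ} [Fact p.Prime] (hp : p ≠ 2) {B : Subgroup G}
    (hB : IsPGroup p B) (hnc : ¬ IsCyclic ↥B) : ¬ RankLE 1 ↥B := by
  obtain ⟨A, hAn, hAe, hAc⟩ := Cfsg.Agent.S0126.result hp hB hnc
  intro h
  have h1 := h p Fact.out A hAe.1 hAe.2
  rw [hAc] at h1
  have h2 := (Fact.out : p.Prime).one_lt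
  nlinarith

/-- **B&G Corollary 9.3.** -/
theorem uniq_of_rank3_abelian (hG : IsMinSimpleOddOrder G) {p : ℕ} [Fact p.Prime]
    {A B : Subgroup G} (hAp : IsPGroup p A) (hAc : ∀ a ∈ A, ∀ b ∈ A, a * b = b * a)
    (hA3 : ¬ PRankLE p 2 ↥A) (hAU : InUniqueMaximal A) (hBp : IsPGroup p B)
    (hBnc : ¬ IsCyclic ↥B) (hB3 : ¬ PRankLE p 2 ↥(Subgroup.centralizer (B : Set G))) :
    InUniqueMaximal B := by
  classical
  have hp' := (Fact.out : p.Prime)
  obtain ⟨M, hM, hAM, hAU'⟩ := uniqIn_of_inUniqueMaximal hAU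
  have hp2 : p ≠ 2 := by
    rintro rfl
    obtain ⟨E, hEA, -, -, hEcard⟩ := exists_of_not_prankLE hA3
    obtain ⟨m, hm⟩ := IsPGroup.iff_card.mp (hAp.to_le hEA)
    have hodd := minSimple_odd_sub hG E
    rw [hm] at hodd hEcard
    rcases Nat.eq_zero_or_pos m with h0 | h0
    · rw [h0] at hEcard; norm_num at hEcard
    · exact (Nat.not_even_iff_odd.mpr hodd) (even_iff_two_dvd.mpr (dvd_pow_self 2 h0.ne'))
  obtain ⟨S, hS, hAS⟩ := exists_sylSet_ge hAp (le_top : A ≤ ⊤)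
  have hSp := isPGroup_of_mem_sylSet hS
  have hSr : ¬ PRankLE p 2 ↥S := by
    obtain ⟨E, hEA, hEc, hEe, hEcard⟩ := exists_of_not_prankLE hA3
    exact not_prankLE_of_le (hEA.trans hAS) hEc hEe hEcard
  obtain ⟨U, hUS, hSU, hUcomm, hUe, hUc⟩ := exists_normal_rank2 hSp hSr
  have hUU := (uniqIn_normal_rank2 hG hM hSp hUS hSU hUcomm hUe hUc hAS hAc hA3 hAU').2
  obtain ⟨E, hEC, hEc, hEe, hEcard⟩ := exists_of_not_prankLE hB3
  have hEp : IsPGroup p E := fun g => ⟨1, by rw [pow_one]; exact Subtype.ext (hEe g.1 g.2)⟩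
  have hEBp : IsPGroup p (B ⊔ E : Subgroup G) :=
    IsPGroup.to_sup_of_normal_left' hBp hEp (hEC.trans (Subgroup.centralizer_le_normalizer _))
  obtain ⟨S₂, hS₂, hle⟩ := exists_sylSet_ge hEBp (le_top : B ⊔ E ≤ ⊤)
  obtain ⟨n, -, hn⟩ := sylSet_conj hS₂ hS
  have hE'S : cj n E ≤ S := hn ▸ cj_mono n (le_sup_right.trans hle)
  have key := uniqIn_inf_centralizer hG hM hSp hUS hSU hUc hUU hE'S (cj_comm n hEc)
    (cj_exp n hEe) (by rw [card_cj]; exact hEcard)
  have h1 := key.2.conj n⁻¹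
  have hYE : cj n⁻¹ (cj n E ⊓ Subgroup.centralizer (U : Set G)) ≤ E := by
    have := cj_mono n⁻¹ (inf_le_left : cj n E ⊓ Subgroup.centralizer (U : Set G) ≤ cj n E)
    rwa [cj_inv_cj] at this
  have hBY : B ≤ Subgroup.centralizer
      ((cj n⁻¹ (cj n E ⊓ Subgroup.centralizer (U : Set G)) : Subgroup G) : Set G) := by
    intro b hb
    rw [Subgroup.mem_centralizer_iff]
    intro y hy
    exact (Subgroup.mem_centralizer_iff.mp (hEC (hYE hy)) b hb).symm
  have h2 := uniq_of_centralizing hG (isCoatom_cj n⁻¹ hM) h1 hBY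
    (not_rankLE_one_of_not_cyclic hp2 hBp hBnc)
  exact inUniqueMaximal_of_uniqIn (isCoatom_cj n⁻¹ hM) h2.1 h2.2

end Uniq6

end Cfsg.Agent.Lib.Helper32
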