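import Cfsg.Agent.Lib.Helper32.Uniq6
import Cfsg.Agent.Lib.Helper32.BnR3
import Cfsg.Agent.Lib.Helper32.BenderU2
import Cfsg.Agent.S1393

set_option autoImplicit false

namespace Cfsg.Agent.Lib.Helper32

open Cfsg Cfsg.Agent.Lib.Helper34

universe u

section Uniq7

variable {G : Type u} [Group G] [Finite G]

theorem exists_normalizing_not_mem_nilp {F D : Subgroup G} (hnil : Group.IsNilpotent ↥F)
    (hDF : D ≤ F) (hne : D ≠ F) :
    ∃ x ∈ F, x ∉ D ∧ x ∈ Subgroup.normalizer (D : Set G) := by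
  have hlt : D.subgroupOf F < ⊤ := by
    rw [lt_top_iff_ne_top, Ne, Subgroup.subgroupOf_eq_top]
    exact fun h => hne (le_antisymm hDF h)
  have hnc := Group.normalizerCondition_of_isNilpotent (G := F) _ hlt
  obtain ⟨x, hxN, hxD⟩ := SetLike.exists_of_lt hnc
  refine ⟨x.1, x.2, fun h => hxD (Subgroup.mem_subgroupOf.mpr h), ?_⟩
  rw [← Subgroup.subgroupOf_normalizer_eq hDF] at hxN
  exact Subgroup.mem_subgroupOf.mp hxN

omit [Finite G] in
theorem normalizer_eq_of_coatom' (hG : IsMinSimpleOddOrder G) {M D : Subgroup G}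
    (hM : IsCoatom M) (hD1 : D ≠ ⊥) (hDtop : D ≠ ⊤)
    (hMD : M ≤ Subgroup.normalizer (D : Set G)) : Subgroup.normalizer (D : Set G) = M := by
  have hne := minSimple_normalizer_ne_top hG hD1 hDtop
  exact (hM.le_iff_eq hne).mp hMD

/-- If `L ≤ F(M)` has a unique maximal invariant `q`-subgroup of `G` (`q ∤ #F(M)`), then `L`
normalizes no nontrivial `q`-subgroup. -/
theorem inv_trivial_of_unique (hG : IsMinSimpleOddOrder G) {M L : Subgroup G} (hM : IsCoatom M)
    (hL : L ≤ fittingOf M) {q : ℕ} [Fact q.Prime] (hq : ¬ q ∣ Nat.card (fittingOf M))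
    (huniq : ∀ Q₁ ∈ maxInvSubgroups ⊤ L {q}, ∀ Q₂ ∈ maxInvSubgroups ⊤ L {q}, Q₂ = Q₁) :
    ∀ Q ∈ invSubgroups ⊤ L {q}, Q = ⊥ := by
  intro Q hQ
  obtain ⟨Qs, hQs, hQQs⟩ := exists_maxInv_ge hQ
  have hall : ∀ R ∈ invSubgroups ⊤ L {q}, R ≤ Qs := by
    intro R hR
    obtain ⟨R', hR', hRR'⟩ := exists_maxInv_ge hR
    rw [huniq Qs hQs R' hR'] at hRR'
    exact hRR'
  have hQsq : IsPGroup q Qs := isPGroup_of_primes hQs.1.2.1
  have hstep : ∀ S : Subgroup G, L ≤ S → S ≤ Subgroup.normalizer (Qs : Set G) →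
      Subgroup.normalizer (S : Set G) ≤ Subgroup.normalizer (Qs : Set G) := by
    intro S hLS hSQ x hx
    rw [← cj_eq_self_iff]
    have h1 : cj x Qs ∈ invSubgroups ⊤ L {q} := by
      refine ⟨le_top, by rw [card_cj]; exact hQs.1.2.1, ?_⟩
      exact hLS.trans (le_normalizer_cj_of_mem_normalizer hx hSQ)
    exact Subgroup.eq_of_le_of_card_ge (hall _ h1) (by rw [card_cj])
  have hFQ : fittingOf M ≤ Subgroup.normalizer (Qs : Set G) := by
    have hLS₀ : L ≤ fittingOf M ⊓ Subgroup.normalizer (Qs : Set G) := le_inf hL hQs.1.2.2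
    by_contra hcon
    have hne : fittingOf M ⊓ Subgroup.normalizer (Qs : Set G) ≠ fittingOf M :=
      fun h => hcon (h ▸ inf_le_right)
    obtain ⟨x, hxF, hxS, hxN⟩ :=
      exists_normalizing_not_mem_nilp (isNilpotent_fittingOf M) inf_le_left hne
    exact hxS (Subgroup.mem_inf.mpr ⟨hxF, hstep _ hLS₀ inf_le_right hxN⟩)
  have hMQ : M ≤ Subgroup.normalizer (Qs : Set G) :=
    (le_normalizer_fittingOf M).trans (hstep _ hL hFQ)
  have hQs1 : Qs = ⊥ := by
    by_contra hne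
    have hNeq := normalizer_eq_of_coatom' hG hM hne (minSimple_pgroup_ne_top hG hQsq) hMQ
    have hQsM : Qs ≤ M := hNeq ▸ Subgroup.le_normalizer
    have hQsF : Qs ≤ fittingOf M :=
      (Bn.le_pCoreOf hQsM hMQ hQsq).trans (pCoreOf_le_fittingOf q M)
    obtain ⟨k, hk⟩ := IsPGroup.iff_card.mp hQsq
    have hdvd : Nat.card Qs ∣ Nat.card (fittingOf M) := Subgroup.card_dvd_of_le hQsF
    rcases Nat.eq_zero_or_pos k with h0 | h0
    · apply hne
      apply Subgroup.card_eq_one.mp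
      rw [hk, h0, pow_zero]
    · exact hq (dvd_trans (hk ▸ dvd_pow_self q h0.ne') hdvd)
  rw [hQs1] at hQQs
  exact le_bot_iff.mp hQQs

/-- Core of B&G Theorem 8.1: a subgroup `L` with `C_F(L) ≤ L ≤ F = F(M)` whose maximal invariant
`q`-subgroups are permuted transitively by a `π(F)'`-subgroup of `C_G(L)` normalizes no nontrivial
`π(F)'`-subgroup of `G`. -/
theorem inv_trivial_of_trans (hG : IsMinSimpleOddOrder G) {M L Ks : Subgroup G}
    (hM : IsCoatom M) (hL : L ≤ fittingOf M) (hL1 : L ≠ ⊥)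
    (hCL : fittingOf M ⊓ Subgroup.centralizer (L : Set G) ≤ L)
    (hKs : Ks ≤ Subgroup.centralizer (L : Set G))
    (hKscop : (Nat.card Ks).Coprime (Nat.card (fittingOf M)))
    (htrans : ∀ q : ℕ, q.Prime → ¬ q ∣ Nat.card (fittingOf M) →
      ∀ Q₁ ∈ maxInvSubgroups ⊤ L {q}, ∀ Q₂ ∈ maxInvSubgroups ⊤ L {q}, ∃ k ∈ Ks, Q₂ = cj k Q₁) :
    ∀ Y : Subgroup G, (Nat.card Y).Coprime (Nat.card (fittingOf M)) →
      L ≤ Subgroup.normalizer (Y : Set G) → Y = ⊥ := by
  have hMs := minSimple_solvable hG hM.1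
  have hsimple : IsSimpleGroup G := hG.2.1
  have hF1 : fittingOf M ≠ ⊥ := fun h => hL1 (le_bot_iff.mp (h ▸ hL))
  -- `C_G(L) ≤ M`
  have hCLM : Subgroup.centralizer (L : Set G) ≤ M := by
    have hcard : Nat.card (fittingOf M) ≠ 1 := fun h => hF1 (Subgroup.card_eq_one.mp h)
    obtain ⟨r, hr, hrd⟩ := Nat.exists_prime_and_dvd hcard
    have : Fact r.Prime := ⟨hr⟩
    have hZL : zOf r M ≤ L := by
      intro z hz
      apply hCL
      have hz' := zOf_le_center r M hz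
      refine Subgroup.mem_inf.mpr ⟨hz'.1, ?_⟩
      rw [Subgroup.mem_centralizer_iff]
      intro l hl
      exact Subgroup.mem_centralizer_iff.mp hz'.2 l (hL hl)
    have h1 : Subgroup.centralizer (L : Set G) ≤ Subgroup.centralizer (zOf r M : Set G) :=
      Subgroup.centralizer_le hZL
    exact h1.trans ((Subgroup.centralizer_le_normalizer _).trans
      (Cfsg.Agent.Lib.Helper29.normalizer_le_of_coatom hM (zOf_ne_bot r M hrd) (zOf_le r M)
        (le_normalizer_zOf r M)))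
  -- `Ks = 1`
  have hLKs : L ≤ Subgroup.normalizer (Ks : Set G) := by
    rw [Subgroup.le_normalizer_iff]
    intro l hl k hk
    have h1 := Subgroup.mem_centralizer_iff.mp (hKs hk) l hl
    have h2 : l * k * l⁻¹ = k := by rw [h1]; group
    rw [h2]; exact hk
  have hKsC := Bn.le_centralizer_fittingOf_of_inv hL hCL (hKs.trans hCLM) hLKs hKscop
  have hKsF : Ks ≤ fittingOf M := fun k hk =>
    centralizer_fittingOf_le hMs (Subgroup.mem_inf.mpr ⟨hCLM (hKs hk), hKsC hk⟩)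
  have hKs1 : ∀ k ∈ Ks, k = 1 := fun k hk => Bn.eq_one_of_mem_coprime hKscop hk (hKsF hk)
  have huniq : ∀ q : ℕ, q.Prime → ¬ q ∣ Nat.card (fittingOf M) →
      ∀ Q₁ ∈ maxInvSubgroups ⊤ L {q}, ∀ Q₂ ∈ maxInvSubgroups ⊤ L {q}, Q₂ = Q₁ := by
    intro q hq hqF Q₁ h₁ Q₂ h₂
    obtain ⟨k, hk, hkQ⟩ := htrans q hq hqF Q₁ h₁ Q₂ h₂
    rw [hkQ, hKs1 k hk, cj_one]
  intro Y hY hLY
  have hLtop : L ≠ ⊤ := fun h => hM.1 (top_le_iff.mp (h ▸ hL.trans (fittingOf_le M)))
  have hLsol : Group.IsSolvable ↥L := minSimple_solvable hG hLtop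
  have hcop : (Nat.card L).Coprime (Nat.card Y) :=
    (Nat.Coprime.coprime_dvd_right (Subgroup.card_dvd_of_le hL) hY).symm
  apply le_bot_iff.mp
  apply le_of_sylSet_le
  intro q hq
  have : Fact q.Prime := ⟨hq⟩
  obtain ⟨S, hS, hLS⟩ := exists_invariant_sylow (q := q) L Y hLY hcop hLsol
  refine ⟨S, hS, ?_⟩
  by_cases hqF : q ∣ Nat.card (fittingOf M)
  · have h1 : Nat.card S = 1 := by
      rw [hS.2, Nat.factorization_eq_zero_of_not_dvd, pow_zero]
      intro hqY
      have h2 := Nat.dvd_gcd hqY hqF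
      rw [Nat.Coprime.gcd_eq_one hY] at h2
      exact hq.one_lt.ne' (Nat.dvd_one.mp h2)
    rw [Subgroup.card_eq_one.mp h1]
  · have h1 := inv_trivial_of_unique hG hM hL hqF (huniq q hq hqF) S
      ⟨le_top, primes_of_isPGroup (isPGroup_of_mem_sylSet hS), hLS⟩
    rw [h1]

/-- the Thompson transitivity hypotheses for `A ∈ SCN(P)`, `P` a Sylow `p`-subgroup of `G` -/
theorem ttHyp_of_scn (hG : IsMinSimpleOddOrder G) {p : ℕ} [Fact p.Prime] (hp2 : p ≠ 2)
    {P A : Subgroup G} (hP : P ∈ sylSet p ⊤) (hA : IsSCN P A) : TTHyp p A := by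
  have hPp : IsPGroup p P := isPGroup_of_mem_sylSet hP
  have hAc := scn_comm hA
  obtain ⟨hAP, hPA, hAcent⟩ := hA
  have hAp : IsPGroup p A := hPp.to_le hAP
  have hcardP : Nat.card P = p ^ (Nat.card G).factorization p := by
    have := hP.2; rwa [Subgroup.card_top] at this
  have hfull : ∀ x ∈ Subgroup.centralizer (A : Set G), (∃ j : ℕ, x ^ p ^ j = 1) → x ∈ A :=
    scn_full (Sylow.ofCard P hcardP) hAP hPA hAcent
  have hloc : ∀ T : Subgroup G, IsPGroup p T → T ≠ ⊥ →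
      IsPConstrained p ↥(Subgroup.normalizer (T : Set G)) := by
    intro T hT hT1
    have hne := minSimple_normalizer_ne_top hG hT1 (minSimple_pgroup_ne_top hG hT)
    exact isPConstrained_of_isSolvable (minSimple_solvable hG hne) p
  exact ⟨hAp, hAc, hfull, hloc, Or.inl hp2⟩

theorem exists_elemAb_cube {p : ℕ} [Fact p.Prime] {A : Subgroup G} (hAp : IsPGroup p A)
    (hA3 : ¬ PRankLE p 2 ↥A) :
    ∃ A₀ : Subgroup G, A₀ ≤ A ∧ IsElementaryAbelian p A₀ ∧ p ^ 3 ≤ Nat.card A₀ := by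
  have hp := (Fact.out : p.Prime)
  obtain ⟨A₀, hA₀A, hA₀c, hA₀e, hA₀card⟩ := exists_of_not_prankLE hA3
  refine ⟨A₀, hA₀A, ⟨⟨⟨fun a b => Subtype.ext (hA₀c a.1 a.2 b.1 b.2)⟩⟩, hA₀e⟩, ?_⟩
  obtain ⟨m, hm⟩ := IsPGroup.iff_card.mp (hAp.to_le hA₀A)
  rw [hm] at hA₀card ⊢
  have := (Nat.pow_lt_pow_iff_right hp.one_lt).mp hA₀card
  exact Nat.pow_le_pow_right hp.pos (by omega)

/-- a normal `p`-subgroup of `M` lies in every Sylow `p`-subgroup of `M` -/
theorem normal_pgroup_le_sylSet {p : ℕ} [Fact p.Prime] {M P N : Subgroup G}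
    (hP : P ∈ sylSet p M) (hNM : N ≤ M) (hN : IsPGroup p N)
    (hMN : M ≤ Subgroup.normalizer (N : Set G)) : N ≤ P := by
  have hPp := isPGroup_of_mem_sylSet hP
  have hSp : IsPGroup p (N ⊔ P : Subgroup G) :=
    IsPGroup.to_sup_of_normal_left' hN hPp (hP.1.trans hMN)
  have h := sylSet_eq_of_le hP hSp (sup_le hNM hP.1) le_sup_right
  rw [← h]
  exact le_sup_left

theorem pPrimePCoreOf_le_fittingOf_of_core_bot {p : ℕ} [Fact p.Prime] {M : Subgroup G}
    (hK : pPrimeCoreOf p M = ⊥) : pPrimePCoreOf p M ≤ fittingOf M := by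
  have hK' : pPrimeCore p ↥M = ⊥ := by
    unfold pPrimeCoreOf at hK
    exact (Subgroup.map_eq_bot_iff_of_injective _ M.subtype_injective).mp hK
  apply Subgroup.map_mono
  have hn : (pPrimePCore p ↥M).Normal := pPrimePCore_normal32 p
  have hpg : IsPGroup p ↥(pPrimePCore p ↥M) := by
    obtain ⟨j, hj⟩ := IsPGroup.iff_card.mp
      (Cfsg.Agent.Lib.Helper30.pCore_isPGroup (G := ↥M ⧸ pPrimeCore p ↥M) p)
    apply IsPGroup.of_card (n := j)
    have e2 : Nat.card (pPrimePCore p ↥M) =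
        Nat.card (pPrimeCore p ↥M) * Nat.card (pCore p (↥M ⧸ pPrimeCore p ↥M)) :=
      Cfsg.Agent.Lib.Helper30.card_comap_mk' (pPrimeCore p ↥M) _
    rw [e2, hj, hK', Subgroup.card_bot, one_mul]
  exact le_sSup ⟨hn, hpg.isNilpotent⟩

/-- **B&G Theorem 8.1(b).** -/
theorem scn3_of_fitting_pgroup (hG : IsMinSimpleOddOrder G) {M : Subgroup G} (hM : IsCoatom M)
    {p : ℕ} [Fact p.Prime] (hFp : IsPGroup p ↥(fittingOf M)) (hF1 : fittingOf M ≠ ⊥)
    {P : Subgroup G} (hP : P ∈ sylSet p M) :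
    P ∈ sylSet p ⊤ ∧ ∀ A : Subgroup G, IsSCN P A → ¬ PRankLE p 2 ↥A →
      A ≤ fittingOf M ∧ UniqIn M A := by
  classical
  have hp := (Fact.out : p.Prime)
  have hMs := minSimple_solvable hG hM.1
  have hModd := minSimple_odd_sub hG M
  have hPp := isPGroup_of_mem_sylSet hP
  obtain ⟨j, hj⟩ := IsPGroup.iff_card.mp hFp
  have hj0 : 0 < j := by
    rcases Nat.eq_zero_or_pos j with h0 | h0
    · exfalso
      apply hF1
      apply Subgroup.card_eq_one.mp
      rw [hj, h0, pow_zero]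
    · exact h0
  have hpF : p ∣ Nat.card (fittingOf M) := hj ▸ dvd_pow_self p hj0.ne'
  have hp2 : p ≠ 2 := by
    rintro rfl
    have hodd := minSimple_odd_sub hG (fittingOf M)
    exact (Nat.not_even_iff_odd.mpr hodd) (even_iff_two_dvd.mpr hpF)
  -- `O_{p'}(M) = 1`
  have hKcop : (Nat.card (pPrimeCoreOf p M)).Coprime (Nat.card (fittingOf M)) := by
    rw [hj]; exact Nat.Coprime.pow_right j (pPrimeCoreOf_coprime M)
  have hK : pPrimeCoreOf p M = ⊥ := by
    have hKC := Bn.le_centralizer_fittingOf_of_inv (M := fittingOf M) (H := M) le_rfl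
      inf_le_left (pPrimeCoreOf_le M)
      ((fittingOf_le M).trans (le_normalizer_pPrimeCoreOf M)) hKcop
    rw [eq_bot_iff]
    intro k hk
    rw [Subgroup.mem_bot]
    exact Bn.eq_one_of_mem_coprime hKcop hk
      (centralizer_fittingOf_le hMs (Subgroup.mem_inf.mpr ⟨pPrimeCoreOf_le M hk, hKC hk⟩))
  have hFP : fittingOf M ≤ P :=
    normal_pgroup_le_sylSet hP (fittingOf_le M) hFp (le_normalizer_fittingOf M)
  have hP1 : P ≠ ⊥ := fun h => hF1 (le_bot_iff.mp (h ▸ hFP))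
  have hNP : Subgroup.normalizer (P : Set G) ≤ M := by
    have h1 := le_normalizer_relZ_of_core_bot hp2 hMs hModd hK hP
    have h2 := normalizer_eq_of_coatom hG hM (relZ_ne_bot hPp hP1) ((relZ_le P).trans hP.1) h1
    exact (normalizer_le_normalizer_relZ P).trans h2.le
  have hPG : P ∈ sylSet p ⊤ := mem_sylSet_of_normalizer_le hP hNP le_top
  refine ⟨hPG, ?_⟩
  intro A hA hA3
  have hAp : IsPGroup p A := hPp.to_le hA.1
  have hAF : A ≤ fittingOf M :=
    (normal_abelian_le_pPrimePCoreOf hp2 hMs hModd hP hA.1 (scn_comm hA) hA.2.1).trans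
      (pPrimePCoreOf_le_fittingOf_of_core_bot hK)
  refine ⟨hAF, ?_⟩
  have hTT := ttHyp_of_scn hG hp2 hPG hA
  obtain ⟨A₀, hA₀A, hA₀, hA₀3⟩ := exists_elemAb_cube hAp hA3
  have hA1 : A ≠ ⊥ := by
    rintro rfl
    have h1 : A₀ = ⊥ := le_bot_iff.mp hA₀A
    rw [h1, Subgroup.card_bot] at hA₀3
    have := Nat.one_lt_pow (n := 3) (by norm_num) hp.one_lt
    omega
  have hCA : fittingOf M ⊓ Subgroup.centralizer (A : Set G) ≤ A := by
    have h1 : fittingOf M ⊓ Subgroup.centralizer (A : Set G) ≤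
        P ⊓ Subgroup.centralizer (A : Set G) := inf_le_inf_right _ hFP
    rw [hA.2.2] at h1
    exact h1
  have hCcop : (Nat.card (piCoreOf (primesNotDvd p) (Subgroup.centralizer (A : Set G)))).Coprime
      (Nat.card (fittingOf M)) := by
    rw [hj]
    apply Nat.Coprime.pow_right
    rw [Nat.coprime_comm, Nat.Prime.coprime_iff_not_dvd hp]
    intro hd
    exact (piCoreOf_primes _ _ p hp hd).2 (dvd_refl p)
  have key := inv_trivial_of_trans hG hM hAF hA1 hCA (piCoreOf_le _ _) hCcop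
    (fun q hq hqF Q₁ h₁ Q₂ h₂ => by
      have : Fact q.Prime := ⟨hq⟩
      have hne : q ≠ p := fun h => hqF (h ▸ hpF)
      exact thompson_trans hTT hA₀A hA₀ hA₀3 hne h₁ h₂)
  apply uniq_of_inv hG hM (hAF.trans (fittingOf_le M)) hAp hA1
  intro Y hY hAY
  have hY' : (Nat.card Y).Coprime (Nat.card (fittingOf M)) := by
    rw [hj]; exact Nat.Coprime.pow_right j hY
  rw [key Y hY' hAY]
  exact bot_le

/-- **B&G Theorem 8.1(a).** -/
theorem uniq_centralizer_of_fitting (hG : IsMinSimpleOddOrder G) {M : Subgroup G}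
    (hM : IsCoatom M) {p : ℕ} [Fact p.Prime] {A₀ : Subgroup G} (hA₀ : A₀ ≤ fittingOf M)
    (hA₀c : ∀ a ∈ A₀, ∀ b ∈ A₀, a * b = b * a) (hA₀e : ∀ a ∈ A₀, a ^ p = 1)
    (hA₀3 : p ^ 3 ≤ Nat.card A₀) (hFnp : ¬ IsPGroup p ↥(fittingOf M)) :
    UniqIn M (fittingOf M ⊓ Subgroup.centralizer (A₀ : Set G)) := by
  classical
  have hp := (Fact.out : p.Prime)
  have hMs := minSimple_solvable hG hM.1
  have hsimple : IsSimpleGroup G := hG.2.1
  set F := fittingOf M with hF
  set L := F ⊓ Subgroup.centralizer (A₀ : Set G) with hL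
  have hLF : L ≤ F := inf_le_left
  have hA₀L : A₀ ≤ L := by
    intro a ha
    refine Subgroup.mem_inf.mpr ⟨hA₀ ha, ?_⟩
    rw [Subgroup.mem_centralizer_iff]
    intro b hb
    exact hA₀c b hb a ha
  have hA₀1 : A₀ ≠ ⊥ := by
    rintro rfl
    rw [Subgroup.card_bot] at hA₀3
    have := Nat.one_lt_pow (n := 3) (by norm_num) hp.one_lt
    omega
  have hL1 : L ≠ ⊥ := fun h => hA₀1 (le_bot_iff.mp (h ▸ hA₀L))
  have hLtop : L ≠ ⊤ := fun h => hM.1 (top_le_iff.mp (h ▸ hLF.trans (fittingOf_le M)))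
  have hCL : F ⊓ Subgroup.centralizer (L : Set G) ≤ L := by
    intro x hx
    refine Subgroup.mem_inf.mpr ⟨hx.1, ?_⟩
    rw [Subgroup.mem_centralizer_iff]
    intro a ha
    exact Subgroup.mem_centralizer_iff.mp hx.2 a (hA₀L ha)
  have hZL : F ⊓ Subgroup.centralizer (F : Set G) ≤ L := by
    intro x hx
    apply hCL
    refine Subgroup.mem_inf.mpr ⟨hx.1, ?_⟩
    rw [Subgroup.mem_centralizer_iff]
    intro l hl
    exact Subgroup.mem_centralizer_iff.mp hx.2 l (hLF hl)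
  -- primes of `F` and `L` agree
  have hprimes : ∀ r : ℕ, r.Prime → r ∣ Nat.card F → r ∣ Nat.card L := by
    intro r hr hrd
    have : Fact r.Prime := ⟨hr⟩
    have hz1 := zOf_ne_bot r M hrd
    have hzp := isPGroup_zOf r M
    obtain ⟨k, hk⟩ := IsPGroup.iff_card.mp hzp
    have hk0 : k ≠ 0 := by
      rintro rfl
      apply hz1
      apply Subgroup.card_eq_one.mp
      rw [hk, pow_zero]
    have h1 : Nat.card (zOf r M) ∣ Nat.card L :=
      Subgroup.card_dvd_of_le ((zOf_le_center r M).trans hZL)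
    exact dvd_trans (hk ▸ dvd_pow_self r hk0) h1
  have hcardLF : Nat.card L ∣ Nat.card F := Subgroup.card_dvd_of_le hLF
  have hπ : primesNotDvd (Nat.card L) = primesNotDvd (Nat.card F) := by
    ext q
    constructor
    · rintro ⟨hq, hqL⟩
      exact ⟨hq, fun h => hqL (hprimes q hq h)⟩
    · rintro ⟨hq, hqF⟩
      exact ⟨hq, fun h => hqF (dvd_trans h hcardLF)⟩
  -- two primes
  have hpF : p ∣ Nat.card F := by
    obtain ⟨m, hm⟩ := IsPGroup.iff_card.mp
      (show IsPGroup p A₀ from fun g => ⟨1, by rw [pow_one]; exact Subtype.ext (hA₀e g.1 g.2)⟩)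
    have hm0 : m ≠ 0 := by
      rintro rfl
      apply hA₀1
      apply Subgroup.card_eq_one.mp
      rw [hm, pow_zero]
    exact dvd_trans (hm ▸ dvd_pow_self p hm0) (Subgroup.card_dvd_of_le hA₀)
  have hF2 : 2 ≤ (Nat.card F).primeFactors.card := by
    have hex : ∃ r : ℕ, r.Prime ∧ r ∣ Nat.card F ∧ r ≠ p := by
      by_contra hcon
      push Not at hcon
      apply hFnp
      exact IsPGroup.of_card (Nat.eq_prime_pow_of_unique_prime_dvd Nat.card_pos.ne'
        (fun {d} hd hdvd => hcon d hd hdvd))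
    obtain ⟨r, hr, hrd, hrp⟩ := hex
    have hsub : ({p, r} : Finset ℕ) ⊆ (Nat.card F).primeFactors := by
      intro x hx
      rw [Finset.mem_insert, Finset.mem_singleton] at hx
      rcases hx with rfl | rfl
      · exact Nat.mem_primeFactors.mpr ⟨hp, hpF, Nat.card_pos.ne'⟩
      · exact Nat.mem_primeFactors.mpr ⟨hr, hrd, Nat.card_pos.ne'⟩
    have := Finset.card_le_card hsub
    rwa [Finset.card_pair (Ne.symm hrp)] at this
  have hZH : ∀ r : ℕ, r.Prime → r ∣ Nat.card F →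
      Subgroup.centralizer (zOf r M : Set G) ≤ M := by
    intro r hr hd
    have : Fact r.Prime := ⟨hr⟩
    exact (Subgroup.centralizer_le_normalizer _).trans
      (Cfsg.Agent.Lib.Helper29.normalizer_le_of_coatom hM (zOf_ne_bot r M hd) (zOf_le r M)
        (le_normalizer_zOf r M))
  have hCMF : M ⊓ Subgroup.centralizer (F : Set G) ≤ L := by
    intro x hx
    apply hZL
    exact Subgroup.mem_inf.mpr ⟨centralizer_fittingOf_le hMs hx, hx.2⟩
  -- the transitivity hypothesis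
  have hTH : TransitivityHypothesis L := by
    refine ⟨hL1, hLtop, ?_⟩
    intro X hX hLX
    have hXs := minSimple_solvable hG hX
    apply le_antisymm
    · apply sSup_le
      rintro Y ⟨hYX, hYπ, hLY⟩
      rw [hπ]
      apply Bn.inv_le_piCoreOf_of_fitting hZH hF2 hLF hCL hXs (hLX.trans Subgroup.le_normalizer)
        (hCMF.trans (hLX.trans Subgroup.le_normalizer)) hYX hLY
      exact Nat.Coprime.symm (Nat.coprime_of_dvd (fun k hk hkF hkY =>
        (hπ ▸ hYπ k hk hkY).2 hkF))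
    · apply le_sSup
      exact ⟨piCoreOf_le _ X, piCoreOf_primes _ X, hLX.trans (le_normalizer_piCoreOf _ X)⟩
  have hrank : ¬ RankLE 2 ↥(L ⊓ Subgroup.centralizer (L : Set G)) := by
    intro h
    have hA₀Z : A₀ ≤ L ⊓ Subgroup.centralizer (L : Set G) := by
      intro a ha
      refine Subgroup.mem_inf.mpr ⟨hA₀L ha, ?_⟩
      rw [Subgroup.mem_centralizer_iff]
      intro l hl
      exact (Subgroup.mem_centralizer_iff.mp hl.2 a ha).symm
    refine not_prankLE_of_le (k := 2) hA₀Z hA₀c hA₀e ?_ (h p hp)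
    exact lt_of_lt_of_le (Nat.pow_lt_pow_right hp.one_lt (by norm_num)) hA₀3
  have hKscop : (Nat.card (piCoreOf (primesNotDvd (Nat.card L))
      (Subgroup.centralizer (L : Set G)))).Coprime (Nat.card F) := by
    apply Nat.Coprime.symm
    apply Nat.coprime_of_dvd
    intro k hk hkF hkK
    exact (piCoreOf_primes _ _ k hk hkK).2 (hprimes k hk hkF)
  have key := inv_trivial_of_trans hG hM hLF hL1 hCL (piCoreOf_le _ _) hKscop
    (fun q hq hqF Q₁ h₁ Q₂ h₂ =>
      Cfsg.Agent.S1393.result hG L hTH hrank q hq (fun h => hqF (dvd_trans h hcardLF))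
        Q₁ h₁ Q₂ h₂)
  intro H hH hLH
  apply coatom_unique_of_inv_trivial (fun X hX => minSimple_solvable hG hX) M hM hF2 L hZL ?_ H hH
    hLH
  rintro Y ⟨-, hYπ, hLY⟩
  apply key Y ?_ hLY
  exact Nat.Coprime.symm (Nat.coprime_of_dvd (fun k hk hkF hkY => (hYπ k hk hkY).2 hkF))

end Uniq7

end Cfsg.Agent.Lib.Helper32
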